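import Cfsg.Agent.Lib.LocalEven.AltAut
import Cfsg.Agent.Lib.Alt.Orders

/-!
# Automorphisms of odd order of alternating groups are inner; `p`-subgroups of small symmetric groups
-/

set_option autoImplicit false

namespace Cfsg.Agent.Lib.FG7.AltOddAut

open Equiv Equiv.Perm Subgroup
open Cfsg.Agent.Lib.LocalEven.AltAut
open Cfsg.Agent.S2119 (three_preserved)

variable {n : ℕ}

theorem three_preserved_six_odd (ff : MulAut (alternatingGroup (Fin 6))) (m : ℕ) (hm : Odd m) (hff : ff ^ m = 1)
    (g : alternatingGroup (Fin 6)) (hg : (g : Perm (Fin 6)).IsThreeCycle) :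
    ((ff g : alternatingGroup (Fin 6)) : Perm (Fin 6)).IsThreeCycle := by
  classical
  by_contra hcon
  -- orders
  have hord : ∀ h : alternatingGroup (Fin 6), orderOf (h : Perm (Fin 6)) = 3 →
      orderOf ((ff h : alternatingGroup (Fin 6)) : Perm (Fin 6)) = 3 := by
    intro h hh
    rw [Subgroup.orderOf_coe, MulEquiv.orderOf_eq, ← Subgroup.orderOf_coe, hh]
  have hdich : ∀ h : alternatingGroup (Fin 6), (h : Perm (Fin 6)).IsThreeCycle →
      ((ff h : alternatingGroup (Fin 6)) : Perm (Fin 6)).cycleType = Multiset.replicate 2 3 := by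
    intro h hh
    have hgh : IsConj g h := alternatingGroup.isThreeCycle_isConj (by simp) hg hh
    obtain ⟨c, hc⟩ := isConj_iff.1 hgh
    have h1 : ff h = ff c * ff g * (ff c)⁻¹ := by rw [← hc]; simp
    have h2 : ((ff h : alternatingGroup (Fin 6)) : Perm (Fin 6)) =
        (ff c : Perm (Fin 6)) * (ff g : Perm (Fin 6)) * (ff c : Perm (Fin 6))⁻¹ := by
      rw [h1]
      rfl
    have h3 : ((ff g : alternatingGroup (Fin 6)) : Perm (Fin 6)).cycleType = Multiset.replicate 2 3 :=
      (cycleType_of_order_three _ (hord g hg.orderOf)).resolve_left hcon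
    rw [h2, cycleType_conj, h3]
  set S₁ : Set (alternatingGroup (Fin 6)) := {h | (h : Perm (Fin 6)).cycleType = {3}} with hS₁
  set S₂ : Set (alternatingGroup (Fin 6)) :=
    {h | (h : Perm (Fin 6)).cycleType = Multiset.replicate 2 3} with hS₂
  have hc₁ : S₁.ncard = 40 :=
    ncard_of_even _ (fun g hg => IsThreeCycle.mem_alternatingGroup hg) _ card_cycleType_three
  have hc₂ : S₂.ncard = 40 := by
    refine ncard_of_even _ (fun g hg => ?_) _ card_cycleType_three_three
    rw [mem_alternatingGroup, sign_of_cycleType, hg]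
    decide
  have himg : ff '' S₁ = S₂ := by
    apply Set.eq_of_subset_of_ncard_le
    · rintro _ ⟨h, hh, rfl⟩
      exact hdich h hh
    · rw [Set.ncard_image_of_injective _ ff.injective, hc₁, hc₂]
    · exact Set.toFinite _
  have hswap : ∀ h : alternatingGroup (Fin 6), (h : Perm (Fin 6)).cycleType = Multiset.replicate 2 3 →
      ((ff h : alternatingGroup (Fin 6)) : Perm (Fin 6)).IsThreeCycle := by
    intro h hh
    have hordh : orderOf (h : Perm (Fin 6)) = 3 := by
      rw [← lcm_cycleType, hh]
      decide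
    rcases cycleType_of_order_three _ (hord h hordh) with h3 | h3
    · exact h3
    · exfalso
      have hmem : ff h ∈ S₂ := h3
      rw [← himg] at hmem
      obtain ⟨h', hh', heq⟩ := hmem
      have : h' = h := ff.injective heq
      subst this
      have h4 : (h' : Perm (Fin 6)).cycleType = {3} := hh'
      rw [h4] at hh
      revert hh
      decide
  have hiter : ∀ k : ℕ, ((ff ^ (2 * k)) g : Perm (Fin 6)).IsThreeCycle ∧
      ((ff ^ (2 * k + 1)) g : Perm (Fin 6)).cycleType = Multiset.replicate 2 3 := by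
    intro k
    induction k with
    | zero =>
      refine ⟨by simpa using hg, ?_⟩
      simpa using hdich g hg
    | succ k ih =>
      have e1 : (ff ^ (2 * (k + 1))) g = ff ((ff ^ (2 * k + 1)) g) := by
        have : 2 * (k + 1) = 1 + (2 * k + 1) := by ring
        rw [this, pow_add, pow_one]
        rfl
      have e2 : (ff ^ (2 * (k + 1) + 1)) g = ff ((ff ^ (2 * (k + 1))) g) := by
        rw [pow_succ' ff (2 * (k + 1))]
        rfl
      have h1 : (((ff ^ (2 * (k + 1))) g : alternatingGroup (Fin 6)) : Perm (Fin 6)).IsThreeCycle := by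
        rw [e1]
        exact hswap _ ih.2
      refine ⟨h1, ?_⟩
      rw [e2]
      exact hdich _ h1
  obtain ⟨k, hk⟩ : ∃ k, m = 2 * k + 1 := hm.exists_bit1
  have h1 := (hiter k).2
  rw [← hk, hff] at h1
  have h2 : (g : Perm (Fin 6)).cycleType = {3} := hg
  have h3 : (g : Perm (Fin 6)).cycleType = Multiset.replicate 2 3 := h1
  rw [h2] at h3
  revert h3
  decide

/-- An automorphism of odd order of `Alt(n)` is inner. -/
theorem exists_inner_of_odd (hn : 4 ≤ n) (ff : MulAut (alternatingGroup (Fin n))) (m : ℕ) (hm : Odd m)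
    (hff : ff ^ m = 1) :
    ∃ a : alternatingGroup (Fin n), ∀ g, ff g = a * g * a⁻¹ := by
  classical
  have hpres : ∀ g : alternatingGroup (Fin n), (g : Perm (Fin n)).IsThreeCycle →
      ((ff g : alternatingGroup (Fin n)) : Perm (Fin n)).IsThreeCycle := by
    intro g hg
    by_cases h6 : n = 6
    · subst h6
      exact three_preserved_six_odd ff m hm hff g hg
    · exact three_preserved h6 ff g hg
  obtain ⟨σ, hσ⟩ := surj_of_preserve hn ff hpres
  have h1 : σ ^ m = 1 := by
    apply Cfsg.Agent.S2119.inj hn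
    rw [map_pow, hσ, hff, map_one]
  have hs : sign σ = 1 := by
    have h2 : (sign σ) ^ m = 1 := by rw [← map_pow, h1, map_one]
    obtain ⟨k, hk⟩ : ∃ k, m = 2 * k + 1 := hm.exists_bit1
    rcases Int.units_eq_one_or (sign σ) with h3 | h3
    · exact h3
    · rw [h3, hk] at h2
      rw [pow_succ, pow_mul] at h2
      simp at h2
  refine ⟨⟨σ, mem_alternatingGroup.2 hs⟩, fun g => ?_⟩
  rw [← hσ]
  apply Subtype.ext
  rw [MulAut.conjNormal_apply]
  rfl

/-- `p`-subgroups of a symmetric group on fewer than `p²` points are abelian. -/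
theorem commute_of_card_lt {α : Type*} [Fintype α] [DecidableEq α] {p : ℕ} [hp : Fact p.Prime]
    (H : Subgroup (Perm α)) (hH : IsPGroup p H) (hc : Fintype.card α < p ^ 2) :
    ∀ x ∈ H, ∀ y ∈ H, x * y = y * x := by
  classical
  have hp' := hp.out
  intro x hx y hy
  ext i
  let O := MulAction.orbit H i
  obtain ⟨k, hk⟩ := hH.card_orbit i
  have hOle : Nat.card O ≤ Fintype.card α := by
    rw [← Nat.card_eq_fintype_card]
    exact Nat.card_le_card_of_injective _ Subtype.val_injective
  have hk' : Nat.card O = p ^ k := hk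
  have hk1 : k ≤ 1 := by
    by_contra hk2
    have h1 : p ^ 2 ≤ p ^ k := Nat.pow_le_pow_right hp'.pos (by omega)
    rw [hk'] at hOle
    omega
  have hOp : Nat.card O ≤ p := by
    rw [hk']
    calc p ^ k ≤ p ^ 1 := Nat.pow_le_pow_right hp'.pos hk1
      _ = p := pow_one p
  let ρ : H →* Perm O := MulAction.toPermHom H O
  have hrp : IsPGroup p ρ.range := hH.of_surjective ρ.rangeRestrict ρ.rangeRestrict_surjective
  obtain ⟨j, hj⟩ := IsPGroup.iff_card.mp hrp
  have hdvd : Nat.card ρ.range ∣ (Nat.card O).factorial := by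
    have h1 := Subgroup.card_subgroup_dvd_card ρ.range
    rw [Nat.card_perm] at h1
    exact h1
  have hdvd2 : Nat.card ρ.range ∣ p.factorial := hdvd.trans (Nat.factorial_dvd_factorial hOp)
  have hj1 : j ≤ 1 := by
    by_contra hj2
    have h1 : p ^ 2 ∣ p.factorial := (pow_dvd_pow p (by omega)).trans (hj ▸ hdvd2)
    obtain ⟨m, hm⟩ : ∃ m, p = m + 1 := ⟨p - 1, by have := hp'.pos; omega⟩
    rw [hm, Nat.factorial_succ, ← hm, pow_two] at h1
    have h2 : p ∣ m.factorial := Nat.dvd_of_mul_dvd_mul_left hp'.pos h1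
    have h3 := (hp'.dvd_factorial).mp h2
    omega
  have hcomm : ∀ a b : ρ.range, a * b = b * a := by
    have hcases : j = 0 ∨ j = 1 := by omega
    rcases hcases with rfl | rfl
    · rw [pow_zero] at hj
      have := (Nat.card_eq_one_iff_unique.mp hj).1
      exact fun a b => Subsingleton.elim _ _
    · rw [pow_one] at hj
      have hcy : IsCyclic ρ.range := isCyclic_of_prime_card hj
      let _ := IsCyclic.commGroup (α := ρ.range)
      exact fun a b => mul_comm a b
  have h1 := hcomm ⟨ρ ⟨x, hx⟩, ⟨_, rfl⟩⟩ ⟨ρ ⟨y, hy⟩, ⟨_, rfl⟩⟩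
  have h2 : ρ ⟨x, hx⟩ * ρ ⟨y, hy⟩ = ρ ⟨y, hy⟩ * ρ ⟨x, hx⟩ := congrArg Subtype.val h1
  have h3 := congrArg (fun f : Perm O => ((f ⟨i, MulAction.mem_orbit_self i⟩ : O) : α)) h2
  exact h3

/-- The main reduction. -/
theorem sylow_comm (n : ℕ) (hn : 5 ≤ n) (G : Subgroup (MulAut (alternatingGroup (Fin n))))
    (hG : (MulAut.conj : alternatingGroup (Fin n) →* MulAut (alternatingGroup (Fin n))).range ≤ G)
    (p q : ℕ) [hp : Fact p.Prime] [hq : Fact q.Prime] (hqp : q < p)
    (h : ∀ g : G, orderOf g ≠ p * q) (P : Sylow p G) : IsMulCommutative (P : Subgroup G) := by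
  classical
  have hp' := hp.out
  have hq' := hq.out
  have hq2 := hq'.two_le
  have hpodd : Odd p := hp'.odd_of_ne_two (by omega)
  let f : alternatingGroup (Fin n) →* G :=
    (MulAut.conj : alternatingGroup (Fin n) →* MulAut (alternatingGroup (Fin n))).codRestrict G
      (fun a => hG ⟨a, rfl⟩)
  have hf : Function.Injective f := by
    rw [← MonoidHom.ker_eq_bot_iff, eq_bot_iff]
    intro a ha
    rw [mem_bot]
    have h1 : MulAut.conj a = 1 := congrArg Subtype.val (MonoidHom.mem_ker.mp ha)
    apply Subtype.ext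
    apply Cfsg.Agent.S2119.inj (by omega : 4 ≤ n)
    rw [OneMemClass.coe_one, map_one]
    refine MulEquiv.ext fun g => Subtype.ext ?_
    have h2 := congrArg (fun φ : MulAut (alternatingGroup (Fin n)) => ((φ g : alternatingGroup (Fin n)) : Perm (Fin n))) h1
    simpa [MulAut.conjNormal_apply] using h2
  by_cases hnp : n < p ^ 2
  · let P₀ : Subgroup (alternatingGroup (Fin n)) := (P : Subgroup G).comap f
    have hP₀ : IsPGroup p P₀ := P.isPGroup'.comap_of_injective f hf
    let H : Subgroup (Perm (Fin n)) := P₀.map (alternatingGroup (Fin n)).subtype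
    have hH : IsPGroup p H := hP₀.map _
    have hc := commute_of_card_lt H hH (by rw [Fintype.card_fin]; exact hnp)
    have hinner : ∀ x : G, x ∈ (P : Subgroup G) → ∃ a ∈ P₀, f a = x := by
      intro x hx
      obtain ⟨k, hk⟩ := (IsPGroup.iff_orderOf.mp P.isPGroup') ⟨x, hx⟩
      have h1 : x ^ p ^ k = 1 := by
        have h2 := pow_orderOf_eq_one (⟨x, hx⟩ : (P : Subgroup G))
        rw [hk] at h2
        exact congrArg Subtype.val h2
      have h2 : (x : MulAut (alternatingGroup (Fin n))) ^ p ^ k = 1 := by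
        have := congrArg Subtype.val h1
        simpa using this
      obtain ⟨a, ha⟩ := exists_inner_of_odd (by omega) (x : MulAut (alternatingGroup (Fin n))) (p ^ k)
        (hpodd.pow) h2
      have hfa : f a = x := by
        apply Subtype.ext
        ext1 g
        change MulAut.conj a g = _
        rw [ha, MulAut.conj_apply]
      refine ⟨a, ?_, hfa⟩
      change f a ∈ (P : Subgroup G)
      rw [hfa]
      exact hx
    refine ⟨⟨fun x y => Subtype.ext ?_⟩⟩
    obtain ⟨a, ha, hax⟩ := hinner x x.2
    obtain ⟨b, hb, hby⟩ := hinner y y.2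
    have h1 := hc a ⟨a, ha, rfl⟩ b ⟨b, hb, rfl⟩
    have h2 : a * b = b * a := Subtype.ext h1
    change (x : G) * (y : G) = (y : G) * (x : G)
    rw [← hax, ← hby, ← map_mul, ← map_mul, h2]
  · exfalso
    push Not at hnp
    have hpq : p ^ 2 ≥ 3 * p := by nlinarith [hq2]
    by_cases hq2' : q = 2
    · obtain ⟨g, hg⟩ := Cfsg.Agent.Lib.Alt.Orders.exists_alt (n := n) ({p, 2, 2} : Multiset ℕ)
        (by simp; omega) (by simp; omega)
        (by
          simp [Cfsg.Agent.Lib.Alt.Orders.sgn_of_odd hpodd,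
            Cfsg.Agent.Lib.Alt.Orders.sgn_of_even (even_two)])
      have hord : orderOf g = p * q := by
        rw [Cfsg.Agent.Lib.Alt.Orders.orderOf_alt, hg, hq2']
        simp [Multiset.lcm_cons]
        rw [lcm_eq_nat_lcm]
        refine Nat.Coprime.lcm_eq_mul ?_
        first
          | exact (Nat.coprime_primes hp' hq').mpr (by omega)
          | exact (Nat.coprime_primes hp' Nat.prime_two).mpr (by omega)
      apply h (f g)
      rw [orderOf_injective f hf, hord]
    · have hqodd : Odd q := hq'.odd_of_ne_two hq2'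
      obtain ⟨g, hg⟩ := Cfsg.Agent.Lib.Alt.Orders.exists_alt (n := n) ({p, q} : Multiset ℕ)
        (by simp; omega) (by simp; omega)
        (by
          simp [Cfsg.Agent.Lib.Alt.Orders.sgn_of_odd hpodd,
            Cfsg.Agent.Lib.Alt.Orders.sgn_of_odd hqodd])
      have hord : orderOf g = p * q := by
        rw [Cfsg.Agent.Lib.Alt.Orders.orderOf_alt, hg]
        simp [Multiset.lcm_cons]
        rw [lcm_eq_nat_lcm]
        refine Nat.Coprime.lcm_eq_mul ?_
        first
          | exact (Nat.coprime_primes hp' hq').mpr (by omega)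
          | exact (Nat.coprime_primes hp' Nat.prime_two).mpr (by omega)
      apply h (f g)
      rw [orderOf_injective f hf, hord]

end Cfsg.Agent.Lib.FG7.AltOddAut
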