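import Cfsg.Agent.Lib.PGroups.ClassTwo

/-!
# Counting automorphism orbits by weights
-/

set_option autoImplicit false

namespace Cfsg.Agent.Lib.FG7.AutOrbitCount

open MulAction

variable {G : Type*} [Group G] [Fintype G]

/-- Orbit of `x` under all automorphisms. -/
abbrev O (x : G) : Set G := MulAction.orbit (MulAut G) x

/-- The number of orbits is the sum of the reciprocals of the orbit sizes. -/
theorem card_orbits_eq_sum :
    (Nat.card (orbitRel.Quotient (MulAut G) G) : ℚ) = ∑ x : G, (1 : ℚ) / (O x).ncard := by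
  classical
  haveI : Fintype (orbitRel.Quotient (MulAut G) G) := Fintype.ofFinite _
  let q : G → orbitRel.Quotient (MulAut G) G := fun x => Quotient.mk'' x
  have hfib : ∀ (x : G), (Finset.univ.filter (fun y => q y = q x) : Finset G) = (O x).toFinset := by
    intro x
    ext y
    simp only [Finset.mem_filter, Finset.mem_univ, true_and, Set.mem_toFinset]
    rw [Quotient.eq'']
    exact Iff.rfl
  rw [← Finset.sum_fiberwise (s := Finset.univ) (g := q) (f := fun x : G => (1 : ℚ) / (O x).ncard)]
  rw [Nat.card_eq_fintype_card, ← Finset.card_univ, Finset.card_eq_sum_ones]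
  push_cast
  apply Finset.sum_congr rfl
  intro c _
  induction c using Quotient.inductionOn' with
  | h x =>
    have h1 : ∀ y ∈ Finset.univ.filter (fun y => q y = Quotient.mk'' x),
        (1 : ℚ) / (O y).ncard = 1 / (O x).ncard := by
      intro y hy
      simp only [Finset.mem_filter, Finset.mem_univ, true_and] at hy
      have : orbit (MulAut G) y = orbit (MulAut G) x := by
        have h2 : y ∈ orbit (MulAut G) x := Quotient.eq''.mp hy
        exact MulAction.orbit_eq_iff.mpr h2
      rw [O, O, this]
    rw [Finset.sum_congr rfl h1, Finset.sum_const, hfib x]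
    have h3 : (O x).toFinset.card = (O x).ncard := by
      rw [Set.ncard_eq_toFinset_card']
    rw [h3, nsmul_eq_mul]
    have h4 : ((O x).ncard : ℚ) ≠ 0 := by
      have : 0 < (O x).ncard := (Set.ncard_pos (Set.toFinite _)).mpr ⟨x, mem_orbit_self x⟩
      positivity
    field_simp

/-- A three-level bound for a sum. -/
theorem sum_le_three [DecidableEq G] (w : G → ℚ) (A B : Finset G) (hAB : A ⊆ B) (a b d : ℚ)
    (hA : ∀ x ∈ A, w x ≤ a) (hB : ∀ x ∈ B, x ∉ A → w x ≤ b) (hd : ∀ x, x ∉ B → w x ≤ d) :
    ∑ x, w x ≤ A.card * a + (B.card - A.card) * b + (Fintype.card G - B.card) * d := by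
  have h1 : ∑ x, w x = ∑ x ∈ A, w x + ∑ x ∈ B \ A, w x + ∑ x ∈ Finset.univ \ B, w x := by
    have h2 := Finset.sum_sdiff (s₁ := A) (s₂ := B) (f := w) hAB
    have h3 := Finset.sum_sdiff (s₁ := B) (s₂ := Finset.univ) (f := w) (Finset.subset_univ _)
    linarith
  rw [h1]
  have h2 : ∑ x ∈ A, w x ≤ A.card * a := by
    have := Finset.sum_le_card_nsmul A w a hA
    simpa [nsmul_eq_mul] using this
  have h3 : ∑ x ∈ B \ A, w x ≤ (B.card - A.card) * b := by
    have := Finset.sum_le_card_nsmul (B \ A) w b (fun x hx => by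
      rw [Finset.mem_sdiff] at hx; exact hB x hx.1 hx.2)
    rw [Finset.card_sdiff_of_subset hAB] at this
    have h4 : ((B.card - A.card : ℕ) : ℚ) = (B.card : ℚ) - A.card := by
      rw [Nat.cast_sub (Finset.card_le_card hAB)]
    simpa [nsmul_eq_mul, h4] using this
  have h4 : ∑ x ∈ Finset.univ \ B, w x ≤ (Fintype.card G - B.card) * d := by
    have := Finset.sum_le_card_nsmul (Finset.univ \ B) w d (fun x hx => by
      rw [Finset.mem_sdiff] at hx; exact hd x hx.2)
    rw [Finset.card_sdiff_of_subset (Finset.subset_univ _), Finset.card_univ] at this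
    have h4 : ((Fintype.card G - B.card : ℕ) : ℚ) = (Fintype.card G : ℚ) - B.card := by
      rw [Nat.cast_sub (by rw [← Finset.card_univ]; exact Finset.card_le_card (Finset.subset_univ _))]
    simpa [nsmul_eq_mul, h4] using this
  linarith


/-! ### Basic facts -/

open Subgroup
open scoped commutatorElement
open Cfsg.Agent.Lib.PGroups.ClassTwo

omit [Fintype G] in
theorem minFac_le_index [Finite G] {H : Subgroup G} (hH : H ≠ ⊤) :
    (Nat.card G).minFac ≤ H.index := by
  have h1 : H.index ≠ 1 := fun h => hH (Subgroup.index_eq_one.mp h)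
  have h0 : H.index ≠ 0 := Subgroup.index_ne_zero_of_finite
  exact Nat.minFac_le_of_dvd (by omega) (Subgroup.index_dvd_card H)

omit [Fintype G] in
theorem minFac_mul_card_le [Finite G] {H K : Subgroup G} (hHK : H < K) :
    (Nat.card G).minFac * Nat.card H ≤ Nat.card K := by
  have h1 : H.relIndex K * Nat.card H = Nat.card K := by
    have h0 := Subgroup.card_mul_index (H.subgroupOf K)
    have h00 : Nat.card (H.subgroupOf K) = Nat.card H :=
      Nat.card_congr (Subgroup.subgroupOfEquivOfLe hHK.le).toEquiv
    rw [h00] at h0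
    rw [Subgroup.relIndex, mul_comm]
    exact h0
  have h2 : H.relIndex K ≠ 1 := by
    intro h
    have := Subgroup.relIndex_eq_one.mp h
    exact absurd (this) (not_le_of_gt hHK)
  have h0 : H.relIndex K ≠ 0 := by
    intro h
    rw [h, zero_mul] at h1
    exact Nat.card_pos.ne' h1.symm
  have h3 : H.relIndex K ∣ Nat.card G :=
    (Subgroup.relIndex_dvd_card H K).trans (Subgroup.card_subgroup_dvd_card K)
  have h4 : (Nat.card G).minFac ≤ H.relIndex K := Nat.minFac_le_of_dvd (by omega) h3
  rw [← h1]
  exact Nat.mul_le_mul_right _ h4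

omit [Fintype G] in
theorem mem_center_iff_index_one [Finite G] (x : G) :
    x ∈ center G ↔ centralizer ({x} : Set G) = ⊤ := by
  constructor
  · intro h
    rw [eq_top_iff]
    intro g _
    rw [Subgroup.mem_centralizer_singleton_iff]
    exact (mem_center_iff.mp h g)
  · intro h
    rw [mem_center_iff]
    intro g
    have : g ∈ centralizer ({x} : Set G) := h ▸ Subgroup.mem_top g
    rw [Subgroup.mem_centralizer_singleton_iff] at this
    exact this

omit [Fintype G] in
theorem not_center_ge' [Finite G] {x : G} (hx : x ∉ center G) :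
    (Nat.card G).minFac ≤ (centralizer ({x} : Set G)).index :=
  minFac_le_index (fun h => hx ((mem_center_iff_index_one x).mpr h))

/-- The conjugacy class of `x`. -/
abbrev Cl (x : G) : Set G := MulAction.orbit (ConjAct G) x

omit [Fintype G] in
theorem ncard_Cl [Finite G] (x : G) : (MulAction.orbit (ConjAct G) x).ncard =
    (centralizer ({x} : Set G)).index := by
  haveI : Finite (ConjAct G) := (inferInstance : Finite G)
  have h1 := MulAction.index_stabilizer (G := ConjAct G) x
  rw [← h1]
  have h2 := Subgroup.card_mul_index (MulAction.stabilizer (ConjAct G) x)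
  have h3 := Subgroup.card_mul_index (centralizer ({x} : Set G))
  have h4 := Subgroup.nat_card_centralizer_nat_card_stabilizer x
  have h5 : Nat.card (ConjAct G) = Nat.card G := rfl
  rw [h5] at h2
  rw [h4] at h3
  have h6 : 0 < Nat.card (MulAction.stabilizer (ConjAct G) x) := Nat.card_pos
  exact Nat.eq_of_mul_eq_mul_left h6 (h2.trans h3.symm)

omit [Fintype G] in
theorem Cl_subset_O (x : G) : MulAction.orbit (ConjAct G) x ⊆ MulAction.orbit (MulAut G) x := by
  rintro y ⟨g, rfl⟩
  refine ⟨MulAut.conj (ConjAct.ofConjAct g), ?_⟩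
  change MulAut.conj (ConjAct.ofConjAct g) x = g • x
  rw [ConjAct.smul_def]
  rfl

omit [Fintype G] in
theorem index_le_ncard_O [Finite G] (x : G) :
    (centralizer ({x} : Set G)).index ≤ (MulAction.orbit (MulAut G) x).ncard := by
  rw [← ncard_Cl]
  exact Set.ncard_le_ncard (Cl_subset_O x) (Set.toFinite _)

omit [Fintype G] in
theorem smul_O (x : G) (t : MulAut G) : MulAction.orbit (MulAut G) (t x) = MulAction.orbit (MulAut G) x :=
  MulAction.orbit_smul t x

omit [Fintype G] in
/-- Two classes in different cosets of the centre inside one automorphism orbit. -/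
theorem two_classes [Finite G] (hc : ∀ a b : G, ⁅a, b⁆ ∈ center G) (x : G) (t : MulAut G)
    (ht : t x * x⁻¹ ∉ center G) :
    (centralizer ({x} : Set G)).index + (centralizer ({t x} : Set G)).index ≤
      (MulAction.orbit (MulAut G) x).ncard := by
  rw [← ncard_Cl, ← ncard_Cl]
  have hd : Disjoint (MulAction.orbit (ConjAct G) x) (MulAction.orbit (ConjAct G) (t x)) := by
    rw [Set.disjoint_left]
    rintro y ⟨g, rfl⟩ ⟨g', hg'⟩
    apply ht
    simp only at hg'
    rw [ConjAct.smul_def, ConjAct.smul_def] at hg'
    set a := ConjAct.ofConjAct g with ha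
    set b := ConjAct.ofConjAct g' with hb
    have h1 : b * t x * b⁻¹ = a * x * a⁻¹ := hg'
    have h2 : t x * x⁻¹ = (b⁻¹ * (a * x * a⁻¹) * b) * x⁻¹ := by rw [← h1]; group
    have h3 : (b⁻¹ * (a * x * a⁻¹) * b) * x⁻¹ = ⁅b⁻¹ * a, x⁆ := by
      simp only [commutatorElement_def]; group
    rw [h2, h3]
    exact hc _ _
  rw [← Set.ncard_union_eq hd (Set.toFinite _) (Set.toFinite _)]
  apply Set.ncard_le_ncard _ (Set.toFinite _)
  apply Set.union_subset (Cl_subset_O x)
  rw [← smul_O x t]
  exact Cl_subset_O (t x)

omit [Fintype G] in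
theorem normal_centralizer [Finite G] {x : G}
    (hx : (centralizer ({x} : Set G)).index = (Nat.card G).minFac) :
    (centralizer ({x} : Set G)).Normal :=
  Subgroup.normal_of_index_eq_minFac_card hx

omit [Fintype G] in
theorem comm_conj [Finite G] {x : G}
    (hx : (centralizer ({x} : Set G)).index = (Nat.card G).minFac) {m : G}
    (hm : m ∈ centralizer ({x} : Set G)) (g : G) : Commute m (g * x * g⁻¹) := by
  have hn := normal_centralizer hx
  have h1 : g⁻¹ * m * g⁻¹⁻¹ ∈ centralizer ({x} : Set G) := hn.conj_mem m hm g⁻¹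
  rw [Subgroup.mem_centralizer_singleton_iff] at h1
  have h2 : m * (g * x * g⁻¹) = g * ((g⁻¹ * m * g⁻¹⁻¹) * x) * g⁻¹ := by group
  have h3 : (g * x * g⁻¹) * m = g * (x * (g⁻¹ * m * g⁻¹⁻¹)) * g⁻¹ := by group
  show m * (g * x * g⁻¹) = (g * x * g⁻¹) * m
  rw [h2, h3, h1]

omit [Fintype G] in
/-- Commutators of elements with class size `p` are central. -/
theorem comm_central [Finite G] {x y : G}
    (hx : (centralizer ({x} : Set G)).index = (Nat.card G).minFac)
    (hy : (centralizer ({y} : Set G)).index = (Nat.card G).minFac) :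
    ⁅x, y⁆ ∈ center G := by
  by_cases hxy : centralizer ({x} : Set G) = centralizer ({y} : Set G)
  · have h1 : y ∈ centralizer ({x} : Set G) := by
      rw [hxy, Subgroup.mem_centralizer_singleton_iff]
    rw [Subgroup.mem_centralizer_singleton_iff] at h1
    have : ⁅x, y⁆ = 1 := by
      rw [commutatorElement_eq_one_iff_mul_comm]
      exact h1.symm
    rw [this]
    exact one_mem _
  · have hsup : centralizer ({x} : Set G) ⊔ centralizer ({y} : Set G) = ⊤ := by
      by_contra hne
      have h1 := minFac_le_index hne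
      have h2 : (centralizer ({x} : Set G) ⊔ centralizer ({y} : Set G)).index ∣
          (centralizer ({x} : Set G)).index := Subgroup.index_dvd_of_le le_sup_left
      have h3 : (centralizer ({x} : Set G) ⊔ centralizer ({y} : Set G)).index ∣
          (centralizer ({y} : Set G)).index := Subgroup.index_dvd_of_le le_sup_right
      have hpos : 0 < (Nat.card G).minFac := by
        rw [← hx]; exact Nat.pos_of_ne_zero Subgroup.index_ne_zero_of_finite
      rw [hx] at h2
      rw [hy] at h3
      have h4 := Nat.le_of_dvd hpos h2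
      have h5 : (centralizer ({x} : Set G) ⊔ centralizer ({y} : Set G)).index =
        (Nat.card G).minFac := le_antisymm h4 h1
      have h6 := Subgroup.card_mul_index (centralizer ({x} : Set G) ⊔ centralizer ({y} : Set G))
      have h7 := Subgroup.card_mul_index (centralizer ({x} : Set G))
      have h8 := Subgroup.card_mul_index (centralizer ({y} : Set G))
      rw [h5] at h6
      rw [hx] at h7
      rw [hy] at h8
      have e1 : Nat.card (centralizer ({x} : Set G) ⊔ centralizer ({y} : Set G) : Subgroup G) =
          Nat.card (centralizer ({x} : Set G)) := Nat.eq_of_mul_eq_mul_right hpos (h6.trans h7.symm)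
      have e2 : Nat.card (centralizer ({x} : Set G) ⊔ centralizer ({y} : Set G) : Subgroup G) =
          Nat.card (centralizer ({y} : Set G)) := Nat.eq_of_mul_eq_mul_right hpos (h6.trans h8.symm)
      have e3 := Subgroup.eq_of_le_of_card_ge (le_sup_left : centralizer ({x} : Set G) ≤ _) e1.le
      have e4 := Subgroup.eq_of_le_of_card_ge (le_sup_right : centralizer ({y} : Set G) ≤ _) e2.le
      exact hxy (e3.trans e4.symm)
    have hle : centralizer ({x} : Set G) ⊔ centralizer ({y} : Set G) ≤ centralizer ({⁅x, y⁆} : Set G) := by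
      apply sup_le
      · intro m hm
        rw [Subgroup.mem_centralizer_singleton_iff]
        have h1 : Commute m x := by
          rw [Subgroup.mem_centralizer_singleton_iff] at hm; exact hm
        have h2 : Commute m (y * x * y⁻¹) := comm_conj hx hm y
        have h3 : ⁅x, y⁆ = x * (y * x * y⁻¹)⁻¹ := by
          simp only [commutatorElement_def]; group
        rw [h3]
        exact (h1.mul_right h2.inv_right).eq
      · intro m hm
        rw [Subgroup.mem_centralizer_singleton_iff]
        have h1 : Commute m y := by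
          rw [Subgroup.mem_centralizer_singleton_iff] at hm; exact hm
        have h2 : Commute m (x * y * x⁻¹) := comm_conj hy hm x
        have h3 : ⁅x, y⁆ = (x * y * x⁻¹) * y⁻¹ := by
          simp only [commutatorElement_def]
        rw [h3]
        exact (h2.mul_right h1.inv_right).eq
    rw [mem_center_iff_index_one]
    rw [eq_top_iff, ← hsup]
    exact hle


/-! ### The three numerical bounds -/

open scoped Classical in
/-- The centre as a finset. -/
noncomputable def Zf (G : Type*) [Group G] [Fintype G] : Finset G :=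
  Finset.univ.filter (fun x => x ∈ center G)

open scoped Classical in
/-- The elements with class size `p`. -/
noncomputable def Yf (G : Type*) [Group G] [Fintype G] : Finset G :=
  Finset.univ.filter (fun x => (centralizer ({x} : Set G)).index = (Nat.card G).minFac)

theorem mem_Zf {x : G} : x ∈ Zf G ↔ x ∈ center G := by simp [Zf]

theorem mem_Yf {x : G} : x ∈ Yf G ↔ (centralizer ({x} : Set G)).index = (Nat.card G).minFac := by
  simp [Yf]

theorem card_Zf : (Zf G).card = Nat.card (center G) := by
  classical
  rw [Nat.card_eq_fintype_card, Fintype.card_subtype]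
  rfl

theorem card_filter_mem (M : Subgroup G) [DecidablePred (· ∈ M)] :
    (Finset.univ.filter (· ∈ M)).card = Nat.card M := by
  rw [Nat.card_eq_fintype_card, Fintype.card_subtype]

theorem w_le {x : G} {l : ℕ} (hl : 0 < l) (h : l ≤ (O x).ncard) :
    (1 : ℚ) / (O x).ncard ≤ 1 / l := by
  apply one_div_le_one_div_of_le (by exact_mod_cast hl)
  exact_mod_cast h

theorem O_pos (x : G) : 0 < (O x).ncard :=
  (Set.ncard_pos (Set.toFinite _)).mpr ⟨x, MulAction.mem_orbit_self x⟩

theorem disjoint_ZY (hp : (Nat.card G).minFac ≠ 1) : Disjoint (Zf G) (Yf G) := by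
  rw [Finset.disjoint_left]
  intro x hx hy
  rw [mem_Zf, mem_center_iff_index_one] at hx
  rw [mem_Yf, hx, Subgroup.index_top] at hy
  exact hp hy.symm

theorem not_center_ge {x : G} (hx : x ∉ center G) :
    (Nat.card G).minFac ≤ (centralizer ({x} : Set G)).index := not_center_ge' hx

theorem q_to_nat {p n w : ℕ} (hp : 0 < p) (h : (w : ℚ) ≤ n / p) : w * p ≤ n := by
  have hp' : (0 : ℚ) < p := by exact_mod_cast hp
  rw [le_div_iff₀ hp'] at h
  exact_mod_cast h

/-- Bound if few elements have class size exactly `p`. -/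
theorem bound_nonbad (hp : 2 ≤ (Nat.card G).minFac)
    (h : (Yf G).card + (Nat.card G).minFac ^ 2 * (Zf G).card ≤ Nat.card G) :
    Nat.card (MulAction.orbitRel.Quotient (MulAut G) G) * (Nat.card G).minFac ≤ Nat.card G := by
  classical
  set p := (Nat.card G).minFac with hpdef
  apply q_to_nat (by omega)
  rw [card_orbits_eq_sum]
  have hdisj := disjoint_ZY (G := G) (by omega)
  have hb := sum_le_three (fun x : G => (1 : ℚ) / (O x).ncard) (Zf G) (Zf G ∪ Yf G)
    Finset.subset_union_left 1 (1 / p) (1 / ((p : ℚ) + 1))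
    (fun x _ => by
      have := w_le (x := x) (l := 1) Nat.one_pos (O_pos x)
      simpa using this)
    (fun x _ hx => by
      have hx' : x ∉ center G := fun h => hx (mem_Zf.mpr h)
      exact w_le (by omega) ((not_center_ge hx').trans (index_le_ncard_O x)))
    (fun x hx => by
      have hx1 : x ∉ center G := fun h => hx (Finset.mem_union_left _ (mem_Zf.mpr h))
      have hx2 : (centralizer ({x} : Set G)).index ≠ p := fun h =>
        hx (Finset.mem_union_right _ (mem_Yf.mpr h))
      have hx3 := not_center_ge hx1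
      have hx4 : p + 1 ≤ (O x).ncard :=
        (show p + 1 ≤ (centralizer ({x} : Set G)).index by omega).trans (index_le_ncard_O x)
      have := w_le (x := x) (l := p + 1) (by omega) hx4
      simpa using this)
  refine hb.trans ?_
  rw [Finset.card_union_of_disjoint hdisj, Nat.card_eq_fintype_card (α := G)]
  rw [Nat.card_eq_fintype_card (α := G)] at h
  have hp' : (2 : ℚ) ≤ p := by exact_mod_cast hp
  have h' : ((Yf G).card : ℚ) + p ^ 2 * (Zf G).card ≤ Fintype.card G := by exact_mod_cast h
  push_cast
  set z : ℚ := ((Zf G).card : ℚ)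
  set y : ℚ := ((Yf G).card : ℚ)
  set n : ℚ := (Fintype.card G : ℚ)
  have hpos : (0 : ℚ) < p := by linarith
  have hpos1 : (0 : ℚ) < p + 1 := by linarith
  have key : (n : ℚ) / p - (z * 1 + (z + y - z) * (1 / p) + (n - (z + y)) * (1 / (p + 1))) =
      (n - y - p ^ 2 * z) / (p * (p + 1)) := by
    field_simp
    ring
  have : 0 ≤ (n - y - p ^ 2 * z) / (p * (p + 1)) := by
    apply div_nonneg (by linarith) (by positivity)
  linarith

/-- Bound if non-central classes not of size `p` have size at least `p²`. -/
theorem bound_nonbad2 (hp : 2 ≤ (Nat.card G).minFac)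
    (hsq : ∀ x : G, x ∉ center G → (centralizer ({x} : Set G)).index ≠ (Nat.card G).minFac →
      (Nat.card G).minFac ^ 2 ≤ (centralizer ({x} : Set G)).index)
    (h : (Yf G).card + ((Nat.card G).minFac + 1) * (Zf G).card ≤ Nat.card G) :
    Nat.card (MulAction.orbitRel.Quotient (MulAut G) G) * (Nat.card G).minFac ≤ Nat.card G := by
  classical
  set p := (Nat.card G).minFac with hpdef
  apply q_to_nat (by omega)
  rw [card_orbits_eq_sum]
  have hdisj := disjoint_ZY (G := G) (by omega)
  have hb := sum_le_three (fun x : G => (1 : ℚ) / (O x).ncard) (Zf G) (Zf G ∪ Yf G)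
    Finset.subset_union_left 1 (1 / p) (1 / ((p : ℚ) ^ 2))
    (fun x _ => by
      have := w_le (x := x) (l := 1) Nat.one_pos (O_pos x)
      simpa using this)
    (fun x _ hx => by
      have hx' : x ∉ center G := fun h => hx (mem_Zf.mpr h)
      exact w_le (by omega) ((not_center_ge hx').trans (index_le_ncard_O x)))
    (fun x hx => by
      have hx1 : x ∉ center G := fun h => hx (Finset.mem_union_left _ (mem_Zf.mpr h))
      have hx2 : (centralizer ({x} : Set G)).index ≠ p := fun h =>
        hx (Finset.mem_union_right _ (mem_Yf.mpr h))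
      have hx4 : p ^ 2 ≤ (O x).ncard := (hsq x hx1 hx2).trans (index_le_ncard_O x)
      have := w_le (x := x) (l := p ^ 2) (by positivity) hx4
      simpa using this)
  refine hb.trans ?_
  rw [Finset.card_union_of_disjoint hdisj, Nat.card_eq_fintype_card (α := G)]
  rw [Nat.card_eq_fintype_card (α := G)] at h
  have hp' : (2 : ℚ) ≤ p := by exact_mod_cast hp
  have h' : ((Yf G).card : ℚ) + (p + 1) * (Zf G).card ≤ Fintype.card G := by exact_mod_cast h
  push_cast
  set z : ℚ := ((Zf G).card : ℚ)
  set y : ℚ := ((Yf G).card : ℚ)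
  set n : ℚ := (Fintype.card G : ℚ)
  have hpos : (0 : ℚ) < p := by linarith
  have key : (n : ℚ) / p - (z * 1 + (z + y - z) * (1 / p) + (n - (z + y)) * (1 / (p : ℚ) ^ 2)) =
      (p - 1) * (n - y - (p + 1) * z) / p ^ 2 := by
    field_simp
    ring
  have : 0 ≤ (p - 1) * (n - y - (p + 1) * z) / (p : ℚ) ^ 2 := by
    apply div_nonneg (mul_nonneg (by linarith) (by linarith)) (by positivity)
  linarith

/-- The final bound: a subgroup `M` of index `p` outside which orbits are of size at least `2p`. -/
theorem bound_final (hp : 2 ≤ (Nat.card G).minFac) (M : Subgroup G) (hZM : center G ≤ M)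
    (hM : M.index = (Nat.card G).minFac)
    (h2 : ∀ x : G, x ∉ M → 2 * (Nat.card G).minFac ≤ (O x).ncard)
    (h3 : (Nat.card G).minFac ^ 2 * (Zf G).card ≤ Nat.card G) :
    Nat.card (MulAction.orbitRel.Quotient (MulAut G) G) * (Nat.card G).minFac ≤ Nat.card G := by
  classical
  set p := (Nat.card G).minFac with hpdef
  apply q_to_nat (by omega)
  rw [card_orbits_eq_sum]
  have hb := sum_le_three (fun x : G => (1 : ℚ) / (O x).ncard) (Zf G) (Finset.univ.filter (· ∈ M))
    (by
      intro x hx
      simp only [Finset.mem_filter, Finset.mem_univ, true_and]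
      exact hZM (mem_Zf.mp hx)) 1 (1 / p) (1 / (2 * (p : ℚ)))
    (fun x _ => by
      have := w_le (x := x) (l := 1) Nat.one_pos (O_pos x)
      simpa using this)
    (fun x _ hx => by
      have hx' : x ∉ center G := fun h => hx (mem_Zf.mpr h)
      exact w_le (by omega) ((not_center_ge hx').trans (index_le_ncard_O x)))
    (fun x hx => by
      have hx1 : x ∉ M := fun h => hx (by simp [h])
      have := w_le (x := x) (l := 2 * p) (by omega) (h2 x hx1)
      simpa using this)
  refine hb.trans ?_
  rw [card_filter_mem]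
  have hcard := Subgroup.card_mul_index M
  rw [hM] at hcard
  rw [Nat.card_eq_fintype_card (α := G)] at h3 hcard ⊢
  have hp' : (2 : ℚ) ≤ p := by exact_mod_cast hp
  have h' : (p : ℚ) ^ 2 * (Zf G).card ≤ Fintype.card G := by exact_mod_cast h3
  have hc : (Nat.card M : ℚ) * p = Fintype.card G := by exact_mod_cast hcard
  set z : ℚ := ((Zf G).card : ℚ)
  set m : ℚ := (Nat.card M : ℚ)
  set n : ℚ := (Fintype.card G : ℚ)
  have hpos : (0 : ℚ) < p := by linarith
  have hn : n = m * p := hc.symm
  rw [hn] at h' ⊢
  have h'' : p * z ≤ m := by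
    have : (p : ℚ) * (p * z) ≤ p * m := by nlinarith
    exact le_of_mul_le_mul_left this hpos
  have key : (m * p) / p - (z * 1 + (m - z) * (1 / p) + (m * p - m) * (1 / (2 * p))) =
      (p - 1) * (m - 2 * z) / (2 * p) := by
    field_simp
    ring
  have hz : (0 : ℚ) ≤ z := Nat.cast_nonneg _
  have : 0 ≤ (p - 1) * (m - 2 * z) / (2 * (p : ℚ)) := by
    apply div_nonneg (mul_nonneg (by linarith) _) (by positivity)
    nlinarith
  linarith


/-! ### Structure in the bad case -/

omit [Fintype G] in
/-- `T`: central elements and elements with class size `p`. -/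
def TT (G : Type*) [Group G] [Finite G] : Set G :=
  {x | x ∈ center G ∨ (centralizer ({x} : Set G)).index = (Nat.card G).minFac}

omit [Fintype G] in
theorem card_center_mul_le [Finite G] {x : G} (hx : x ∉ center G) :
    (Nat.card G).minFac * Nat.card (center G) ≤ Nat.card (centralizer ({x} : Set G)) := by
  apply minFac_mul_card_le
  refine lt_of_le_of_ne ?_ ?_
  · intro z hz
    rw [Subgroup.mem_centralizer_singleton_iff]
    exact (mem_center_iff.mp hz x).symm
  · intro h
    have : x ∈ centralizer ({x} : Set G) := by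
      rw [Subgroup.mem_centralizer_singleton_iff]
    rw [← h] at this
    exact hx this

omit [Fintype G] in
/-- `p² |Z| ≤ |G|` if `G` is not abelian. -/
theorem sq_mul_center_le [Finite G] {x : G} (hx : x ∉ center G) :
    (Nat.card G).minFac ^ 2 * Nat.card (center G) ≤ Nat.card G := by
  have h1 := card_center_mul_le hx
  have h2 := not_center_ge' hx
  have h3 := Subgroup.card_mul_index (centralizer ({x} : Set G))
  calc (Nat.card G).minFac ^ 2 * Nat.card (center G)
      = ((Nat.card G).minFac * Nat.card (center G)) * (Nat.card G).minFac := by ring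
    _ ≤ _ := Nat.mul_le_mul h1 h2
    _ = _ := h3

theorem closure_TT_eq_top (hp : 2 ≤ (Nat.card G).minFac)
    (hbad : Nat.card G < (Yf G).card + (Nat.card G).minFac ^ 2 * (Zf G).card) :
    closure (TT G) = ⊤ := by
  classical
  by_contra hR
  set p := (Nat.card G).minFac with hpdef
  have h1 := minFac_le_index hR
  have h2 := Subgroup.card_mul_index (closure (TT G))
  have hsub : ((Zf G ∪ Yf G : Finset G) : Set G) ⊆ ((closure (TT G) : Subgroup G) : Set G) := by
    intro x hx
    apply Subgroup.subset_closure
    rw [Finset.mem_coe, Finset.mem_union] at hx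
    rcases hx with hx | hx
    · exact Or.inl (mem_Zf.mp hx)
    · exact Or.inr (mem_Yf.mp hx)
  have h3 : (Zf G ∪ Yf G).card ≤ Nat.card (closure (TT G)) := by
    have := Set.ncard_le_ncard hsub (Set.toFinite _)
    rwa [Set.ncard_coe_finset, ← Nat.card_coe_set_eq] at this
  rw [Finset.card_union_of_disjoint (disjoint_ZY (by omega))] at h3
  have h4 : ((Zf G).card + (Yf G).card) * p ≤ Nat.card G := by
    rw [← h2]; exact Nat.mul_le_mul h3 h1
  set z := (Zf G).card with hz
  set y := (Yf G).card with hy
  have h5 : y < p * z := by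
    by_contra hc
    rw [not_lt] at hc
    have : p * (p * z) ≤ p * y := Nat.mul_le_mul_left _ hc
    nlinarith
  have hall : ∀ x : G, x ∈ TT G := by
    intro x
    by_contra hx
    have hx1 : x ∉ center G := fun h => hx (Or.inl h)
    have hx2 : (centralizer ({x} : Set G)).index ≠ p := fun h => hx (Or.inr h)
    have hx3 := not_center_ge' hx1
    have hx4 : p + 1 ≤ (centralizer ({x} : Set G)).index := by omega
    have hx5 := card_center_mul_le hx1
    have hx6 := Subgroup.card_mul_index (centralizer ({x} : Set G))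
    rw [← card_Zf] at hx5
    have : p * z * (p + 1) ≤ Nat.card G := by
      rw [← hx6]; exact Nat.mul_le_mul hx5 hx4
    nlinarith
  apply hR
  rw [eq_top_iff]
  intro x _
  exact Subgroup.subset_closure (hall x)


omit [Fintype G] in
/-- Central commutators from pairwise central commutators on generators. -/
theorem class_two [Finite G] (hgen : closure (TT G) = ⊤) : ∀ a b : G, ⁅a, b⁆ ∈ center G := by
  let f := QuotientGroup.mk' (center G)
  have hf : ∀ a b : G, ⁅a, b⁆ ∈ center G ↔ f a * f b = f b * f a := by
    intro a b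
    rw [← QuotientGroup.eq_one_iff, ← commutatorElement_eq_one_iff_mul_comm]
    show f ⁅a, b⁆ = 1 ↔ _
    rw [map_commutatorElement]
  have h0 : ∀ t ∈ TT G, ∀ g ∈ TT G, ⁅t, g⁆ ∈ center G := by
    rintro t (ht | ht) g hg
    · have : ⁅t, g⁆ = 1 := by
        rw [commutatorElement_eq_one_iff_mul_comm]
        exact mem_center_iff.mp ht g |>.symm
      rw [this]; exact one_mem _
    · rcases hg with hg | hg
      · have : ⁅t, g⁆ = 1 := by
          rw [commutatorElement_eq_one_iff_mul_comm]
          exact mem_center_iff.mp hg t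
        rw [this]; exact one_mem _
      · exact comm_central ht hg
  have h1 : ∀ t ∈ TT G, ∀ g : G, ⁅t, g⁆ ∈ center G := by
    intro t ht g
    have hle : closure (TT G) ≤ (centralizer ({f t} : Set (G ⧸ center G))).comap f := by
      rw [closure_le]
      intro g hg
      show f g ∈ centralizer ({f t} : Set (G ⧸ center G))
      rw [Subgroup.mem_centralizer_singleton_iff]
      exact ((hf t g).mp (h0 t ht g hg)).symm
    have : g ∈ closure (TT G) := hgen ▸ Subgroup.mem_top g
    have h2 := hle this
    have h3 : f g ∈ centralizer ({f t} : Set (G ⧸ center G)) := h2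
    rw [Subgroup.mem_centralizer_singleton_iff] at h3
    exact (hf t g).mpr h3.symm
  intro a b
  have hle : closure (TT G) ≤ (centralizer ({f b} : Set (G ⧸ center G))).comap f := by
    rw [closure_le]
    intro g hg
    show f g ∈ centralizer ({f b} : Set (G ⧸ center G))
    rw [Subgroup.mem_centralizer_singleton_iff]
    exact (hf g b).mp (h1 g hg b)
  have : a ∈ closure (TT G) := hgen ▸ Subgroup.mem_top a
  have h2 := hle this
  have h3 : f a ∈ centralizer ({f b} : Set (G ⧸ center G)) := h2
  rw [Subgroup.mem_centralizer_singleton_iff] at h3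
  exact (hf a b).mpr h3

omit [Fintype G] in
/-- `p`-th powers are central, and commutators have order dividing `p`. -/
theorem pow_center [Finite G] (hgen : closure (TT G) = ⊤)
    (hc : ∀ a b : G, ⁅a, b⁆ ∈ center G) (g : G) : g ^ (Nat.card G).minFac ∈ center G := by
  set p := (Nat.card G).minFac with hpdef
  have ht : ∀ t ∈ TT G, t ^ p ∈ center G := by
    rintro t (ht | ht)
    · exact pow_mem ht p
    · haveI hn := normal_centralizer ht
      have hcard : Nat.card (G ⧸ centralizer ({t} : Set G)) = p := ht
      rw [mem_center_iff_index_one, eq_top_iff]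
      intro h _
      rw [Subgroup.mem_centralizer_singleton_iff]
      have h1 : ((h : G ⧸ centralizer ({t} : Set G))) ^ p = 1 := by
        rw [← hcard]; exact pow_card_eq_one'
      have h2 : h ^ p ∈ centralizer ({t} : Set G) := by
        rw [← QuotientGroup.eq_one_iff]
        exact_mod_cast h1
      rw [Subgroup.mem_centralizer_singleton_iff] at h2
      have h3 : ⁅t, h ^ p⁆ = 1 := by
        rw [commutatorElement_eq_one_iff_mul_comm]; exact h2.symm
      rw [comm_pow_right hc] at h3
      have h4 : ⁅t ^ p, h⁆ = 1 := by rw [comm_pow_left hc]; exact h3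
      rw [commutatorElement_eq_one_iff_mul_comm] at h4
      exact h4.symm
  have hmem : g ∈ closure (TT G) := hgen ▸ Subgroup.mem_top g
  induction hmem using Subgroup.closure_induction with
  | mem x hx => exact ht x hx
  | one => simp
  | mul a b _ _ ha hb =>
    rw [mul_pow hc]
    exact mul_mem (mul_mem ha hb) (pow_mem (hc _ _) _)
  | inv a _ ha =>
    rw [inv_pow]
    exact inv_mem ha

omit [Fintype G] in
theorem comm_pow_eq_one [Finite G] (hgen : closure (TT G) = ⊤)
    (hc : ∀ a b : G, ⁅a, b⁆ ∈ center G) (g h : G) : ⁅g, h⁆ ^ (Nat.card G).minFac = 1 := by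
  rw [← comm_pow_left hc, commutatorElement_eq_one_iff_mul_comm]
  exact (mem_center_iff.mp (pow_center hgen hc g) h).symm

omit [Fintype G] in
/-- In the class-two situation, the centralizer is normal. -/
theorem normal_centralizer_two (hc : ∀ a b : G, ⁅a, b⁆ ∈ center G) (x : G) :
    (centralizer ({x} : Set G)).Normal := by
  constructor
  intro m hm g
  rw [Subgroup.mem_centralizer_singleton_iff] at hm ⊢
  have h1 : ⁅m, g⁆ = 1 * ⁅m, g⁆ := by simp
  have h2 : g * m * g⁻¹ = ⁅g, m⁆ * m := by
    simp only [commutatorElement_def]; group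
  rw [h2, mul_assoc, hm, ← mul_assoc, (mem_center_iff.mp (hc g m) x).symm, mul_assoc]

omit [Fintype G] in
/-- Class sizes are `1`, `p` or at least `p²`. -/
theorem index_ge_sq [Finite G] (hprime : (Nat.card G).minFac.Prime) (hgen : closure (TT G) = ⊤)
    (hc : ∀ a b : G, ⁅a, b⁆ ∈ center G) {x : G} (hx : x ∉ center G)
    (hne : (centralizer ({x} : Set G)).index ≠ (Nat.card G).minFac) :
    (Nat.card G).minFac ^ 2 ≤ (centralizer ({x} : Set G)).index := by
  set p := (Nat.card G).minFac with hpdef
  haveI : Fact p.Prime := ⟨hprime⟩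
  haveI := normal_centralizer_two hc x
  have hpg : IsPGroup p (G ⧸ centralizer ({x} : Set G)) := by
    intro q
    refine ⟨1, ?_⟩
    induction q using QuotientGroup.induction_on with
    | H g =>
      rw [pow_one, ← QuotientGroup.mk_pow, QuotientGroup.eq_one_iff]
      rw [Subgroup.mem_centralizer_singleton_iff]
      exact mem_center_iff.mp (pow_center hgen hc g) x |>.symm
  obtain ⟨n, hn⟩ := IsPGroup.iff_card.mp hpg
  have hi : (centralizer ({x} : Set G)).index = p ^ n := hn
  rw [hi] at hne ⊢
  have hle := not_center_ge' hx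
  rw [hi] at hle
  have hn2 : 2 ≤ n := by
    rcases n with _ | _ | n
    · simp at hle
      have := hprime.two_le
      omega
    · simp at hne
    · omega
  exact Nat.pow_le_pow_right hprime.pos hn2


omit [Fintype G] in
/-- Commutator with `v` as a homomorphism. -/
noncomputable def commR (hc : ∀ a b : G, ⁅a, b⁆ ∈ center G) (v : G) : G →* G :=
  MonoidHom.mk' (fun g => ⁅v, g⁆) (fun a b => comm_mul_right hc v a b)

omit [Fintype G] in
@[simp] theorem commR_apply (hc : ∀ a b : G, ⁅a, b⁆ ∈ center G) (v g : G) :
    commR hc v g = ⁅v, g⁆ := rfl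

omit [Fintype G] in
/-- Commutator with `v` on the right as a homomorphism. -/
noncomputable def commL (hc : ∀ a b : G, ⁅a, b⁆ ∈ center G) (v : G) : G →* G :=
  MonoidHom.mk' (fun g => ⁅g, v⁆) (fun a b => comm_mul_left hc a b v)

omit [Fintype G] in
@[simp] theorem commL_apply (hc : ∀ a b : G, ⁅a, b⁆ ∈ center G) (v g : G) :
    commL hc v g = ⁅g, v⁆ := rfl

omit [Fintype G] in
/-- In the class two situation and for `v` of class size `p`, all commutators with `v` are powers
of a non-trivial one. -/
theorem comm_mem_zpowers [Finite G] (hprime : (Nat.card G).minFac.Prime)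
    (hc : ∀ a b : G, ⁅a, b⁆ ∈ center G) {v g₂ : G}
    (hv : (centralizer ({v} : Set G)).index = (Nat.card G).minFac) (h : ⁅v, g₂⁆ ≠ 1) (g₁ : G) :
    ⁅v, g₁⁆ ∈ zpowers ⁅v, g₂⁆ := by
  set p := (Nat.card G).minFac with hpdef
  haveI : Fact p.Prime := ⟨hprime⟩
  haveI hn := normal_centralizer_two hc v
  have hcard : Nat.card (G ⧸ centralizer ({v} : Set G)) = p := hv
  have h1 : (g₂ : G ⧸ centralizer ({v} : Set G)) ≠ 1 := by
    rw [Ne, QuotientGroup.eq_one_iff, Subgroup.mem_centralizer_singleton_iff]
    intro h2
    apply h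
    rw [commutatorElement_eq_one_iff_mul_comm]
    exact h2.symm
  have h2 := mem_zpowers_of_prime_card hcard h1 (g' := (g₁ : G ⧸ centralizer ({v} : Set G)))
  obtain ⟨k, hk⟩ := h2
  have h3 : (g₂ ^ k)⁻¹ * g₁ ∈ centralizer ({v} : Set G) := by
    rw [← QuotientGroup.eq]
    show ((g₂ ^ k : G) : G ⧸ centralizer ({v} : Set G)) = g₁
    rw [QuotientGroup.mk_zpow]
    exact hk
  rw [Subgroup.mem_centralizer_singleton_iff] at h3
  refine ⟨k, ?_⟩
  have h4 : g₁ = g₂ ^ k * ((g₂ ^ k)⁻¹ * g₁) := by group
  show ⁅v, g₂⁆ ^ k = ⁅v, g₁⁆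
  rw [h4, comm_mul_right hc]
  have h5 : ⁅v, (g₂ ^ k)⁻¹ * g₁⁆ = 1 := by
    rw [commutatorElement_eq_one_iff_mul_comm]; exact h3.symm
  rw [h5, mul_one]
  have h6 := map_zpow (commR hc v) g₂ k
  simpa using h6.symm


omit [Fintype G] in
/-- Non-commuting generators. -/
theorem exists_noncomm [Finite G] (hgen : closure (TT G) = ⊤) {x₀ : G} (hx₀ : x₀ ∉ center G) :
    ∃ x u : G, (centralizer ({x} : Set G)).index = (Nat.card G).minFac ∧
      (centralizer ({u} : Set G)).index = (Nat.card G).minFac ∧ ⁅x, u⁆ ≠ 1 := by
  by_contra hno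
  have h1 : ∀ x ∈ TT G, ∀ u ∈ TT G, ⁅x, u⁆ = 1 := by
    rintro x (hx | hx) u hu
    · rw [commutatorElement_eq_one_iff_mul_comm]; exact (mem_center_iff.mp hx u).symm
    · rcases hu with hu | hu
      · rw [commutatorElement_eq_one_iff_mul_comm]; exact (mem_center_iff.mp hu x)
      · by_contra hne
        exact hno ⟨x, u, hx, hu, hne⟩
  have h2 : TT G ⊆ center G := by
    intro t ht
    show t ∈ center G
    rw [mem_center_iff_index_one, eq_top_iff, ← hgen, closure_le]
    intro g hg
    have := h1 t ht g hg
    rw [commutatorElement_eq_one_iff_mul_comm] at this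
    show g ∈ centralizer ({t} : Set G)
    rw [Subgroup.mem_centralizer_singleton_iff]
    exact this.symm
  have h3 : closure (TT G) ≤ center G := closure_le _ |>.mpr h2
  rw [hgen, top_le_iff] at h3
  exact hx₀ (h3 ▸ Subgroup.mem_top x₀)

/-- All commutators lie in one cyclic subgroup if there are few elements outside `T`. -/
theorem all_in_K (hprime : (Nat.card G).minFac.Prime) (hgen : closure (TT G) = ⊤)
    (hc : ∀ a b : G, ⁅a, b⁆ ∈ center G) {x u : G}
    (hx : (centralizer ({x} : Set G)).index = (Nat.card G).minFac)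
    (hu : (centralizer ({u} : Set G)).index = (Nat.card G).minFac) (hxu : ⁅x, u⁆ ≠ 1)
    (hbad : Nat.card G < (Yf G).card + ((Nat.card G).minFac + 1) * (Zf G).card) :
    ∀ a b : G, ⁅a, b⁆ ∈ zpowers ⁅x, u⁆ := by
  classical
  set p := (Nat.card G).minFac with hpdef
  have hp2 := hprime.two_le
  set c := ⁅x, u⁆ with hcdef
  set K := zpowers c with hK
  let L : Subgroup G := ⨅ h : G, K.comap (commL hc h)
  have hL : ∀ g, g ∈ L ↔ ∀ h, ⁅g, h⁆ ∈ K := by
    intro g
    simp only [L, Subgroup.mem_iInf, Subgroup.mem_comap, commL_apply]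
  have hxL : x ∈ L := (hL x).mpr (fun h => comm_mem_zpowers hprime hc hx hxu h)
  have hcinv : ⁅u, x⁆ = c⁻¹ := by rw [hcdef, commutatorElement_inv]
  have huL : u ∈ L := (hL u).mpr (fun h => by
    have h1 := comm_mem_zpowers hprime hc hu (g₂ := x) (by
      rw [hcinv]; exact inv_ne_one.mpr hxu) h
    rw [hcinv, Subgroup.zpowers_inv] at h1
    exact h1)
  have hZL : center G ≤ L := fun z hz => (hL z).mpr (fun h => by
    have : ⁅z, h⁆ = 1 := by
      rw [commutatorElement_eq_one_iff_mul_comm]; exact (mem_center_iff.mp hz h).symm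
    rw [this]; exact one_mem _)
  have hcmem : c ∈ K := Subgroup.mem_zpowers c
  have hcp : c ^ p = 1 := comm_pow_eq_one hgen hc x u
  have hordc : orderOf c = p := by
    haveI : Fact p.Prime := ⟨hprime⟩
    exact orderOf_eq_prime hcp hxu
  have hnotc : ∀ {v : G}, (centralizer ({v} : Set G)).index = p → v ∉ center G := by
    intro v hv hvc
    rw [mem_center_iff_index_one] at hvc
    rw [hvc, Subgroup.index_top] at hv
    exact hprime.one_lt.ne hv
  -- main claim
  have hYL : ∀ t, (centralizer ({t} : Set G)).index = p → t ∈ L := by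
    intro t ht
    by_contra htL
    rw [hL] at htL
    push Not at htL
    obtain ⟨g₁, hg₁⟩ := htL
    have hlem : ∀ w ∈ L, ⁅t, w⁆ = 1 := by
      intro w hw
      by_contra hne
      have h1 := comm_mem_zpowers hprime hc ht hne g₁
      have h2 : ⁅t, w⁆ ∈ K := by
        have := (hL w).mp hw t
        rw [← commutatorElement_inv]
        exact inv_mem this
      exact hg₁ ((Subgroup.zpowers_le.mpr h2) h1)
    have htx := hlem x hxL
    have htu := hlem u huL
    -- elements r t are not in T
    have hnotT : ∀ r w, r ∈ L → w ∈ L → ⁅t, w⁆ = 1 → ⁅r, w⁆ ≠ 1 →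
        (r * t) ∉ center G ∧ (centralizer ({r * t} : Set G)).index ≠ p := by
      intro r w hr hw htw hrw
      have h1 : ⁅r * t, w⁆ = ⁅r, w⁆ := by rw [comm_mul_left hc, htw, mul_one]
      constructor
      · intro hv
        apply hrw
        rw [← h1, commutatorElement_eq_one_iff_mul_comm]
        exact (mem_center_iff.mp hv w).symm
      · intro hv
        have h2 := comm_mem_zpowers hprime hc hv (g₂ := w) (by rw [h1]; exact hrw) g₁
        rw [h1] at h2
        have h3 : ⁅r, w⁆ ∈ K := (hL r).mp hr w
        have h4 : ⁅r * t, g₁⁆ ∈ K := (Subgroup.zpowers_le.mpr h3) h2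
        rw [comm_mul_left hc] at h4
        have h5 : ⁅r, g₁⁆ ∈ K := (hL r).mp hr g₁
        exact hg₁ ((Subgroup.mul_mem_cancel_left K h5).mp h4)
    -- the subgroups A, B
    let A : Subgroup G := zpowers x ⊔ center G
    let B : Subgroup G := zpowers u ⊔ center G
    have hAL : A ≤ L := sup_le (Subgroup.zpowers_le.mpr hxL) hZL
    have hBL : B ≤ L := sup_le (Subgroup.zpowers_le.mpr huL) hZL
    have hrep : ∀ (y : G), ∀ r ∈ zpowers y ⊔ center G, ∃ k : ℤ, ∃ z ∈ center G, r = y ^ k * z := by
      intro y r hr
      rw [← SetLike.mem_coe, Subgroup.mul_normal, Set.mem_mul] at hr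
      obtain ⟨a, ha, z, hz, rfl⟩ := hr
      obtain ⟨k, rfl⟩ := ha
      exact ⟨k, z, hz, rfl⟩
    have hcommz : ∀ z ∈ center G, ∀ g : G, ⁅z, g⁆ = 1 := by
      intro z hz g
      rw [commutatorElement_eq_one_iff_mul_comm]; exact (mem_center_iff.mp hz g).symm
    have hAc : ∀ (y w : G), y ^ p ∈ center G → (⁅y, w⁆ ^ p = 1) → ⁅y, w⁆ ≠ 1 →
        ∀ r ∈ zpowers y ⊔ center G, r ∉ center G → ⁅r, w⁆ ≠ 1 := by
      intro y w hyp hywp hyw r hr hrc
      obtain ⟨k, z, hz, rfl⟩ := hrep y r hr
      intro h1
      rw [comm_mul_left hc, hcommz z hz, mul_one] at h1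
      have h2 := map_zpow (commL hc w) y k
      simp only [commL_apply] at h2
      rw [h2] at h1
      have hord : orderOf ⁅y, w⁆ = p := by
        haveI : Fact p.Prime := ⟨hprime⟩
        exact orderOf_eq_prime hywp hyw
      have h3 : (p : ℤ) ∣ k := by
        rw [← hord]; exact orderOf_dvd_iff_zpow_eq_one.mpr h1
      obtain ⟨m, rfl⟩ := h3
      apply hrc
      refine mul_mem ?_ hz
      rw [zpow_mul, zpow_natCast]
      exact zpow_mem hyp m
    have hcomm_x : ∀ r ∈ A, ⁅r, x⁆ = 1 := by
      intro r hr
      obtain ⟨k, z, hz, rfl⟩ := hrep x r hr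
      rw [comm_mul_left hc, hcommz z hz, mul_one, commutatorElement_eq_one_iff_mul_comm]
      exact (Commute.refl x).zpow_left k
    have hcomm_u : ∀ r ∈ B, ⁅r, u⁆ = 1 := by
      intro r hr
      obtain ⟨k, z, hz, rfl⟩ := hrep u r hr
      rw [comm_mul_left hc, hcommz z hz, mul_one, commutatorElement_eq_one_iff_mul_comm]
      exact (Commute.refl u).zpow_left k
    have hA1 : ∀ r ∈ A, r ∉ center G → ⁅r, u⁆ ≠ 1 :=
      hAc x u (pow_center hgen hc x) hcp hxu
    have hB1 : ∀ r ∈ B, r ∉ center G → ⁅r, x⁆ ≠ 1 := by
      apply hAc u x (pow_center hgen hc u) (comm_pow_eq_one hgen hc u x)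
      rw [hcinv]; exact inv_ne_one.mpr hxu
    have hAZ : center G < A := by
      refine lt_of_le_of_ne le_sup_right ?_
      intro h
      exact hnotc hx (h ▸ (Subgroup.mem_sup_left (Subgroup.mem_zpowers x) : x ∈ A))
    have hBZ : center G < B := by
      refine lt_of_le_of_ne le_sup_right ?_
      intro h
      exact hnotc hu (h ▸ (Subgroup.mem_sup_left (Subgroup.mem_zpowers u) : u ∈ B))
    have hcA := minFac_mul_card_le hAZ
    have hcB := minFac_mul_card_le hBZ
    let Af : Finset G := Finset.univ.filter (· ∈ A)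
    let Bf : Finset G := Finset.univ.filter (· ∈ B)
    have hAf : Af.card = Nat.card A := card_filter_mem A
    have hBf : Bf.card = Nat.card B := card_filter_mem B
    have hinter : Af ∩ Bf = Zf G := by
      ext r
      simp only [Af, Bf, Finset.mem_inter, Finset.mem_filter, Finset.mem_univ, true_and, mem_Zf]
      constructor
      · rintro ⟨h1, h2⟩
        by_contra h3
        exact hB1 r h2 h3 (hcomm_x r h1)
      · intro h
        exact ⟨hAZ.le h, hBZ.le h⟩
    have hun := Finset.card_union_add_card_inter Af Bf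
    rw [hinter, hAf, hBf] at hun
    let S : Finset G := (Af ∪ Bf) \ Zf G
    have hZsub : Zf G ⊆ Af ∪ Bf := by
      intro z hz
      rw [← hinter] at hz
      exact Finset.mem_union_left _ (Finset.mem_inter.mp hz).1
    have hS : S.card + (Zf G).card = (Af ∪ Bf).card := by
      simp only [S]
      rw [Finset.card_sdiff_of_subset hZsub]
      exact Nat.sub_add_cancel (Finset.card_le_card hZsub)
    -- image of S under right mult by t avoids Z ∪ Y
    let S' : Finset G := S.image (· * t)
    have hS' : S'.card = S.card := Finset.card_image_of_injective _ (mul_left_injective t)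
    have hdisj : Disjoint S' (Zf G ∪ Yf G) := by
      rw [Finset.disjoint_left]
      intro v hv hv2
      simp only [S', Finset.mem_image] at hv
      obtain ⟨r, hr, rfl⟩ := hv
      simp only [S, Finset.mem_sdiff, Finset.mem_union, mem_Zf] at hr
      obtain ⟨hr1, hr2⟩ := hr
      have hno : (r * t) ∉ center G ∧ (centralizer ({r * t} : Set G)).index ≠ p := by
        rcases hr1 with hr1 | hr1
        · have hrA : r ∈ A := by simpa [Af] using hr1
          exact hnotT r u (hAL hrA) huL htu (hA1 r hrA hr2)
        · have hrB : r ∈ B := by simpa [Bf] using hr1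
          exact hnotT r x (hBL hrB) hxL htx (hB1 r hrB hr2)
      rw [Finset.mem_union, mem_Zf, mem_Yf] at hv2
      rcases hv2 with h | h
      · exact hno.1 h
      · exact hno.2 h
    have hle : S'.card + (Zf G ∪ Yf G).card ≤ Nat.card G := by
      rw [← Finset.card_union_of_disjoint hdisj, Nat.card_eq_fintype_card]
      exact Finset.card_le_univ _
    rw [Finset.card_union_of_disjoint (disjoint_ZY (by omega)), hS'] at hle
    rw [← card_Zf] at hcA hcB
    set z := (Zf G).card with hz
    set y := (Yf G).card with hy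
    have hfin : 2 * z ≤ p * z := Nat.mul_le_mul_right _ hp2
    nlinarith
  have hle : closure (TT G) ≤ L := by
    rw [closure_le]
    rintro t (ht | ht)
    · exact hZL ht
    · exact hYL t ht
  rw [hgen, top_le_iff] at hle
  intro a b
  exact (hL a).mp (hle ▸ Subgroup.mem_top a) b

end Cfsg.Agent.Lib.FG7.AutOrbitCount
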