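import Cfsg.Agent.Lib.FG7.AutOrbitCount

/-!
# Automorphism orbits: the extremal case `|G'| = p`
-/

set_option autoImplicit false

namespace Cfsg.Agent.Lib.FG7.AutOrbitCountB

open Subgroup MulAction
open scoped commutatorElement
open Cfsg.Agent.Lib.PGroups.ClassTwo Cfsg.Agent.Lib.FG7.AutOrbitCount

variable {G : Type*} [Group G] [Finite G]

/-- Build an automorphism `g ↦ g * h g` from a crossed homomorphism. -/
noncomputable def mkAut (h : G → G) (hc : ∀ g g', h (g * g') = g'⁻¹ * h g * g' * h g')
    (hi : ∀ g, g * h g = 1 → g = 1) : MulAut G :=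
  MulEquiv.ofBijective (MonoidHom.mk' (fun g => g * h g) (by
      intro a b
      rw [hc]
      group)) (Finite.injective_iff_bijective.mp ((injective_iff_map_eq_one _).mpr (fun g hg => hi g hg)))

theorem mkAut_apply (h : G → G) (hc : ∀ g g', h (g * g') = g'⁻¹ * h g * g' * h g')
    (hi : ∀ g, g * h g = 1 → g = 1) (g : G) : mkAut h hc hi g = g * h g := rfl

section ZP

variable {p : ℕ} [hp : Fact p.Prime]

theorem pow_val_add {y : G} (hy : y ^ p = 1) (s t : ZMod p) :
    y ^ (s + t).val = y ^ s.val * y ^ t.val := by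
  rw [ZMod.val_add, ← pow_add]
  exact (pow_eq_pow_mod _ hy).symm

theorem pow_val_inj {c : G} (hord : orderOf c = p) {s t : ZMod p} (h : c ^ s.val = c ^ t.val) :
    s = t := by
  apply ZMod.val_injective
  have hinj := pow_injOn_Iio_orderOf (x := c)
  apply hinj _ _ h
  · simp [hord, ZMod.val_lt]
  · simp [hord, ZMod.val_lt]

theorem exists_pow_val {c y : G} (hord : orderOf c = p) (hy : y ∈ zpowers c) :
    ∃ t : ZMod p, c ^ t.val = y := by
  obtain ⟨k, rfl⟩ := hy
  refine ⟨(k : ZMod p), ?_⟩
  have h1 : (((k : ZMod p).val : ℕ) : ℤ) = k % (p : ℤ) := ZMod.val_intCast k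
  rw [← zpow_natCast, h1, ← hord]
  exact zpow_mod_orderOf c k

open scoped Classical in
/-- Discrete logarithm with base `c`. -/
noncomputable def lg (p : ℕ) [Fact p.Prime] (c y : G) : ZMod p :=
  if h : ∃ t : ZMod p, c ^ t.val = y then h.choose else 0

theorem c_lg {c y : G} (hord : orderOf c = p) (hy : y ∈ zpowers c) : c ^ (lg p c y).val = y := by
  have h := exists_pow_val hord hy
  rw [lg, dif_pos h]
  exact h.choose_spec

theorem lg_eq {c y : G} (hord : orderOf c = p) {t : ZMod p} (h : c ^ t.val = y) : lg p c y = t := by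
  have hy : y ∈ zpowers c := by
    rw [← h]; exact pow_mem (Subgroup.mem_zpowers c) _
  apply pow_val_inj hord
  rw [c_lg hord hy, h]


/-- Bilinear structure. -/
structure Str (p : ℕ) [Fact p.Prime] (c : G) : Prop where
  hord : orderOf c = p
  hcz : c ∈ center G
  hK : ∀ a b : G, ⁅a, b⁆ ∈ zpowers c

variable {c : G}

theorem Str.hc (S : Str p c) (a b : G) : ⁅a, b⁆ ∈ center G :=
  (Subgroup.zpowers_le.mpr S.hcz) (S.hK a b)

theorem Str.cp (S : Str p c) : c ^ p = 1 := by
  rw [← S.hord]; exact pow_orderOf_eq_one c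

theorem Str.comm_pow (S : Str p c) (a b : G) : ⁅a, b⁆ ^ p = 1 := by
  obtain ⟨k, hk⟩ := S.hK a b
  rw [← hk]
  simp only
  rw [← zpow_natCast, zpow_comm, zpow_natCast, S.cp, one_zpow]

theorem Str.pow_center (S : Str p c) (g : G) : g ^ p ∈ center G := by
  rw [mem_center_iff]
  intro h
  have h1 : ⁅g ^ p, h⁆ = 1 := by rw [comm_pow_left S.hc]; exact S.comm_pow g h
  rw [commutatorElement_eq_one_iff_mul_comm] at h1
  exact h1.symm

/-- The bilinear form. -/
noncomputable def lam (p : ℕ) [Fact p.Prime] (c u g : G) : ZMod p := lg p c ⁅g, u⁆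

theorem Str.lam_spec (S : Str p c) (u g : G) : c ^ (lam p c u g).val = ⁅g, u⁆ :=
  c_lg S.hord (S.hK g u)

theorem Str.lam_mul (S : Str p c) (u a b : G) :
    lam p c u (a * b) = lam p c u a + lam p c u b := by
  apply lg_eq S.hord
  rw [pow_val_add S.cp, S.lam_spec, S.lam_spec, comm_mul_left S.hc]

theorem Str.lam_eq_zero_iff (S : Str p c) (u g : G) : lam p c u g = 0 ↔ ⁅g, u⁆ = 1 := by
  constructor
  · intro h
    rw [← S.lam_spec, h]; simp
  · intro h
    apply lg_eq S.hord
    rw [h]; simp

/-- `cz t = c ^ t.val`. -/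
theorem Str.pow_val_central (S : Str p c) (t : ZMod p) : c ^ t.val ∈ center G :=
  pow_mem S.hcz _

theorem Str.conj_pow (S : Str p c) (g a : G) (n : ℕ) :
    g⁻¹ * a ^ n * g = c ^ (-(lam p c a g) * (n : ZMod p)).val * a ^ n := by
  have h1 : g⁻¹ * a ^ n * g = ⁅g⁻¹, a ^ n⁆ * a ^ n := by
    simp only [commutatorElement_def]; group
  rw [h1]
  congr 1
  rw [comm_pow_right S.hc]
  have h2 : ⁅g⁻¹, a⁆ = c ^ (lam p c a g⁻¹).val := (S.lam_spec a g⁻¹).symm
  have h3 : lam p c a g⁻¹ = - lam p c a g := by
    have := S.lam_mul a g⁻¹ g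
    have h4 : lam p c a (g⁻¹ * g) = 0 := by
      rw [inv_mul_cancel, S.lam_eq_zero_iff]; simp
    rw [h4] at this
    exact eq_neg_of_add_eq_zero_left this.symm
  rw [h2, h3, ← pow_mul]
  have h5 : c ^ ((-lam p c a g).val * n) = c ^ (((-lam p c a g).val * n) % p) :=
    pow_eq_pow_mod _ S.cp
  rw [h5, ZMod.val_mul]
  have h6 : ((n : ZMod p)).val = n % p := ZMod.val_natCast p n
  rw [h6, Nat.mul_mod_mod]

/-- Central automorphism. -/
noncomputable def alphaAut (S : Str p c) (u e : G) (he : e ∈ center G) (hep : e ^ p = 1) : MulAut G :=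
  mkAut (fun g => e ^ (lam p c u g).val)
    (by
      intro g g'
      rw [S.lam_mul, pow_val_add hep]
      have h1 : g'⁻¹ * e ^ (lam p c u g).val * g' = e ^ (lam p c u g).val := by
        have := mem_center_iff.mp (pow_mem he (lam p c u g).val) g'
        rw [mul_assoc, ← this]; group
      rw [h1])
    (by
      intro g hg
      have h1 : g = (e ^ (lam p c u g).val)⁻¹ := eq_inv_of_mul_eq_one_left hg
      have h2 : g ∈ center G := by
        rw [h1]; exact inv_mem (pow_mem he _)
      have h3 : lam p c u g = 0 := by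
        rw [S.lam_eq_zero_iff, commutatorElement_eq_one_iff_mul_comm]
        exact (mem_center_iff.mp h2 u).symm
      rw [h3] at hg
      simpa using hg)

theorem alphaAut_apply (S : Str p c) (u e : G) (he : e ∈ center G) (hep : e ^ p = 1) (g : G) :
    alphaAut S u e he hep g = g * e ^ (lam p c u g).val := rfl

theorem alpha_orbit (S : Str p c) {x u e : G} (hxu : ⁅x, u⁆ = c) (he : e ∈ center G) (hep : e ^ p = 1) :
    x * e ∈ O x := by
  haveI : Fact (1 < p) := ⟨(Fact.out : p.Prime).one_lt⟩
  refine ⟨alphaAut S u e he hep, ?_⟩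
  show alphaAut S u e he hep x = x * e
  rw [alphaAut_apply]
  have h1 : lam p c u x = 1 := by
    apply lg_eq S.hord
    rw [hxu, ZMod.val_one, pow_one]
  rw [h1, ZMod.val_one, pow_one]

/-- Every non-central `x` has a `u` with `⁅x, u⁆ = c`. -/
theorem Str.exists_comm_eq (S : Str p c) {x : G} (hx : x ∉ center G) : ∃ u, ⁅x, u⁆ = c := by
  have h0 : ∃ u₀ : G, ⁅x, u₀⁆ ≠ 1 := by
    by_contra hno
    push Not at hno
    apply hx
    rw [mem_center_iff]
    intro g
    have := hno g
    rw [commutatorElement_eq_one_iff_mul_comm] at this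
    exact this.symm
  obtain ⟨u₀, hu₀⟩ := h0
  -- `⁅x, u₀⁆ = c ^ t`, `t ≠ 0`
  have h1 := S.lam_spec u₀ x
  set t := lam p c u₀ x with ht
  have ht0 : t ≠ 0 := by
    intro h
    apply hu₀
    rwa [S.lam_eq_zero_iff] at h
  refine ⟨u₀ ^ (t⁻¹).val, ?_⟩
  haveI : Fact (1 < p) := ⟨(Fact.out : p.Prime).one_lt⟩
  rw [comm_pow_right S.hc, ← h1, ← pow_mul, pow_eq_pow_mod _ S.cp, ← ZMod.val_mul,
    mul_inv_cancel₀ ht0, ZMod.val_one, pow_one]


theorem central_comm {z : G} (hz : z ∈ center G) (y : G) : z * y = y * z :=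
  (mem_center_iff.mp hz y).symm

theorem central_rearrange {C0 C1 : G} (h0 : C0 ∈ center G) (h1 : C1 ∈ center G) (A B C2 : G) :
    A * B * (C0 * (C1 * C2)) = C0 * A * C1 * (B * C2) := by
  have e1 : C1 * B = B * C1 := central_comm h1 B
  have e0 : C0 * (A * B) = (A * B) * C0 := central_comm h0 _
  calc A * B * (C0 * (C1 * C2)) = ((A * B) * C0) * C1 * C2 := by simp only [mul_assoc]
    _ = (C0 * (A * B)) * C1 * C2 := by rw [e0]
    _ = C0 * A * (B * C1) * C2 := by simp only [mul_assoc]
    _ = C0 * A * (C1 * B) * C2 := by rw [e1]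
    _ = _ := by simp only [mul_assoc]

/-- Transvection for odd `p`. -/
noncomputable def tauOdd (S : Str p c) (a : G) (ha : a ^ p = 1) (hodd : p ≠ 2) : MulAut G :=
  mkAut (fun g => a ^ (lam p c a g).val * c ^ (-(lam p c a g * lam p c a g) * (2 : ZMod p)⁻¹).val)
    (by
      intro g g'
      set l := lam p c a g with hl
      set l' := lam p c a g' with hl'
      have h2 : (2 : ZMod p) * (2 : ZMod p)⁻¹ = 1 := by
        apply mul_inv_cancel₀
        intro h
        have h3 : ((2 : ℕ) : ZMod p) = 0 := by exact_mod_cast h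
        rw [ZMod.natCast_eq_zero_iff] at h3
        exact hodd ((Nat.prime_dvd_prime_iff_eq Fact.out Nat.prime_two).mp h3)
      rw [S.lam_mul]
      rw [← hl, ← hl']
      set C1 := c ^ (-(l * l) * (2 : ZMod p)⁻¹).val with hC1
      set C2 := c ^ (-(l' * l') * (2 : ZMod p)⁻¹).val with hC2
      have hc1 : C1 ∈ center G := S.pow_val_central _
      have hc2 : C2 ∈ center G := S.pow_val_central _
      have h1 : g'⁻¹ * (a ^ l.val * C1) * g' = c ^ (-l' * l).val * a ^ l.val * C1 := by
        have h3 := S.conj_pow g' a l.val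
        rw [ZMod.natCast_zmod_val, ← hl'] at h3
        rw [← h3]
        calc g'⁻¹ * (a ^ l.val * C1) * g' = g'⁻¹ * a ^ l.val * (C1 * g') := by group
          _ = g'⁻¹ * a ^ l.val * (g' * C1) := by rw [central_comm hc1]
          _ = _ := by group
      rw [h1]
      have hc3 : c ^ (-l' * l).val ∈ center G := S.pow_val_central _
      have h4 : -((l + l') * (l + l')) * (2 : ZMod p)⁻¹ =
          -l' * l + (-(l * l) * (2 : ZMod p)⁻¹ + -(l' * l') * (2 : ZMod p)⁻¹) := by
        have : -((l + l') * (l + l')) * (2 : ZMod p)⁻¹ =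
            -(l' * l) * ((2 : ZMod p) * (2 : ZMod p)⁻¹) +
              (-(l * l) * (2 : ZMod p)⁻¹ + -(l' * l') * (2 : ZMod p)⁻¹) := by ring
        rw [this, h2]; ring
      rw [h4, pow_val_add S.cp, pow_val_add S.cp, pow_val_add ha]
      rw [← hC1, ← hC2]
      exact central_rearrange hc3 hc1 _ _ _)
    (by
      intro g hg
      set l := lam p c a g with hl
      have hcz := S.pow_val_central (-(l * l) * (2 : ZMod p)⁻¹)
      have h1 : g = (a ^ l.val * c ^ (-(l * l) * (2 : ZMod p)⁻¹).val)⁻¹ :=
        eq_inv_of_mul_eq_one_left hg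
      have h2 : Commute g a := by
        rw [h1]
        apply Commute.inv_left
        apply Commute.mul_left
        · exact (Commute.refl a).pow_left _
        · exact (mem_center_iff.mp hcz a).symm
      have h3 : l = 0 := by
        rw [S.lam_eq_zero_iff, commutatorElement_eq_one_iff_mul_comm]
        exact h2.eq
      rw [h3] at hg
      simpa using hg)

theorem tauOdd_apply (S : Str p c) (a : G) (ha : a ^ p = 1) (hodd : p ≠ 2) (g : G) :
    tauOdd S a ha hodd g =
      g * (a ^ (lam p c a g).val * c ^ (-(lam p c a g * lam p c a g) * (2 : ZMod p)⁻¹).val) := rfl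

theorem tauOdd_moves (S : Str p c) {a : G} (ha : a ^ p = 1) (hodd : p ≠ 2) (han : a ∉ center G)
    {x : G} (hx : ⁅x, a⁆ ≠ 1) : tauOdd S a ha hodd x * x⁻¹ ∉ center G := by
  intro h
  rw [tauOdd_apply] at h
  set l := lam p c a x with hl
  have hl0 : l ≠ 0 := by
    intro h0
    apply hx
    rwa [S.lam_eq_zero_iff] at h0
  set C := c ^ (-(l * l) * (2 : ZMod p)⁻¹).val with hC
  have hcz : C ∈ center G := S.pow_val_central _
  have h1 : x⁻¹ * (x * (a ^ l.val * C) * x⁻¹) * x⁻¹⁻¹ = a ^ l.val * C := by group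
  have h2 : a ^ l.val * C ∈ center G := by
    rw [← h1]
    exact (inferInstance : (center G).Normal).conj_mem _ h _
  have h3 : a ^ l.val ∈ center G := by
    have := mul_mem h2 (inv_mem hcz)
    simpa using this
  apply han
  have h4 : a = (a ^ l.val) ^ (l⁻¹).val := by
    haveI : Fact (1 < p) := ⟨(Fact.out : p.Prime).one_lt⟩
    rw [← pow_mul, pow_eq_pow_mod _ ha, ← ZMod.val_mul, mul_inv_cancel₀ hl0, ZMod.val_one, pow_one]
  rw [h4]
  exact pow_mem h3 _

theorem aut_mem_center (t : MulAut G) {x : G} (h : t x ∈ center G) : x ∈ center G := by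
  rw [mem_center_iff]
  intro g
  apply t.injective
  rw [map_mul, map_mul]
  exact mem_center_iff.mp h (t g)

/-- Class sizes in the extremal case. -/
theorem Str.index_eq (S : Str p c) (hpm : (Nat.card G).minFac = p) {x : G} (hx : x ∉ center G) :
    (centralizer ({x} : Set G)).index = p := by
  apply le_antisymm
  · have h1 : (commL S.hc x).ker = centralizer ({x} : Set G) := by
      ext g
      rw [MonoidHom.mem_ker, commL_apply, commutatorElement_eq_one_iff_mul_comm,
        Subgroup.mem_centralizer_singleton_iff]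
    rw [← h1, Subgroup.index_ker]
    have h2 : (commL S.hc x).range ≤ zpowers c := by
      rintro _ ⟨g, rfl⟩
      exact S.hK g x
    have h3 := Subgroup.card_le_of_le h2
    rwa [Nat.card_zpowers, S.hord] at h3
  · rw [← hpm]
    exact not_center_ge' hx

/-- The subgroup of central elements of order dividing `p`. -/
def E0 (G : Type*) [Group G] (p : ℕ) : Subgroup G where
  carrier := {y | y ∈ center G ∧ y ^ p = 1}
  one_mem' := ⟨one_mem _, one_pow _⟩
  mul_mem' := by
    rintro a b ⟨ha, ha'⟩ ⟨hb, hb'⟩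
    refine ⟨mul_mem ha hb, ?_⟩
    have : Commute a b := (mem_center_iff.mp ha b).symm
    rw [this.mul_pow, ha', hb', one_mul]
  inv_mem' := by
    rintro a ⟨ha, ha'⟩
    exact ⟨inv_mem ha, by rw [inv_pow, ha', inv_one]⟩

/-- Final count, first case: too many central elements of order `p`. -/
theorem final_case_a [Fintype G] (S : Str p c) (hpm : (Nat.card G).minFac = p) {x₀ : G}
    (hx₀ : x₀ ∉ center G) {e : G} (he : e ∈ center G) (hep : e ^ p = 1) (heK : e ∉ zpowers c) :
    Nat.card (MulAction.orbitRel.Quotient (MulAut G) G) * (Nat.card G).minFac ≤ Nat.card G := by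
  have hp2 : 2 ≤ p := (Fact.out : p.Prime).two_le
  have hKE : zpowers c < E0 G p := by
    refine lt_of_le_of_ne (Subgroup.zpowers_le.mpr ⟨S.hcz, S.cp⟩) ?_
    intro h
    exact heK (h ▸ (⟨he, hep⟩ : e ∈ E0 G p))
  have h1 := minFac_mul_card_le hKE
  rw [Nat.card_zpowers, S.hord, hpm] at h1
  have h2 : ∀ x : G, x ∉ center G → 2 * p ≤ (O x).ncard := by
    intro x hx
    obtain ⟨u, hu⟩ := S.exists_comm_eq hx
    have h3 : ((fun y => x * y) '' (E0 G p : Set G)) ⊆ O x := by
      rintro _ ⟨y, hy, rfl⟩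
      exact alpha_orbit S hu hy.1 hy.2
    have h4 := Set.ncard_le_ncard h3 (Set.toFinite _)
    rw [Set.ncard_image_of_injective _ (mul_right_injective x), ← Nat.card_coe_set_eq] at h4
    have : 2 * p ≤ p * p := Nat.mul_le_mul_right _ hp2
    exact this.trans (h1.trans h4)
  have h3 := sq_mul_center_le hx₀
  rw [← card_Zf] at h3
  apply bound_final (by rw [hpm]; exact hp2) (centralizer ({x₀} : Set G))
  · intro z hz
    rw [Subgroup.mem_centralizer_singleton_iff]
    exact (mem_center_iff.mp hz x₀).symm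
  · rw [hpm]; exact S.index_eq hpm hx₀
  · intro x hx
    rw [hpm]
    apply h2
    intro hz
    apply hx
    rw [Subgroup.mem_centralizer_singleton_iff]
    exact (mem_center_iff.mp hz x₀).symm
  · exact h3

/-- Final count, second case: a non-central automorphism. -/
theorem final_case_b [Fintype G] (S : Str p c) (hpm : (Nat.card G).minFac = p) {a : G}
    (han : a ∉ center G) (t : MulAut G) (ht : ∀ x : G, ⁅x, a⁆ ≠ 1 → t x * x⁻¹ ∉ center G) :
    Nat.card (MulAction.orbitRel.Quotient (MulAut G) G) * (Nat.card G).minFac ≤ Nat.card G := by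
  have hp2 : 2 ≤ p := (Fact.out : p.Prime).two_le
  have h3 := sq_mul_center_le han
  rw [← card_Zf] at h3
  apply bound_final (by rw [hpm]; exact hp2) (centralizer ({a} : Set G))
  · intro z hz
    rw [Subgroup.mem_centralizer_singleton_iff]
    exact (mem_center_iff.mp hz a).symm
  · rw [hpm]; exact S.index_eq hpm han
  · intro x hx
    rw [hpm]
    have hxa : ⁅x, a⁆ ≠ 1 := by
      intro h
      apply hx
      rw [commutatorElement_eq_one_iff_mul_comm] at h
      rw [Subgroup.mem_centralizer_singleton_iff]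
      exact h
    have hxc : x ∉ center G := by
      intro hz
      apply hxa
      rw [commutatorElement_eq_one_iff_mul_comm]
      exact (mem_center_iff.mp hz a).symm
    have h4 := two_classes S.hc x t (ht x hxa)
    have h5 := S.index_eq hpm hxc
    have h6 := S.index_eq hpm (x := t x) (fun h => hxc (aut_mem_center t h))
    rw [h5, h6] at h4
    show 2 * p ≤ (MulAction.orbit (MulAut G) x).ncard
    omega
  · exact h3


/-- The `p`-power map on the centre. -/
noncomputable def PP (G : Type*) [Group G] (p : ℕ) : center G →* center G :=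
  MonoidHom.mk' (fun z => z ^ p) (by
    intro a b
    have : Commute a b := by
      apply Subtype.ext
      exact (mem_center_iff.mp a.2 (b : G)).symm
    exact this.mul_pow p)

theorem PP_apply (z : center G) (p : ℕ) : PP G p z = z ^ p := rfl

theorem card_ker_PP (S : Str p c) (hE : ∀ e ∈ center G, e ^ p = 1 → e ∈ zpowers c) :
    Nat.card (PP G p).ker = p := by
  have h1 : ((PP G p).ker).map (center G).subtype = zpowers c := by
    ext y
    constructor
    · rintro ⟨z, hz, rfl⟩
      apply hE _ z.2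
      have : z ^ p = 1 := MonoidHom.mem_ker.mp hz
      exact_mod_cast congrArg Subtype.val this
    · intro hy
      have hyc : y ∈ center G := (Subgroup.zpowers_le.mpr S.hcz) hy
      refine ⟨⟨y, hyc⟩, MonoidHom.mem_ker.mpr ?_, rfl⟩
      show (⟨y, hyc⟩ : center G) ^ p = 1
      apply Subtype.ext
      obtain ⟨k, rfl⟩ := hy
      show ((c ^ k : G)) ^ p = 1
      rw [← zpow_natCast, zpow_comm, zpow_natCast, S.cp, one_zpow]
  have h2 : Nat.card (((PP G p).ker).map (center G).subtype) = Nat.card (PP G p).ker :=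
    Nat.card_congr (Subgroup.equivMapOfInjective _ _ (Subgroup.subtype_injective (center G))).symm.toEquiv
  rw [h1, Nat.card_zpowers, S.hord] at h2
  exact h2.symm

theorem index_range_PP (S : Str p c) (hE : ∀ e ∈ center G, e ^ p = 1 → e ∈ zpowers c) :
    (PP G p).range.index = p := by
  have h1 := Subgroup.card_mul_index (PP G p).ker
  have h2 := Subgroup.card_mul_index (PP G p).range
  rw [Subgroup.index_ker] at h1
  rw [card_ker_PP S hE] at h1
  have h3 : 0 < Nat.card (PP G p).range := Nat.card_pos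
  rw [mul_comm] at h1
  exact Nat.eq_of_mul_eq_mul_left h3 (h2.trans h1.symm)

/-- `p²` bounds the index of the centre. -/
theorem sq_le_index_center {x₀ : G} (hx₀ : x₀ ∉ center G) :
    (Nat.card G).minFac ^ 2 ≤ (center G).index := by
  have h1 := sq_mul_center_le hx₀
  have h2 := Subgroup.card_mul_index (center G)
  have h3 : Nat.card (center G) * (Nat.card G).minFac ^ 2 ≤ Nat.card (center G) * (center G).index := by
    rw [h2, mul_comm]; exact h1
  exact Nat.le_of_mul_le_mul_left h3 Nat.card_pos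

/-- Abstract: a hom to a quotient of order `p` has a non-central element in its kernel. -/
theorem exists_ker_not_center (hpm : (Nat.card G).minFac = p) {x₀ : G} (hx₀ : x₀ ∉ center G)
    {Q : Type*} [Group Q] [Finite Q] (hQ : Nat.card Q = p) (π : G →* Q) :
    ∃ a ∈ π.ker, a ∉ center G := by
  by_contra hno
  push Not at hno
  have h1 : π.ker ≤ center G := fun a ha => hno a ha
  have h2 := sq_le_index_center hx₀
  have h3 : (center G).index ∣ π.ker.index := Subgroup.index_dvd_of_le h1
  have h4 : π.ker.index ≤ p := by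
    rw [Subgroup.index_ker, ← hQ]
    exact Subgroup.card_le_card_group _
  have h5 : 0 < π.ker.index := Nat.pos_of_ne_zero Subgroup.index_ne_zero_of_finite
  have h6 := Nat.le_of_dvd h5 h3
  rw [hpm] at h2
  have h7 : p * 2 ≤ p * p := Nat.mul_le_mul_left _ (Fact.out : p.Prime).two_le
  have h8 : 0 < p := (Fact.out : p.Prime).pos
  nlinarith

/-- An element `a ∉ Z`, `a ^ p = 1` for `p` odd. -/
theorem exists_odd (S : Str p c) (hpm : (Nat.card G).minFac = p) (hodd : p ≠ 2) {x₀ : G}
    (hx₀ : x₀ ∉ center G) (hE : ∀ e ∈ center G, e ^ p = 1 → e ∈ zpowers c) :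
    ∃ a : G, a ∉ center G ∧ a ^ p = 1 := by
  have hdvd := prime_dvd_choose_two (Fact.out : p.Prime) hodd
  let powH : G →* center G := MonoidHom.mk' (fun g => ⟨g ^ p, S.pow_center g⟩) (by
    intro a b
    apply Subtype.ext
    show (a * b) ^ p = a ^ p * b ^ p
    rw [mul_pow S.hc]
    obtain ⟨m, hm⟩ := hdvd
    rw [hm, pow_mul, S.comm_pow, one_pow, mul_one])
  let π : G →* center G ⧸ (PP G p).range := (QuotientGroup.mk' (PP G p).range).comp powH
  have hQ : Nat.card (center G ⧸ (PP G p).range) = p := index_range_PP S hE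
  obtain ⟨a₀, ha₀, ha₀n⟩ := exists_ker_not_center hpm hx₀ hQ π
  have h1 : powH a₀ ∈ (PP G p).range := by
    rw [← QuotientGroup.eq_one_iff]
    exact ha₀
  obtain ⟨z, hz⟩ := h1
  have hz' : (z : G) ^ p = a₀ ^ p := by
    have h2 : ((PP G p z : center G) : G) = ((powH a₀ : center G) : G) := congrArg Subtype.val hz
    exact h2
  refine ⟨a₀ * (z : G)⁻¹, ?_, ?_⟩
  · intro h
    apply ha₀n
    have := mul_mem h z.2
    simpa using this
  · have hcomm : Commute a₀ (z : G)⁻¹ := by
      exact mem_center_iff.mp (inv_mem z.2) a₀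
    rw [hcomm.mul_pow, inv_pow, hz', mul_inv_cancel]

end ZP

section Even

variable [hp2 : Fact (Nat.Prime 2)] {c : G}

theorem comm_eq_one_or (S : Str 2 c) (g w : G) : ⁅g, w⁆ = 1 ∨ ⁅g, w⁆ = c := by
  have h1 := S.lam_spec w g
  have h2 : (lam 2 c w g).val < 2 := ZMod.val_lt _
  interval_cases h : (lam 2 c w g).val
  · left; rw [← h1]; simp
  · right; rw [← h1]; simp

/-- Transvection for `p = 2`. -/
noncomputable def tauEven (S : Str 2 c) (w : G) (hw : w ^ 2 = c) : MulAut G := by
  classical
  exact mkAut (fun g => if ⁅g, w⁆ = 1 then 1 else w)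
    (by
      intro g g'
      have hcc : c * c = 1 := by rw [← pow_two]; exact S.cp
      have hmul := comm_mul_left S.hc g g' w
      have hcomm : ∀ y : G, ⁅y, w⁆ = 1 → y * w = w * y := by
        intro y hy
        rwa [commutatorElement_eq_one_iff_mul_comm] at hy
      have hne : c ≠ 1 := by
        intro h
        have := S.hord
        rw [h, orderOf_one] at this
        omega
      rcases comm_eq_one_or S g w with h1 | h1 <;> rcases comm_eq_one_or S g' w with h2 | h2
      · have h3 : ⁅g * g', w⁆ = 1 := by rw [hmul, h1, h2, mul_one]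
        simp [h1, h2, h3]
      · have h3 : ⁅g * g', w⁆ = c := by rw [hmul, h1, h2, one_mul]
        simp [h1, h2, h3, hne]
      · have h3 : ⁅g * g', w⁆ = c := by rw [hmul, h1, h2, mul_one]
        simp only [h1, h2, h3, hne, if_false, if_true, mul_one]
        have := hcomm g' h2
        rw [mul_assoc, ← this]
        group
      · have h3 : ⁅g * g', w⁆ = 1 := by rw [hmul, h1, h2, hcc]
        simp only [h1, h2, h3, hne, if_false, if_true]
        have h4 : g'⁻¹ * w * g' = c * w := by
          have h5 : ⁅g'⁻¹, w⁆ = c := by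
            have h6 : ⁅g'⁻¹, w⁆ * ⁅g', w⁆ = 1 := by
              rw [← comm_mul_left S.hc, inv_mul_cancel]; simp
            rw [h2] at h6
            exact mul_right_cancel (h6.trans hcc.symm)
          have h7 : g'⁻¹ * w * g' = ⁅g'⁻¹, w⁆ * w := by
            simp only [commutatorElement_def]; group
          rw [h7, h5]
        rw [h4, mul_assoc, ← pow_two, hw, hcc])
    (by
      intro g hg
      by_cases h : ⁅g, w⁆ = 1
      · simpa [h] using hg
      · exfalso
        simp only [h, if_false] at hg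
        apply h
        have h1 : g = w⁻¹ := eq_inv_of_mul_eq_one_left hg
        rw [h1, commutatorElement_eq_one_iff_mul_comm]
        simp)

theorem tauEven_moves (S : Str 2 c) {w : G} (hw : w ^ 2 = c) (hwn : w ∉ center G) {x : G}
    (hx : ⁅x, w⁆ ≠ 1) : tauEven S w hw x * x⁻¹ ∉ center G := by
  classical
  have h1 : tauEven S w hw x = x * w := by
    simp only [tauEven, mkAut_apply]
    rw [if_neg hx]
  rw [h1]
  intro h
  apply hwn
  have h2 : x⁻¹ * (x * w * x⁻¹) * x⁻¹⁻¹ = w := by group
  rw [← h2]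
  exact (inferInstance : (center G).Normal).conj_mem _ h _

theorem two_elts {Q : Type*} [Group Q] (hQ : Nat.card Q = 2) {x y : Q} (hx : x ≠ 1) (hy : y ≠ 1) :
    x = y := by
  obtain ⟨a, _, ha⟩ := (Nat.card_eq_two_iff' (1 : Q)).mp hQ
  rw [ha x hx, ha y hy]

/-- An element `w ∉ Z` with `w ^ 2 = c`. -/
theorem exists_even (S : Str 2 c) (hpm : (Nat.card G).minFac = 2) {x₀ : G}
    (hx₀ : x₀ ∉ center G) (hE : ∀ e ∈ center G, e ^ 2 = 1 → e ∈ zpowers c) :
    ∃ w : G, w ∉ center G ∧ w ^ 2 = c := by
  set R := (PP G 2).range with hR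
  have hQ : Nat.card (center G ⧸ R) = 2 := index_range_PP S hE
  set c' : center G := ⟨c, S.hcz⟩ with hc'
  have hcc : c * c = 1 := by rw [← pow_two]; exact S.cp
  have hsq : ∀ a b : G, (⟨(a * b) ^ 2, S.pow_center _⟩ : center G) =
      ⟨a ^ 2, S.pow_center a⟩ * ⟨b ^ 2, S.pow_center b⟩ * ⟨⁅b, a⁆, S.hc b a⟩ := by
    intro a b
    apply Subtype.ext
    show (a * b) ^ 2 = a ^ 2 * b ^ 2 * ⁅b, a⁆
    rw [mul_pow S.hc]
    simp
  by_cases hcR : c' ∈ R
  · obtain ⟨s, hs⟩ := hcR
    have hs' : (s : G) ^ 2 = c := by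
      have h2 : ((PP G 2 s : center G) : G) = ((c' : center G) : G) := congrArg Subtype.val hs
      exact h2
    have hcommR : ∀ a b : G, (⟨⁅b, a⁆, S.hc b a⟩ : center G) ∈ R := by
      intro a b
      rcases comm_eq_one_or S b a with h | h
      · have : (⟨⁅b, a⁆, S.hc b a⟩ : center G) = 1 := Subtype.ext h
        rw [this]; exact one_mem _
      · have : (⟨⁅b, a⁆, S.hc b a⟩ : center G) = c' := Subtype.ext h
        rw [this]; exact ⟨s, hs⟩
    let π : G →* center G ⧸ R := MonoidHom.mk'
      (fun g => ((⟨g ^ 2, S.pow_center g⟩ : center G) : center G ⧸ R)) (by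
        intro a b
        rw [hsq, QuotientGroup.mk_mul, QuotientGroup.mk_mul]
        have : ((⟨⁅b, a⁆, S.hc b a⟩ : center G) : center G ⧸ R) = 1 :=
          (QuotientGroup.eq_one_iff _).mpr (hcommR a b)
        rw [this, mul_one])
    obtain ⟨a₀, ha₀, ha₀n⟩ := exists_ker_not_center hpm hx₀ hQ π
    have h1 : (⟨a₀ ^ 2, S.pow_center a₀⟩ : center G) ∈ R :=
      (QuotientGroup.eq_one_iff _).mp ha₀
    obtain ⟨z, hz⟩ := h1
    have hz' : (z : G) ^ 2 = a₀ ^ 2 := by
      have h2 : ((PP G 2 z : center G) : G) = _ := congrArg Subtype.val hz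
      exact h2
    refine ⟨a₀ * (z : G)⁻¹ * s, ?_, ?_⟩
    · intro h
      apply ha₀n
      have := mul_mem (mul_mem h (inv_mem s.2)) z.2
      simpa using this
    · have hcomm1 : Commute (a₀ * (z : G)⁻¹) (s : G) := (mem_center_iff.mp s.2 _)
      have hcomm2 : Commute a₀ (z : G)⁻¹ := mem_center_iff.mp (inv_mem z.2) a₀
      rw [hcomm1.mul_pow, hcomm2.mul_pow, inv_pow, hz', mul_inv_cancel, one_mul, hs']
  · obtain ⟨u, hu⟩ := S.exists_comm_eq hx₀
    have hc1 : c ≠ 1 := by
      intro h
      have := S.hord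
      rw [h, orderOf_one] at this
      omega
    have hcinv : c⁻¹ = c := inv_eq_of_mul_eq_one_left hcc
    have hux : ⁅u, x₀⁆ = c := by
      rw [← commutatorElement_inv, hu, hcinv]
    have hun : u ∉ center G := by
      intro h
      apply hc1
      rw [← hu, commutatorElement_eq_one_iff_mul_comm]
      exact mem_center_iff.mp h x₀
    have hg : ∃ g : G, g ∉ center G ∧ (⟨g ^ 2, S.pow_center g⟩ : center G) ∉ R := by
      by_cases h1 : (⟨x₀ ^ 2, S.pow_center x₀⟩ : center G) ∈ R
      · by_cases h2 : (⟨u ^ 2, S.pow_center u⟩ : center G) ∈ R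
        · refine ⟨x₀ * u, ?_, ?_⟩
          · intro h
            apply hc1
            have h3 : ⁅x₀ * u, x₀⁆ = 1 := by
              rw [commutatorElement_eq_one_iff_mul_comm]
              exact mem_center_iff.mp h x₀ |>.symm
            rw [comm_mul_left S.hc] at h3
            have h4 : ⁅x₀, x₀⁆ = 1 := by
              rw [commutatorElement_eq_one_iff_mul_comm]
            rw [h4, one_mul, hux] at h3
            exact h3
          · rw [hsq]
            intro h
            apply hcR
            have h3 := (Subgroup.mul_mem_cancel_left R (mul_mem h1 h2)).mp h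
            have h4 : (⟨⁅u, x₀⁆, S.hc u x₀⟩ : center G) = c' := Subtype.ext hux
            rwa [h4] at h3
        · exact ⟨u, hun, h2⟩
      · exact ⟨x₀, hx₀, h1⟩
    obtain ⟨g, hgn, hgR⟩ := hg
    have h1 : ((⟨g ^ 2, S.pow_center g⟩ : center G) : center G ⧸ R) = (c' : center G ⧸ R) := by
      apply two_elts hQ
      · rwa [Ne, QuotientGroup.eq_one_iff]
      · rwa [Ne, QuotientGroup.eq_one_iff]
    rw [QuotientGroup.eq] at h1
    obtain ⟨z, hz⟩ := h1
    have hz' : (z : G) ^ 2 = (g ^ 2)⁻¹ * c := by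
      have h2 : ((PP G 2 z : center G) : G) = _ := congrArg Subtype.val hz
      exact h2
    refine ⟨g * z, ?_, ?_⟩
    · intro h
      apply hgn
      have := mul_mem h (inv_mem z.2)
      simpa using this
    · have hcomm : Commute g (z : G) := mem_center_iff.mp z.2 g
      rw [hcomm.mul_pow, hz']
      group

end Even

section Final

variable {p : ℕ} [hp : Fact p.Prime] {c : G}

/-- Final count. -/
theorem final_count [Fintype G] (S : Str p c) (hpm : (Nat.card G).minFac = p) {x₀ : G}
    (hx₀ : x₀ ∉ center G) :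
    Nat.card (MulAction.orbitRel.Quotient (MulAut G) G) * (Nat.card G).minFac ≤ Nat.card G := by
  by_cases hE : ∀ e ∈ center G, e ^ p = 1 → e ∈ zpowers c
  · by_cases hodd : p = 2
    · subst hodd
      obtain ⟨w, hwn, hw⟩ := exists_even S hpm hx₀ hE
      exact final_case_b S hpm hwn (tauEven S w hw) (fun x hx => tauEven_moves S hw hwn hx)
    · obtain ⟨a, han, ha⟩ := exists_odd S hpm hodd hx₀ hE
      exact final_case_b S hpm han (tauOdd S a ha hodd) (fun x hx => tauOdd_moves S ha hodd han hx)
  · push Not at hE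
    obtain ⟨e, he, hep, heK⟩ := hE
    exact final_case_a S hpm hx₀ he hep heK

end Final

/-- The main theorem. -/
theorem main (hna : ¬ IsMulCommutative G) :
    Nat.card (MulAction.orbitRel.Quotient (MulAut G) G) * (Nat.card G).minFac ≤ Nat.card G := by
  classical
  haveI := Fintype.ofFinite G
  have hx : ∃ x₀ : G, x₀ ∉ center G := by
    by_contra hno
    push Not at hno
    apply hna
    exact ⟨⟨fun a b => (mem_center_iff.mp (hno a) b).symm⟩⟩
  obtain ⟨x₀, hx₀⟩ := hx
  have hone : Nat.card G ≠ 1 := by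
    intro h
    haveI := (Nat.card_eq_one_iff_unique.mp h).1
    exact hx₀ (by simp [Subsingleton.elim x₀ 1])
  have hprime : (Nat.card G).minFac.Prime := Nat.minFac_prime hone
  have hp2 := hprime.two_le
  by_cases h1 : (Yf G).card + (Nat.card G).minFac ^ 2 * (Zf G).card ≤ Nat.card G
  · exact bound_nonbad hp2 h1
  rw [not_le] at h1
  have hgen := closure_TT_eq_top hp2 h1
  have hc := class_two hgen
  by_cases h2 : (Yf G).card + ((Nat.card G).minFac + 1) * (Zf G).card ≤ Nat.card G
  · exact bound_nonbad2 hp2 (fun x hx hne => index_ge_sq hprime hgen hc hx hne) h2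
  rw [not_le] at h2
  obtain ⟨x, u, hx, hu, hxu⟩ := exists_noncomm hgen hx₀
  haveI : Fact (Nat.card G).minFac.Prime := ⟨hprime⟩
  have hK := all_in_K hprime hgen hc hx hu hxu h2
  have S : Str (Nat.card G).minFac ⁅x, u⁆ :=
    { hord := orderOf_eq_prime (comm_pow_eq_one hgen hc x u) hxu
      hcz := hc x u
      hK := hK }
  exact final_count S rfl hx₀

end Cfsg.Agent.Lib.FG7.AutOrbitCountB

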