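import Mathlib
import Cfsg.Agent.Lib.FG7.KulakoffB

/-!
# The count of subgroups of order `p^a` modulo `p²` reduces to a Sylow subgroup
-/

set_option autoImplicit false

open scoped Pointwise

namespace Cfsg.Agent.Lib.FG7.KulakoffC

open Subgroup Cfsg.Agent.Lib.FG7.Kulakoff Cfsg.Agent.Lib.Solvable.Hall

section actions

variable {P T : Type*} [Group P] [MulAction P T]

/-- If all orbits have size divisible by `d`, so has the whole set. -/
theorem dvd_card_of_orbit [Finite T] (d : ℕ) (h : ∀ t : T, d ∣ Nat.card (MulAction.orbit P t)) :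
    d ∣ Nat.card T := by
  classical
  haveI : Fintype (MulAction.orbitRel.Quotient P T) := Fintype.ofFinite _
  rw [Nat.card_congr (MulAction.selfEquivSigmaOrbits' P T), Nat.card_sigma]
  apply Finset.dvd_sum
  intro ω _
  induction ω using Quotient.inductionOn' with
  | h t =>
    rw [MulAction.orbitRel.Quotient.orbit_mk]
    exact h t

/-- A weighted count of a set with an action of a `p`-group without fixed points. -/
theorem dvd_sum_of_invariant {p : ℕ} [Fact p.Prime] [Finite P] [Fintype T] (hP : IsPGroup p P)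
    (w : T → ℕ) (hw : ∀ (u : P) (y : T), w (u • y) = w y) (hfix : ∀ y : T, ∃ u : P, u • y ≠ y) :
    p ∣ ∑ y, w y := by
  classical
  let R := {t : T × ℕ // t.2 < w t.1}
  have hcard : Nat.card R = ∑ y, w y := by
    let e : R ≃ Σ y : T, Fin (w y) :=
      { toFun := fun t => ⟨t.1.1, ⟨t.1.2, t.2⟩⟩
        invFun := fun t => ⟨(t.1, t.2.1), t.2.2⟩
        left_inv := fun t => rfl
        right_inv := fun t => rfl }
    rw [Nat.card_congr e, Nat.card_sigma]
    simp
  haveI : Finite R := by
    haveI : Fintype (Σ y : T, Fin (w y)) := inferInstance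
    let e : R ≃ Σ y : T, Fin (w y) :=
      { toFun := fun t => ⟨t.1.1, ⟨t.1.2, t.2⟩⟩
        invFun := fun t => ⟨(t.1, t.2.1), t.2.2⟩
        left_inv := fun t => rfl
        right_inv := fun t => rfl }
    exact Finite.of_equiv _ e.symm
  letI : MulAction P R :=
    { smul := fun u t => ⟨(u • t.1.1, t.1.2), by
        show t.1.2 < w (u • t.1.1)
        rw [hw]; exact t.2⟩
      one_smul := fun t => Subtype.ext (by
        show ((1 : P) • t.1.1, t.1.2) = t.1
        rw [one_smul])
      mul_smul := fun u v t => Subtype.ext (by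
        show ((u * v) • t.1.1, t.1.2) = (u • v • t.1.1, t.1.2)
        rw [mul_smul]) }
  have h1 := hP.card_modEq_card_fixedPoints R
  have h2 : Nat.card (MulAction.fixedPoints P R) = 0 := by
    rw [Nat.card_eq_zero]
    left
    constructor
    rintro ⟨t, ht⟩
    obtain ⟨u, hu⟩ := hfix t.1.1
    have h3 := ht u
    have h4 : (u • t : R).1.1 = u • t.1.1 := rfl
    rw [h3] at h4
    exact hu h4.symm
  rw [h2] at h1
  rw [← hcard]
  exact (Nat.modEq_zero_iff_dvd).mp h1

end actions

section conj

variable {G : Type*} [Group G]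

theorem conj_eq_iff_mem_normalizer {u : G} {H : Subgroup G} :
    MulAut.conj u • H = H ↔ u ∈ normalizer (H : Set G) := by
  rw [Subgroup.mem_normalizer_iff]
  constructor
  · intro h x
    constructor
    · intro hx
      rw [← h, mem_conj_smul_iff]
      simpa [mul_assoc] using hx
    · intro hx
      rw [← h, mem_conj_smul_iff] at hx
      simpa [mul_assoc] using hx
  · intro h
    ext x
    rw [mem_conj_smul_iff, h]
    simp [mul_assoc]

/-- The conjugation action of a subgroup on an invariant family of subgroups. -/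
@[reducible] def conjAct (P : Subgroup G) (S : Subgroup G → Prop)
    (hS : ∀ u ∈ P, ∀ H, S H → S (MulAut.conj u • H)) : MulAction P {H // S H} where
  smul u H := ⟨MulAut.conj (u : G) • H.1, hS u u.2 H.1 H.2⟩
  one_smul H := Subtype.ext (by
    show MulAut.conj ((1 : P) : G) • H.1 = H.1
    simp)
  mul_smul u v H := Subtype.ext (by
    show MulAut.conj ((u * v : P) : G) • H.1 = MulAut.conj (u : G) • MulAut.conj (v : G) • H.1
    rw [Subgroup.coe_mul, map_mul, mul_smul])

variable [Finite G] {p : ℕ}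

/-- The number of subgroups of `R` of order `p^a` normalized by a `p`-subgroup normalizing `R`. -/
theorem card_fixed_normalized [hp : Fact p.Prime] (U R : Subgroup G) (hU : IsPGroup p U)
    (hUR : U ≤ normalizer (R : Set G)) (a : ℕ) (hd : p ^ a ∣ Nat.card R) :
    (sset fun H : Subgroup G => Nat.card H = p ^ a ∧ H ≤ R ∧ U ≤ normalizer (H : Set G)).card
      ≡ 1 [MOD p] := by
  classical
  let S : Subgroup G → Prop := fun H => H ≤ R ∧ Nat.card H = p ^ a
  have hS : ∀ u ∈ U, ∀ H, S H → S (MulAut.conj u • H) := by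
    rintro u hu H ⟨h1, h2⟩
    refine ⟨?_, by rw [card_conj_smul, h2]⟩
    have h3 := conj_eq_iff_mem_normalizer.mpr (hUR hu)
    rw [← h3]
    exact conj_smul_mono h1
  letI := conjAct U S hS
  haveI : Finite U := inferInstance
  have h1 := hU.card_modEq_card_fixedPoints {H // S H}
  have h2 : Nat.card {H // S H} = cnt R (p ^ a) := by
    rw [card_sset, cnt_subgroup]
  have h3 : cnt R (p ^ a) ≡ 1 [MOD p] := Cfsg.Agent.S3975.result p a hp.out hd
  have h4 : Nat.card (MulAction.fixedPoints U {H // S H}) =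
      (sset fun H : Subgroup G => Nat.card H = p ^ a ∧ H ≤ R ∧ U ≤ normalizer (H : Set G)).card := by
    rw [← card_sset]
    apply Nat.card_congr
    refine
      { toFun := fun H => ⟨H.1.1, H.1.2.2, H.1.2.1, fun u hu => ?_⟩
        invFun := fun H => ⟨⟨H.1, H.2.2.1, H.2.1⟩, fun u => ?_⟩
        left_inv := fun H => rfl
        right_inv := fun H => rfl }
    · have h5 := H.2 ⟨u, hu⟩
      exact conj_eq_iff_mem_normalizer.mp (congrArg Subtype.val h5)
    · apply Subtype.ext
      exact conj_eq_iff_mem_normalizer.mpr (H.2.2.2 u.2)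
  rw [h2, h4] at h1
  exact h1.symm.trans h3

end conj

section sylow

variable {G : Type*} [Group G] [Finite G] {p : ℕ} [hp : Fact p.Prime]

/-- A subgroup of index `p` in a `p`-subgroup is normalized by it. -/
theorem le_normalizer_of_index {A R : Subgroup G} {f : ℕ} (hAR : A ≤ R) (hA : Nat.card A = p ^ f)
    (hR : Nat.card R = p ^ (f + 1)) : R ≤ normalizer (A : Set G) := by
  have hRp : IsPGroup p R := IsPGroup.of_card hR
  let T : Subgroup R := A.subgroupOf R
  have hTc : Nat.card T = p ^ f := by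
    rw [← hA]
    exact Nat.card_congr (Subgroup.subgroupOfEquivOfLe hAR).toEquiv
  have hTi : T.index = p := by
    have h1 := card_mul_index T
    rw [hTc, hR, pow_succ] at h1
    exact Nat.eq_of_mul_eq_mul_left (pow_pos hp.out.pos _) h1
  haveI hTn : T.Normal := Cfsg.Agent.Lib.PGroups.Basic.normal_of_isCoatom hRp
    (Cfsg.Agent.Lib.PGroups.Basic.isCoatom_of_index_prime (by rw [hTi]; exact hp.out))
  have key : ∀ u ∈ R, ∀ h ∈ A, u * h * u⁻¹ ∈ A := by
    intro u hu h hh
    have h1 : (⟨h, hAR hh⟩ : R) ∈ T := hh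
    have h2 := hTn.conj_mem _ h1 ⟨u, hu⟩
    exact h2
  intro u hu
  rw [Subgroup.mem_normalizer_iff]
  intro h
  constructor
  · exact key u hu h
  · intro hh
    have := key u⁻¹ (R.inv_mem hu) _ hh
    simpa [mul_assoc] using this

theorem normalizer_conj {u v : G} {H : Subgroup G} (hv : v ∈ normalizer (H : Set G)) :
    u * v * u⁻¹ ∈ normalizer ((MulAut.conj u • H : Subgroup G) : Set G) := by
  rw [← conj_eq_iff_mem_normalizer] at hv ⊢
  have h1 : MulAut.conj (u * v * u⁻¹) • (MulAut.conj u • H) = MulAut.conj u • (MulAut.conj v • H) := by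
    rw [← mul_smul, ← map_mul, show u * v * u⁻¹ * u = u * v by group, map_mul, mul_smul]
  rw [h1, hv]

theorem conj_inv_conj (u : G) (H : Subgroup G) : MulAut.conj u⁻¹ • (MulAut.conj u • H) = H := by
  rw [conj_smul_conj_smul, inv_mul_cancel, map_one, one_smul]

/-- **Reduction of the count modulo `p²` to a Sylow subgroup.** -/
theorem cnt_modEq_sylow (P : Sylow p G) (f : ℕ) (hPc : Nat.card (P : Subgroup G) = p ^ (f + 1))
    (a : ℕ) (ha : a ≤ f) : cnt G (p ^ a) ≡ cnt (P : Subgroup G) (p ^ a) [MOD p ^ 2] := by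
  classical
  have hpp := hp.out
  obtain ⟨P₀, hP₀⟩ : ∃ P₀ : Subgroup G, P₀ = (P : Subgroup G) := ⟨_, rfl⟩
  rw [← hP₀] at hPc ⊢
  have hPp : IsPGroup p P₀ := hP₀ ▸ P.isPGroup'
  have hcardle : ∀ R : Subgroup G, IsPGroup p R → ∃ j, j ≤ f + 1 ∧ Nat.card R = p ^ j := by
    intro R hR
    obtain ⟨Q, hQ⟩ := hR.exists_le_sylow
    have h1 : Nat.card (Q : Subgroup G) = p ^ (f + 1) := by
      rw [← hPc, hP₀, Sylow.card_eq_multiplicity, Sylow.card_eq_multiplicity]
    have h2 : Nat.card R ∣ p ^ (f + 1) := h1 ▸ Subgroup.card_dvd_of_le hQ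
    obtain ⟨j, hj, hj2⟩ := (Nat.dvd_prime_pow hpp).mp h2
    exact ⟨j, hj, hj2⟩
  have hsub : ∀ R : Subgroup G, R ≤ P₀ → R ≠ P₀ → ∃ j, j ≤ f ∧ Nat.card R = p ^ j := by
    intro R hR hne
    obtain ⟨j, hj, hj2⟩ := hcardle R (hPp.to_le hR)
    refine ⟨j, ?_, hj2⟩
    by_contra hjf
    have : j = f + 1 := by omega
    apply hne
    apply Subgroup.eq_of_le_of_card_ge hR
    rw [hPc, hj2, this]
  have himax : ∀ H : Subgroup G, IsPGroup p H → P₀ ≤ normalizer (H : Set G) → H ≤ P₀ := by
    intro H hH hN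
    have h1 : IsPGroup p (P₀ ⊔ H : Subgroup G) := IsPGroup.to_sup_of_normal_right' hPp hH hN
    have h2 : P₀ ⊔ H = P₀ := by
      rw [hP₀] at h1 ⊢
      exact P.is_maximal' h1 le_sup_left
    rw [← h2]
    exact le_sup_right
  have hpow_inj : ∀ {i j : ℕ}, p ^ i = p ^ j → i = j := fun h =>
    Nat.pow_right_injective hpp.two_le h
  -- first reduction
  set A := sset fun H : Subgroup G => Nat.card H = p ^ a with hA
  set B := sset fun H : Subgroup G => H ≤ P₀ ∧ Nat.card H = p ^ a with hB
  set C₁ := sset fun H : Subgroup G => Nat.card H = p ^ a ∧ ¬ H ≤ P₀ ∧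
    Nat.card (P₀ ⊓ normalizer (H : Set G) : Subgroup G) = p ^ f with hC₁
  set C₂ := sset fun H : Subgroup G => Nat.card H = p ^ a ∧ ¬ H ≤ P₀ ∧
    Nat.card (P₀ ⊓ normalizer (H : Set G) : Subgroup G) ≠ p ^ f with hC₂
  have hcount : A.card = B.card + (C₁.card + C₂.card) := by
    have h1 := Finset.card_filter_add_card_filter_not (s := A) (fun H => H ≤ P₀)
    have h2 : A.filter (fun H => H ≤ P₀) = B := by
      ext H
      simp [hA, hB, and_comm]
    have h3 := Finset.card_filter_add_card_filter_not (s := A.filter (fun H => ¬ H ≤ P₀))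
      (fun H : Subgroup G => Nat.card (P₀ ⊓ normalizer (H : Set G) : Subgroup G) = p ^ f)
    have h4 : (A.filter (fun H => ¬ H ≤ P₀)).filter
        (fun H : Subgroup G => Nat.card (P₀ ⊓ normalizer (H : Set G) : Subgroup G) = p ^ f) = C₁ := by
      ext H
      simp [hA, hC₁, and_assoc]
    have h5 : (A.filter (fun H => ¬ H ≤ P₀)).filter
        (fun H : Subgroup G => ¬ Nat.card (P₀ ⊓ normalizer (H : Set G) : Subgroup G) = p ^ f) = C₂ := by
      ext H
      simp [hA, hC₂, and_assoc]
    rw [h2] at h1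
    rw [h4, h5] at h3
    omega
  have hcA : cnt G (p ^ a) = A.card := cnt_eq _
  have hcB : cnt P₀ (p ^ a) = B.card := cnt_subgroup _ _
  rw [hcA, hcB, hcount]
  -- conjugation by elements of `P₀`
  have hconjP : ∀ u ∈ P₀, MulAut.conj u • P₀ = P₀ := fun u hu =>
    conj_eq_iff_mem_normalizer.mpr (Subgroup.le_normalizer hu)
  have hQle : ∀ u ∈ P₀, ∀ H : Subgroup G,
      (P₀ ⊓ normalizer ((MulAut.conj u • H : Subgroup G) : Set G) : Subgroup G) ≤
        MulAut.conj u • (P₀ ⊓ normalizer (H : Set G) : Subgroup G) := by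
    intro u hu H x hx
    rw [mem_conj_smul_iff, mem_inf]
    obtain ⟨h1, h2⟩ := mem_inf.mp hx
    refine ⟨P₀.mul_mem (P₀.mul_mem (P₀.inv_mem hu) h1) hu, ?_⟩
    have h3 := normalizer_conj (u := u⁻¹) h2
    rw [conj_inv_conj] at h3
    simpa using h3
  have hQconj : ∀ u ∈ P₀, ∀ H : Subgroup G,
      Nat.card (P₀ ⊓ normalizer ((MulAut.conj u • H : Subgroup G) : Set G) : Subgroup G) =
        Nat.card (P₀ ⊓ normalizer (H : Set G) : Subgroup G) := by
    intro u hu H
    apply le_antisymm
    · have h1 := Nat.card_mono (Set.toFinite _) (hQle u hu H)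
      simp only [SetLike.coe_sort_coe] at h1
      rwa [card_conj_smul] at h1
    · have h1 := hQle u⁻¹ (P₀.inv_mem hu) (MulAut.conj u • H)
      rw [conj_inv_conj] at h1
      have h2 := Nat.card_mono (Set.toFinite _) h1
      simp only [SetLike.coe_sort_coe] at h2
      rwa [card_conj_smul] at h2
  have hnotle : ∀ u ∈ P₀, ∀ H : Subgroup G, MulAut.conj u • H ≤ P₀ → H ≤ P₀ := by
    intro u hu H h x hx
    have h1 : u * x * u⁻¹ ∈ MulAut.conj u • H := by
      rw [mem_conj_smul_iff]
      simpa [mul_assoc] using hx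
    have h2 := P₀.mul_mem (P₀.mul_mem (P₀.inv_mem hu) (h h1)) hu
    simpa [mul_assoc] using h2
  -- it suffices to show that `C₁` and `C₂` have order divisible by `p²`
  suffices h : p ^ 2 ∣ C₁.card + C₂.card by
    have : B.card + (C₁.card + C₂.card) ≡ B.card + 0 [MOD p ^ 2] :=
      Nat.ModEq.add_left _ ((Nat.modEq_zero_iff_dvd).mpr h)
    exact this
  apply dvd_add
  swap
  · -- orbits of length at least `p²`
    let S₂ : Subgroup G → Prop := fun H => Nat.card H = p ^ a ∧ ¬ H ≤ P₀ ∧
      Nat.card (P₀ ⊓ normalizer (H : Set G) : Subgroup G) ≠ p ^ f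
    have hS₂ : ∀ u ∈ P₀, ∀ H, S₂ H → S₂ (MulAut.conj u • H) := by
      rintro u hu H ⟨h1, h2, h3⟩
      refine ⟨by rw [card_conj_smul, h1], fun h => h2 (hnotle u hu H h), ?_⟩
      rw [hQconj u hu]
      exact h3
    letI := conjAct P₀ S₂ hS₂
    rw [hC₂, ← card_sset]
    show p ^ 2 ∣ Nat.card {H // S₂ H}
    apply dvd_card_of_orbit (P := P₀)
    rintro ⟨H, hSH⟩
    have h1 := hSH.1
    have h2 := hSH.2.1
    have h3 := hSH.2.2
    have hidx := MulAction.index_stabilizer P₀ (⟨H, hSH⟩ : {H // S₂ H})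
    have horb : Nat.card (MulAction.orbit P₀ (⟨H, hSH⟩ : {H // S₂ H})) =
        (MulAction.stabilizer P₀ (⟨H, hSH⟩ : {H // S₂ H})).index := by
      rw [hidx]
      exact Nat.card_coe_set_eq _
    rw [horb]
    -- the stabilizer
    have hstab : (MulAction.stabilizer P₀ (⟨H, hSH⟩ : {H // S₂ H})).map P₀.subtype =
        P₀ ⊓ normalizer (H : Set G) := by
      ext x
      simp only [mem_map, MulAction.mem_stabilizer_iff, mem_inf]
      constructor
      · rintro ⟨u, hu, rfl⟩
        refine ⟨u.2, ?_⟩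
        have h5 : MulAut.conj (u : G) • H = H := congrArg Subtype.val hu
        exact conj_eq_iff_mem_normalizer.mp h5
      · rintro ⟨h4, h5⟩
        refine ⟨⟨x, h4⟩, ?_, rfl⟩
        exact Subtype.ext (conj_eq_iff_mem_normalizer.mpr h5)
    have hstabc : Nat.card (MulAction.stabilizer P₀ (⟨H, hSH⟩ : {H // S₂ H})) =
        Nat.card (P₀ ⊓ normalizer (H : Set G) : Subgroup G) := by
      rw [← hstab, Subgroup.card_map_of_injective (f := P₀.subtype) P₀.subtype_injective]
    have hmul := card_mul_index (MulAction.stabilizer P₀ (⟨H, hSH⟩ : {H // S₂ H}))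
    rw [hstabc, hPc] at hmul
    have hne : (P₀ ⊓ normalizer (H : Set G) : Subgroup G) ≠ P₀ := by
      intro h
      apply h2
      apply himax H (IsPGroup.of_card h1)
      rw [← h]
      exact inf_le_right
    obtain ⟨j, hj, hj2⟩ := hsub _ inf_le_left hne
    have hjf : j ≠ f := fun h => h3 (by rw [hj2, h])
    obtain ⟨t, ht⟩ : ∃ t, f + 1 = j + (t + 2) := ⟨f + 1 - j - 2, by omega⟩
    rw [hj2, ht, pow_add] at hmul
    have h6 := Nat.eq_of_mul_eq_mul_left (pow_pos hpp.pos _) hmul
    rw [h6, pow_add]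
    exact dvd_mul_left _ _
  · -- orbits of length `p`
    let SY : Subgroup G → Prop := fun R => Nat.card R = p ^ (f + 1) ∧
      Nat.card (P₀ ⊓ R : Subgroup G) = p ^ f
    let F : Subgroup G → Finset (Subgroup G) := fun R =>
      sset fun H => Nat.card H = p ^ a ∧ H ≤ R ∧ R ≤ normalizer (H : Set G) ∧ ¬ H ≤ P₀ ⊓ R
    let φ : Subgroup G → Subgroup G := fun H => H ⊔ (P₀ ⊓ normalizer (H : Set G))
    have hL1 : ∀ H ∈ C₁, SY (φ H) ∧ H ∈ F (φ H) := by
      intro H hH
      obtain ⟨h1, h2, h3⟩ : Nat.card H = p ^ a ∧ ¬ H ≤ P₀ ∧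
          Nat.card (P₀ ⊓ normalizer (H : Set G) : Subgroup G) = p ^ f := by
        simpa [hC₁] using hH
      set Q : Subgroup G := P₀ ⊓ normalizer (H : Set G) with hQ
      have hHp : IsPGroup p H := IsPGroup.of_card h1
      have hQp : IsPGroup p Q := hPp.to_le inf_le_left
      have hRp : IsPGroup p (H ⊔ Q : Subgroup G) := by
        rw [sup_comm]
        exact IsPGroup.to_sup_of_normal_right' hQp hHp inf_le_right
      have hQlt : Q < H ⊔ Q := by
        refine lt_of_le_of_ne le_sup_right ?_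
        intro h
        apply h2
        have h4 : H ≤ Q := by rw [h]; exact le_sup_left
        exact h4.trans inf_le_left
      obtain ⟨j, hj, hj2⟩ := hcardle _ hRp
      have hRc : Nat.card (H ⊔ Q : Subgroup G) = p ^ (f + 1) := by
        have h5 := Cfsg.Agent.Lib.PGroups.Basic.card_lt_of_lt hQlt
        rw [h3, hj2] at h5
        have h6 := (Nat.pow_lt_pow_iff_right hpp.one_lt).mp h5
        have : j = f + 1 := by omega
        rw [hj2, this]
      have hQle' : Q ≤ P₀ ⊓ (H ⊔ Q) := le_inf inf_le_left le_sup_right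
      have hne : (P₀ ⊓ (H ⊔ Q) : Subgroup G) ≠ P₀ := by
        intro h
        have h5 : P₀ ≤ H ⊔ Q := by rw [← h]; exact inf_le_right
        have h6 : P₀ = H ⊔ Q := Subgroup.eq_of_le_of_card_ge h5 (by rw [hRc, hPc])
        exact h2 (h6 ▸ le_sup_left)
      obtain ⟨i, hi, hi2⟩ := hsub _ inf_le_left hne
      have hcardinf : Nat.card (P₀ ⊓ (H ⊔ Q) : Subgroup G) = p ^ f := by
        have h5 := Nat.card_mono (Set.toFinite _) hQle'
        simp only [SetLike.coe_sort_coe] at h5
        rw [h3, hi2] at h5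
        have h6 := (Nat.pow_le_pow_iff_right hpp.one_lt).mp h5
        have : i = f := by omega
        rw [hi2, this]
      refine ⟨⟨hRc, hcardinf⟩, ?_⟩
      show H ∈ sset _
      rw [mem_sset]
      refine ⟨h1, le_sup_left, sup_le (Subgroup.le_normalizer) inf_le_right, fun h => h2 (h.trans inf_le_left)⟩
    have hL2 : ∀ R, SY R → ∀ H ∈ F R, H ∈ C₁ ∧ φ H = R := by
      rintro R ⟨hR1, hR2⟩ H hH
      obtain ⟨h1, h2, h3, h4⟩ := mem_sset.mp hH
      have hH' : ¬ H ≤ P₀ := fun h => h4 (le_inf h h2)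
      have hne : (P₀ ⊓ normalizer (H : Set G) : Subgroup G) ≠ P₀ := by
        intro h
        apply hH'
        apply himax H (IsPGroup.of_card h1)
        rw [← h]
        exact inf_le_right
      obtain ⟨j, hj, hj2⟩ := hsub _ inf_le_left hne
      have hle : P₀ ⊓ R ≤ P₀ ⊓ normalizer (H : Set G) := inf_le_inf_left _ h3
      have hQc : Nat.card (P₀ ⊓ normalizer (H : Set G) : Subgroup G) = p ^ f := by
        have h5 := Nat.card_mono (Set.toFinite _) hle
        simp only [SetLike.coe_sort_coe] at h5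
        rw [hR2, hj2] at h5
        have h6 := (Nat.pow_le_pow_iff_right hpp.one_lt).mp h5
        have : j = f := by omega
        rw [hj2, this]
      have hmem : H ∈ C₁ := by
        rw [hC₁, mem_sset]
        exact ⟨h1, hH', hQc⟩
      refine ⟨hmem, ?_⟩
      have hQeq : P₀ ⊓ normalizer (H : Set G) = P₀ ⊓ R :=
        (Subgroup.eq_of_le_of_card_ge hle (by rw [hR2, hQc])).symm
      have hφ := (hL1 H hmem).1.1
      show H ⊔ (P₀ ⊓ normalizer (H : Set G)) = R
      apply Subgroup.eq_of_le_of_card_ge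
      · rw [hQeq]
        exact sup_le h2 inf_le_right
      · rw [hR1]
        exact hφ.ge
    set Ys := sset SY with hYs
    have hmaps : ∀ H ∈ C₁, φ H ∈ Ys := fun H hH => by
      rw [hYs, mem_sset]
      exact (hL1 H hH).1
    have hfiber := Finset.card_eq_sum_card_fiberwise hmaps
    have hfibers : ∀ R ∈ Ys, (C₁.filter fun H => φ H = R) = F R := by
      intro R hR
      have hSY : SY R := mem_sset.mp hR
      ext H
      rw [Finset.mem_filter]
      constructor
      · rintro ⟨h1, h2⟩
        have := (hL1 H h1).2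
        rwa [h2] at this
      · intro h
        exact hL2 R hSY H h
    rw [Finset.sum_congr rfl fun R hR => by rw [hfibers R hR]] at hfiber
    rw [hfiber]
    -- each fiber has size divisible by `p`
    have hFdvd : ∀ R, SY R → p ∣ (F R).card := by
      rintro R ⟨hR1, hR2⟩
      have hRp : IsPGroup p R := IsPGroup.of_card hR1
      have hAF := card_fixed_normalized (p := p) R R hRp Subgroup.le_normalizer a (by
        rw [hR1]; exact pow_dvd_pow _ (by omega))
      have hBF := card_fixed_normalized (p := p) R (P₀ ⊓ R) hRp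
        (le_normalizer_of_index inf_le_right hR2 hR1) a (by
        rw [hR2]; exact pow_dvd_pow _ ha)
      set AF := sset fun H : Subgroup G => Nat.card H = p ^ a ∧ H ≤ R ∧ R ≤ normalizer (H : Set G)
        with hAFd
      set BF := sset fun H : Subgroup G => Nat.card H = p ^ a ∧ H ≤ P₀ ⊓ R ∧ R ≤ normalizer (H : Set G)
        with hBFd
      have hsubs : BF ⊆ AF := by
        intro H hH
        rw [hBFd, mem_sset] at hH
        rw [hAFd, mem_sset]
        exact ⟨hH.1, hH.2.1.trans inf_le_right, hH.2.2⟩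
      have hFe : F R = AF \ BF := by
        ext H
        simp only [F, hAFd, hBFd, mem_sset, Finset.mem_sdiff]
        constructor
        · rintro ⟨h1, h2, h3, h4⟩
          exact ⟨⟨h1, h2, h3⟩, fun h5 => h4 h5.2.1⟩
        · rintro ⟨⟨h1, h2, h3⟩, h5⟩
          exact ⟨h1, h2, h3, fun h4 => h5 ⟨h1, h4, h3⟩⟩
      rw [hFe, Finset.card_sdiff_of_subset hsubs]
      exact (Nat.modEq_iff_dvd' (Finset.card_le_card hsubs)).mp (hBF.trans hAF.symm)
    -- invariance
    have hSYinv : ∀ u ∈ P₀, ∀ R, SY R → SY (MulAut.conj u • R) := by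
      rintro u hu R ⟨h1, h2⟩
      refine ⟨by rw [card_conj_smul, h1], ?_⟩
      have h3 : (P₀ ⊓ (MulAut.conj u • R) : Subgroup G) = MulAut.conj u • (P₀ ⊓ R) := by
        ext x
        rw [mem_conj_smul_iff, mem_inf, mem_inf, mem_conj_smul_iff]
        constructor
        · rintro ⟨h4, h5⟩
          exact ⟨P₀.mul_mem (P₀.mul_mem (P₀.inv_mem hu) h4) hu, h5⟩
        · rintro ⟨h4, h5⟩
          refine ⟨?_, h5⟩
          have := P₀.mul_mem (P₀.mul_mem hu h4) (P₀.inv_mem hu)
          simpa [mul_assoc] using this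
      rw [h3, card_conj_smul, h2]
    have hFle : ∀ u ∈ P₀, ∀ R, (F R).card ≤ (F (MulAut.conj u • R)).card := by
      intro u hu R
      apply Finset.card_le_card_of_injOn (fun H => MulAut.conj u • H)
      · intro H hH
        have hH' : H ∈ F R := hH
        obtain ⟨h1, h2, h3, h4⟩ := mem_sset.mp hH'
        show MulAut.conj u • H ∈ F (MulAut.conj u • R)
        refine mem_sset.mpr ⟨by rw [card_conj_smul, h1], conj_smul_mono h2, ?_, ?_⟩
        · intro x hx
          rw [mem_conj_smul_iff] at hx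
          have h5 := normalizer_conj (u := u) (h3 hx)
          simpa [mul_assoc] using h5
        · intro h5
          apply h4
          intro x hx
          have h6 : u * x * u⁻¹ ∈ MulAut.conj u • H := by
            rw [mem_conj_smul_iff]
            simpa [mul_assoc] using hx
          obtain ⟨h7, h8⟩ := mem_inf.mp (h5 h6)
          rw [mem_conj_smul_iff] at h8
          refine mem_inf.mpr ⟨?_, by simpa [mul_assoc] using h8⟩
          have := P₀.mul_mem (P₀.mul_mem (P₀.inv_mem hu) h7) hu
          simpa [mul_assoc] using this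
      · intro H _ K _ h
        exact smul_left_cancel _ h
    have hFeq : ∀ u ∈ P₀, ∀ R, (F (MulAut.conj u • R)).card = (F R).card := by
      intro u hu R
      apply le_antisymm
      · have := hFle u⁻¹ (P₀.inv_mem hu) (MulAut.conj u • R)
        rwa [conj_inv_conj] at this
      · exact hFle u hu R
    letI := conjAct P₀ SY hSYinv
    haveI : Fintype {R // SY R} := Fintype.ofFinite _
    have hPfin : IsPGroup p P₀ := hPp
    have hnofix : ∀ y : {R // SY R}, ∃ u : P₀, u • y ≠ y := by
      rintro ⟨R, hR1, hR2⟩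
      by_contra hall
      have hall' : ∀ u : P₀, u • (⟨R, hR1, hR2⟩ : {R // SY R}) = ⟨R, hR1, hR2⟩ := by
        intro u
        by_contra hu
        exact hall ⟨u, hu⟩
      have h1 : P₀ ≤ normalizer (R : Set G) := by
        intro u hu
        have h2 : MulAut.conj u • R = R := congrArg Subtype.val (hall' ⟨u, hu⟩)
        exact conj_eq_iff_mem_normalizer.mp h2
      have h2 := himax R (IsPGroup.of_card hR1) h1
      have h3 : P₀ ⊓ R = R := inf_eq_right.mpr h2
      rw [h3, hR1] at hR2
      have := hpow_inj hR2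
      omega
    have hw := dvd_sum_of_invariant hPfin (fun R : {R // SY R} => (F R.1).card / p)
      (by
        rintro ⟨u, hu⟩ ⟨R, hR⟩
        show (F (MulAut.conj u • R)).card / p = (F R).card / p
        rw [hFeq u hu])
      hnofix
    have hsum : ∑ R ∈ Ys, (F R).card = p * ∑ R : {R // SY R}, (F R.1).card / p := by
      rw [Finset.mul_sum, Finset.sum_subtype Ys (fun R => by
        rw [hYs, mem_sset])]
      apply Finset.sum_congr rfl
      rintro ⟨R, hR⟩ _
      exact (Nat.mul_div_cancel' (hFdvd R hR)).symm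
    rw [hsum, pow_two]
    exact Nat.mul_dvd_mul_left p hw

end sylow

end Cfsg.Agent.Lib.FG7.KulakoffC
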