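import Mathlib
import Cfsg.Agent.Lib.PGroups.CyclicNormal
import Cfsg.Agent.Lib.SLn.PSL2Class

/-!
# Normalizers of non-normal subgroups of a simple group of order 1092 are maximal
-/

set_option autoImplicit false

namespace Cfsg.Agent.Lib.FG7.NormCoatom

open Subgroup
open scoped commutatorElement

universe u

variable {K : Type u} [Group K] [Finite K]

/-- In a finite group, an element conjugating a subgroup into itself normalizes it. -/
theorem mem_normalizer_of_conj {R : Subgroup K} {x : K} (h : ∀ t ∈ R, x * t * x⁻¹ ∈ R) :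
    x ∈ normalizer (R : Set K) := by
  have hle : R.map (MulAut.conj x).toMonoidHom ≤ R := by
    rintro _ ⟨t, ht, rfl⟩
    exact h t ht
  have hcard : Nat.card (R.map (MulAut.conj x).toMonoidHom) = Nat.card R :=
    Subgroup.card_map_of_injective (MulAut.conj x).injective
  have heq : R.map (MulAut.conj x).toMonoidHom = R :=
    Subgroup.eq_of_le_of_card_ge hle hcard.ge
  refine mem_normalizer_iff.mpr ?_
  intro t
  refine ⟨h t, fun ht => ?_⟩
  rw [← heq] at ht
  obtain ⟨s, hs, hst⟩ := ht
  have h1 : x * s * x⁻¹ = x * t * x⁻¹ := hst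
  have h2 : s = t := by simpa using h1
  rwa [← h2]

/-- If `N(R)/R` is abelian and `R ≤ H ≤ N(R)`, then `N(R) ≤ N(H)`. -/
theorem normalizer_le_normalizer {R H : Subgroup K} (hRH : R ≤ H)
    (hHN : H ≤ normalizer (R : Set K))
    (hab : ∀ a ∈ normalizer (R : Set K), ∀ b ∈ normalizer (R : Set K), ⁅a, b⁆ ∈ R) :
    normalizer (R : Set K) ≤ normalizer (H : Set K) := by
  intro g hg
  apply mem_normalizer_of_conj
  intro h hh
  have h1 : ⁅g, h⁆ ∈ R := hab g hg h (hHN hh)
  have h2 : g * h * g⁻¹ = ⁅g, h⁆ * h := by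
    rw [commutatorElement_def]
    group
  rw [h2]
  exact H.mul_mem (hRH h1) hh

/-- The commutator criterion from the order of the quotient. -/
theorem comm_of_card_quot {R : Subgroup K} {c : ℕ}
    (hc : Nat.card (normalizer (R : Set K)) = c * Nat.card R) (hc' : c = 2 ∨ c = 4) :
    ∀ a ∈ normalizer (R : Set K), ∀ b ∈ normalizer (R : Set K), ⁅a, b⁆ ∈ R := by
  intro a ha b hb
  have hle : R ≤ normalizer (R : Set K) := le_normalizer
  let R' : Subgroup (normalizer (R : Set K)) := R.subgroupOf (normalizer (R : Set K))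
  have hR' : R'.Normal := normal_subgroupOf_iff_le_normalizer hle |>.mpr le_rfl
  have hcR : Nat.card R' = Nat.card R := Nat.card_congr (subgroupOfEquivOfLe hle).toEquiv
  have hq : Nat.card (normalizer (R : Set K) ⧸ R') = c := by
    have h1 := R'.card_mul_index
    rw [hcR, hc, mul_comm] at h1
    exact Nat.eq_of_mul_eq_mul_right Nat.card_pos h1
  have hcomm : IsMulCommutative (normalizer (R : Set K) ⧸ R') := by
    rcases hc' with rfl | rfl
    · haveI : Fact (Nat.Prime 2) := ⟨Nat.prime_two⟩
      have hcy : IsCyclic (normalizer (R : Set K) ⧸ R') := isCyclic_of_prime_card hq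
      exact hcy.isMulCommutative
    · haveI : Fact (Nat.Prime 2) := ⟨Nat.prime_two⟩
      exact IsPGroup.isMulCommutative_of_card_eq_prime_sq (p := 2) (by rw [hq]; norm_num)
  have hcl := Subgroup.Normal.quotient_commutative_iff_commutator_le.mp hcomm
  have h2 : ⁅(⟨a, ha⟩ : normalizer (R : Set K)), (⟨b, hb⟩ : normalizer (R : Set K))⁆ ∈ R' :=
    hcl (commutator_mem_commutator (mem_top _) (mem_top _))
  rw [mem_subgroupOf] at h2
  exact h2

/-- The normalizer of a subgroup of order `3` is at most twice the centralizer of a generator. -/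
theorem card_normalizer_le {x : K} (hx : orderOf x = 3) :
    Nat.card (normalizer ((zpowers x : Subgroup K) : Set K)) ≤
      2 * Nat.card (centralizer ({x} : Set K)) := by
  classical
  have hord : ∀ g ∈ normalizer ((zpowers x : Subgroup K) : Set K), g * x * g⁻¹ = x ∨ g * x * g⁻¹ = x⁻¹ := by
    intro g hg
    have h1 : g * x * g⁻¹ ∈ zpowers x := (mem_normalizer_iff.mp hg x).mp (mem_zpowers x)
    obtain ⟨k, hk⟩ := mem_zpowers_iff.mp h1
    have h2 : x ^ k = x ^ (k % 3) := by
      conv_lhs => rw [← Int.mul_ediv_add_emod k 3]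
      rw [zpow_add, zpow_mul]
      have : x ^ (3 : ℤ) = 1 := by
        rw [zpow_ofNat, ← hx, pow_orderOf_eq_one]
      rw [this, one_zpow, one_mul]
    have h3 : k % 3 = 0 ∨ k % 3 = 1 ∨ k % 3 = 2 := by omega
    have hx3 : x ^ 3 = 1 := by rw [← hx, pow_orderOf_eq_one]
    have hne1 : x ≠ 1 := by
      rintro rfl
      rw [orderOf_one] at hx
      omega
    rcases h3 with h3 | h3 | h3
    · exfalso
      rw [h3, zpow_zero] at h2
      rw [h2] at hk
      have : g * x * g⁻¹ = 1 := hk.symm
      apply hne1
      have h4 : x = g⁻¹ * (g * x * g⁻¹) * g := by group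
      rw [h4, this]
      group
    · left
      rw [h3, zpow_one] at h2
      rw [← hk, h2]
    · right
      rw [h3] at h2
      rw [← hk, h2]
      rw [zpow_ofNat, eq_inv_iff_mul_eq_one, pow_two, mul_assoc, ← pow_two, ← pow_succ', hx3]
  let N := normalizer ((zpowers x : Subgroup K) : Set K)
  let C := centralizer ({x} : Set K)
  have hmemC : ∀ g, g ∈ C ↔ g * x * g⁻¹ = x := by
    intro g
    rw [mem_centralizer_singleton_iff, mul_inv_eq_iff_eq_mul]
  by_cases hall : ∀ g ∈ N, g ∈ C
  · have : Nat.card N ≤ Nat.card C := by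
      refine Nat.card_le_card_of_injective (fun g => (⟨g, hall g g.2⟩ : C)) ?_
      intro a b hab
      exact Subtype.ext (congrArg (fun c : C => (c : K)) hab)
    change Nat.card N ≤ 2 * Nat.card C
    omega
  · push Not at hall
    obtain ⟨w, hwN, hwC⟩ := hall
    have hw : w * x * w⁻¹ = x⁻¹ := (hord w hwN).resolve_left (fun h => hwC ((hmemC w).mpr h))
    -- injection into `C × Bool`
    have hinj : Nat.card N ≤ Nat.card (C × Bool) := by
      refine Nat.card_le_card_of_injective (fun g : N =>
        if h : (g : K) ∈ C then ((⟨g, h⟩ : C), true)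
        else ((⟨w⁻¹ * g, ?_⟩ : C), false)) ?_
      · rw [hmemC]
        have h1 := (hord g g.2).resolve_left (fun e => h ((hmemC g).mpr e))
        have hwi : w⁻¹ * x⁻¹ * w = x := by rw [← hw]; group
        calc w⁻¹ * g * x * (w⁻¹ * g)⁻¹ = w⁻¹ * (g * x * (g : K)⁻¹) * w := by group
          _ = w⁻¹ * x⁻¹ * w := by rw [h1]
          _ = x := hwi
      · intro a b hab
        by_cases ha : (a : K) ∈ C <;> by_cases hb : (b : K) ∈ C
        · simp only [ha, hb, dite_true, Prod.mk.injEq, Subtype.mk.injEq, and_true] at hab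
          exact Subtype.ext hab
        · simp [ha, hb] at hab
        · simp [ha, hb] at hab
        · simp only [ha, hb, dite_false, Prod.mk.injEq, Subtype.mk.injEq, and_true] at hab
          exact Subtype.ext (by simpa using hab)
    rw [Nat.card_prod, Nat.card_eq_fintype_card (α := Bool), Fintype.card_bool, mul_comm] at hinj
    exact hinj

theorem arith13 (n : ℕ) (hd : n ∣ 84) (hm : n % 13 = 1) (hne : n ≠ 1) : n = 14 := by
  have := Nat.le_of_dvd (by norm_num) hd
  interval_cases n <;> omega

theorem arith7 (n : ℕ) (hd : n ∣ 156) (hm : n % 7 = 1) (hne : n ≠ 1) : n = 78 := by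
  have := Nat.le_of_dvd (by norm_num) hd
  interval_cases n <;> omega

theorem arith12 (n : ℕ) (hd : n ∣ 12) (hm : n % 7 = 1) : n = 1 := by
  have := Nat.le_of_dvd (by norm_num) hd
  interval_cases n <;> omega

section simple

variable [hs : IsSimpleGroup K] (hc : Nat.card K = 1092)
include hc

theorem index_ge (M : Subgroup K) (hM : M ≠ ⊤) : 13 ≤ M.index := by
  by_contra hlt
  push Not at hlt
  have hinj : Function.Injective (MulAction.toPermHom K (K ⧸ M)) := by
    rw [← MonoidHom.ker_eq_bot_iff]
    rcases hs.eq_bot_or_eq_top_of_normal _ (inferInstance : (MulAction.toPermHom K (K ⧸ M)).ker.Normal)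
      with h | h
    · exact h
    · exfalso
      apply hM
      rw [eq_top_iff]
      intro g _
      have h1 : g ∈ (MulAction.toPermHom K (K ⧸ M)).ker := h ▸ mem_top g
      have h2 := congrArg (fun f : Equiv.Perm (K ⧸ M) => f ((1 : K) : K ⧸ M)) (MonoidHom.mem_ker.mp h1)
      have h3 : ((g : K) : K ⧸ M) = ((1 : K) : K ⧸ M) := by
        simpa [MulAction.toPermHom] using h2
      rw [QuotientGroup.eq] at h3
      simpa using M.inv_mem h3
  have h1 : Nat.card K ∣ Nat.card (Equiv.Perm (K ⧸ M)) := Subgroup.card_dvd_of_injective _ hinj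
  rw [Nat.card_perm, ← Subgroup.index, hc] at h1
  have h2 : 13 ∣ M.index.factorial := (by norm_num : 13 ∣ 1092).trans h1
  have h3 := (Nat.Prime.dvd_factorial (by norm_num)).mp h2
  omega

theorem card_le (M : Subgroup K) (hM : M ≠ ⊤) : Nat.card M ≤ 84 := by
  have h1 := M.card_mul_index
  rw [hc] at h1
  have h2 := index_ge hc M hM
  nlinarith

theorem card_dvd (M : Subgroup K) : Nat.card M ∣ 1092 := hc ▸ Subgroup.card_subgroup_dvd_card M

/-- Proper subgroups of order divisible by `7` or `13` have a normal Sylow subgroup. -/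
theorem exists_normal_sylow (M : Subgroup K) (hM : M ≠ ⊤) (r : ℕ) [hr : Fact r.Prime]
    (hr' : r = 7 ∨ r = 13) (hd : r ∣ Nat.card M) :
    ∃ R : Subgroup K, Nat.card R = r ∧ R ≤ M ∧ M ≤ normalizer (R : Set K) := by
  classical
  obtain ⟨S⟩ : Nonempty (Sylow r M) := inferInstance
  have hle := card_le hc M hM
  have hdv := card_dvd hc M
  have hSd : r ∣ Nat.card S := S.dvd_card_of_dvd_card hd
  obtain ⟨a, ha⟩ := IsPGroup.iff_card.mp S.isPGroup'
  have hSM : Nat.card S ∣ Nat.card M := Subgroup.card_subgroup_dvd_card _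
  have ha1 : a = 1 := by
    rw [ha] at hSd hSM
    have h1 : r ^ a ∣ 1092 := hSM.trans hdv
    have ha0 : a ≠ 0 := by
      rintro rfl
      rw [pow_zero] at hSd
      exact hr.out.one_lt.ne' (Nat.dvd_one.mp hSd)
    by_contra hne
    have h2 : r ^ 2 ∣ 1092 := (pow_dvd_pow r (by omega)).trans h1
    rcases hr' with rfl | rfl <;> norm_num at h2
  have hScard : Nat.card S = r := by rw [ha, ha1, pow_one]
  have hindex : r * S.index = Nat.card M := by
    have h := (S : Subgroup M).card_mul_index
    rwa [hScard] at h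
  have hn := card_sylow_modEq_one r M
  have hnd : Nat.card (Sylow r M) ∣ S.index := S.card_dvd_index
  have hnone : Nat.card (Sylow r M) = 1 := by
    have hne : 0 < S.index := Nat.pos_of_ne_zero index_ne_zero_of_finite
    rcases hr' with rfl | rfl
    · -- `r = 7`
      have h13 : ¬ 13 ∣ Nat.card M := by
        intro h
        have h91 : 7 * 13 ∣ Nat.card M :=
          Nat.Coprime.mul_dvd_of_dvd_of_dvd (by norm_num) hd h
        have := Nat.le_of_dvd Nat.card_pos h91
        omega
      have hidx : S.index ∣ 12 := by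
        have h1 : Nat.card M ∣ 84 := by
          have h2 : Nat.Coprime (Nat.card M) 13 :=
            ((Nat.Prime.coprime_iff_not_dvd (by norm_num)).mpr h13).symm
          exact h2.dvd_of_dvd_mul_right (by simpa using hdv : Nat.card M ∣ 84 * 13)
        rw [← hindex] at h1
        exact Nat.dvd_of_mul_dvd_mul_left (by norm_num : 0 < 7) (by simpa using h1)
      have hn2 := hnd.trans hidx
      have hn3 : Nat.card (Sylow 7 M) % 7 = 1 := hn
      exact arith12 _ hn2 hn3
    · have hle2 : Nat.card (Sylow 13 M) ≤ 6 := by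
        have := Nat.le_of_dvd hne hnd
        omega
      have hn3 : Nat.card (Sylow 13 M) % 13 = 1 := hn
      omega
  haveI : Subsingleton (Sylow r M) := (Nat.card_eq_one_iff_unique.mp hnone).1
  have hSn : (S : Subgroup M).Normal := Sylow.normal_of_subsingleton S
  refine ⟨(S : Subgroup M).map M.subtype, ?_, map_subtype_le _, ?_⟩
  · rw [Subgroup.card_map_of_injective M.subtype_injective]
    exact hScard
  · have hle3 : (S : Subgroup M).map M.subtype ≤ M := map_subtype_le _
    rw [← normal_subgroupOf_iff_le_normalizer hle3]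
    have : ((S : Subgroup M).map M.subtype).subgroupOf M = S := by
      rw [subgroupOf, comap_map_eq_self_of_injective M.subtype_injective]
    rw [this]
    exact hSn

/-- The index of the normalizer of a Sylow subgroup. -/
theorem not_normal_of_card (R : Subgroup K) (h1 : Nat.card R ≠ 1) (h2 : Nat.card R ≠ 1092) :
    normalizer (R : Set K) ≠ ⊤ := by
  intro h
  have hn : R.Normal := normalizer_eq_top_iff.mp h
  rcases hs.eq_bot_or_eq_top_of_normal R hn with rfl | rfl
  · exact h1 Subgroup.card_bot
  · rw [Subgroup.card_top] at h2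
    exact h2 hc

theorem card_normalizer_13 (R : Subgroup K) (hR : Nat.card R = 13) :
    Nat.card (normalizer (R : Set K)) = 78 := by
  classical
  haveI : Fact (Nat.Prime 13) := ⟨by norm_num⟩
  have hi : R.index = 84 := by
    have h1 := R.card_mul_index
    rw [hR, hc] at h1
    omega
  have hp : IsPGroup 13 R := IsPGroup.iff_card.mpr ⟨1, by rw [hR, pow_one]⟩
  let S : Sylow 13 K := hp.toSylow (by rw [hi]; norm_num)
  have hn : Nat.card (Sylow 13 K) = (normalizer (R : Set K)).index := S.card_eq_index_normalizer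
  have hd : Nat.card (Sylow 13 K) ∣ 84 := by
    have := S.card_dvd_index
    change _ ∣ R.index at this
    rwa [hi] at this
  have hm : Nat.card (Sylow 13 K) % 13 = 1 := card_sylow_modEq_one 13 K
  have hne : Nat.card (Sylow 13 K) ≠ 1 := by
    rw [hn]
    intro h
    exact not_normal_of_card hc R (by omega) (by omega) (index_eq_one.mp h)
  have h14 : Nat.card (Sylow 13 K) = 14 := arith13 _ hd hm hne
  have h1 := (normalizer (R : Set K)).card_mul_index
  rw [← hn, h14, hc] at h1
  omega

theorem card_normalizer_7 (R : Subgroup K) (hR : Nat.card R = 7) :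
    Nat.card (normalizer (R : Set K)) = 14 := by
  classical
  haveI : Fact (Nat.Prime 7) := ⟨by norm_num⟩
  have hi : R.index = 156 := by
    have h1 := R.card_mul_index
    rw [hR, hc] at h1
    omega
  have hp : IsPGroup 7 R := IsPGroup.iff_card.mpr ⟨1, by rw [hR, pow_one]⟩
  let S : Sylow 7 K := hp.toSylow (by rw [hi]; norm_num)
  have hn : Nat.card (Sylow 7 K) = (normalizer (R : Set K)).index := S.card_eq_index_normalizer
  have hd : Nat.card (Sylow 7 K) ∣ 156 := by
    have := S.card_dvd_index
    change _ ∣ R.index at this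
    rwa [hi] at this
  have hm : Nat.card (Sylow 7 K) % 7 = 1 := card_sylow_modEq_one 7 K
  have hne : Nat.card (Sylow 7 K) ≠ 1 := by
    rw [hn]
    intro h
    exact not_normal_of_card hc R (by omega) (by omega) (index_eq_one.mp h)
  have h78 : Nat.card (Sylow 7 K) = 78 := arith7 _ hd hm hne
  have h1 := (normalizer (R : Set K)).card_mul_index
  rw [← hn, h78, hc] at h1
  omega

theorem card_sylow_two (V : Sylow 2 K) : Nat.card (V : Subgroup K) = 4 := by
  obtain ⟨a, ha⟩ := IsPGroup.iff_card.mp V.isPGroup'
  have h1 := (V : Subgroup K).card_mul_index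
  rw [ha, hc] at h1
  have h2 : ¬ 2 ∣ (V : Subgroup K).index := V.not_dvd_index
  have h3 : a ≤ 2 := by
    by_contra h
    have h4 : 2 ^ 3 ∣ 2 ^ a := pow_dvd_pow 2 (by omega)
    have h5 : 2 ^ 3 ∣ 1092 := h4.trans ⟨_, h1.symm⟩
    norm_num at h5
  rw [ha]
  interval_cases a
  · exfalso
    apply h2
    rw [pow_zero, one_mul] at h1
    rw [h1]
    norm_num
  · exfalso
    apply h2
    have : (V : Subgroup K).index = 546 := by omega
    rw [this]
    norm_num
  · norm_num

/-- The possible orders of proper subgroups. -/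
theorem card_cases (M : Subgroup K) (hM : M ≠ ⊤) :
    Nat.card M ∣ 78 ∨ Nat.card M ∣ 14 ∨ Nat.card M ∣ 12 := by
  by_cases h13 : 13 ∣ Nat.card M
  · haveI : Fact (Nat.Prime 13) := ⟨by norm_num⟩
    obtain ⟨R, hR, -, hN⟩ := exists_normal_sylow hc M hM 13 (Or.inr rfl) h13
    left
    rw [← card_normalizer_13 hc R hR]
    exact Subgroup.card_dvd_of_le hN
  by_cases h7 : 7 ∣ Nat.card M
  · haveI : Fact (Nat.Prime 7) := ⟨by norm_num⟩
    obtain ⟨R, hR, -, hN⟩ := exists_normal_sylow hc M hM 7 (Or.inl rfl) h7
    right; left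
    rw [← card_normalizer_7 hc R hR]
    exact Subgroup.card_dvd_of_le hN
  right; right
  have h1 : Nat.Coprime (Nat.card M) (7 * 13) :=
    Nat.Coprime.mul_right
      ((Nat.Prime.coprime_iff_not_dvd (by norm_num)).mpr h7).symm
      ((Nat.Prime.coprime_iff_not_dvd (by norm_num)).mpr h13).symm
  exact h1.dvd_of_dvd_mul_right (by simpa using card_dvd hc M)

/-- Subgroups of order `78`, `14` or `12` are maximal. -/
theorem isCoatom_of_card (W : Subgroup K)
    (hW : Nat.card W = 78 ∨ Nat.card W = 14 ∨ Nat.card W = 12) : IsCoatom W := by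
  constructor
  · rintro rfl
    rw [Subgroup.card_top, hc] at hW
    omega
  · intro M hWM
    by_contra hM
    have hd : Nat.card W ∣ Nat.card M := Subgroup.card_dvd_of_le hWM.le
    have hne : Nat.card W ≠ Nat.card M := fun h =>
      hWM.ne (Subgroup.eq_of_le_of_card_ge hWM.le h.ge)
    have hpos : 0 < Nat.card M := Nat.card_pos
    rcases card_cases hc M hM with h | h | h <;> rcases hW with h' | h' | h' <;> rw [h'] at hd hne <;>
      first
        | exact hne (Nat.dvd_antisymm hd h)
        | exact absurd (hd.trans h) (by norm_num)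

/-- Sylow-`3` normalizers are determined by the data. -/
theorem card_normalizer_eq_of_card_three (Q Q₀ : Subgroup K) (hQ : Nat.card Q = 3)
    (hQ₀ : Nat.card Q₀ = 3) :
    Nat.card (normalizer (Q : Set K)) = Nat.card (normalizer (Q₀ : Set K)) := by
  classical
  haveI : Fact (Nat.Prime 3) := ⟨Nat.prime_three⟩
  have hi : ∀ A : Subgroup K, Nat.card A = 3 → A.index = 364 := by
    intro A hA
    have h1 := A.card_mul_index
    rw [hA, hc] at h1
    omega
  have hp : ∀ A : Subgroup K, Nat.card A = 3 → IsPGroup 3 A := fun A hA =>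
    IsPGroup.iff_card.mpr ⟨1, by rw [hA, pow_one]⟩
  let S : Sylow 3 K := (hp Q hQ).toSylow (by rw [hi Q hQ]; norm_num)
  let S₀ : Sylow 3 K := (hp Q₀ hQ₀).toSylow (by rw [hi Q₀ hQ₀]; norm_num)
  have h1 : Nat.card (Sylow 3 K) = (normalizer (Q : Set K)).index := S.card_eq_index_normalizer
  have h2 : Nat.card (Sylow 3 K) = (normalizer (Q₀ : Set K)).index := S₀.card_eq_index_normalizer
  have h3 := (normalizer (Q : Set K)).card_mul_index
  have h4 := (normalizer (Q₀ : Set K)).card_mul_index
  rw [← h1] at h3
  rw [← h2] at h4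
  have hpos : 0 < Nat.card (Sylow 3 K) := Nat.card_pos
  exact Nat.eq_of_mul_eq_mul_right hpos (h3.trans h4.symm)

section data

variable {x t w : K} (hx : orderOf x = 3) (hCx : Nat.card (centralizer ({x} : Set K)) = 6)
  (hw : w * x * w⁻¹ = x⁻¹) (ht : orderOf t = 2) (hCt : Nat.card (centralizer ({t} : Set K)) = 12)

include hx hCx hw in
theorem card_normalizer_3 (Q : Subgroup K) (hQ : Nat.card Q = 3) :
    Nat.card (normalizer (Q : Set K)) = 12 := by
  classical
  have hQ₀ : Nat.card (zpowers x) = 3 := by rw [Nat.card_zpowers, hx]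
  rw [card_normalizer_eq_of_card_three hc Q (zpowers x) hQ hQ₀]
  have hle := card_normalizer_le hx
  rw [hCx] at hle
  have hCN : centralizer ({x} : Set K) ≤ normalizer ((zpowers x : Subgroup K) : Set K) := by
    intro g hg
    apply mem_normalizer_of_conj
    intro y hy
    obtain ⟨k, rfl⟩ := mem_zpowers_iff.mp hy
    have h1 : g * x * g⁻¹ = x := by
      rw [mul_inv_eq_iff_eq_mul]
      exact mem_centralizer_singleton_iff.mp hg
    rw [← conj_zpow, h1]
    exact zpow_mem (mem_zpowers x) k
  have hwN : w ∈ normalizer ((zpowers x : Subgroup K) : Set K) := by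
    apply mem_normalizer_of_conj
    intro y hy
    obtain ⟨k, rfl⟩ := mem_zpowers_iff.mp hy
    rw [← conj_zpow, hw]
    exact zpow_mem (inv_mem (mem_zpowers x)) k
  have hwC : w ∉ centralizer ({x} : Set K) := by
    intro h
    have h1 : w * x * w⁻¹ = x := by
      rw [mul_inv_eq_iff_eq_mul]
      exact mem_centralizer_singleton_iff.mp h
    rw [hw] at h1
    have h2 : x * x = 1 := by
      nth_rewrite 1 [← h1]
      exact inv_mul_cancel x
    have h3 : orderOf x ∣ 2 := orderOf_dvd_of_pow_eq_one (by rw [pow_two, h2])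
    rw [hx] at h3
    omega
  have hd := Subgroup.card_dvd_of_le hCN
  rw [hCx] at hd
  have hne : Nat.card (normalizer ((zpowers x : Subgroup K) : Set K)) ≠ 6 := by
    intro h
    have : centralizer ({x} : Set K) = normalizer ((zpowers x : Subgroup K) : Set K) :=
      Subgroup.eq_of_le_of_card_ge hCN (by rw [h, hCx])
    exact hwC (this ▸ hwN)
  obtain ⟨k, hk⟩ := hd
  have hpos : 0 < Nat.card (normalizer ((zpowers x : Subgroup K) : Set K)) := Nat.card_pos
  have hk2 : k = 2 := by
    have h1 : k ≠ 0 := by
      rintro rfl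
      omega
    have h2 : k ≠ 1 := by
      rintro rfl
      omega
    omega
  rw [hk, hk2]

/-- Sylow-`2` normalizers. -/
theorem card_normalizer_4 (V : Subgroup K) (hV : Nat.card V = 4) :
    Nat.card (normalizer (V : Set K)) = 12 := by
  classical
  haveI : Fact (Nat.Prime 2) := ⟨Nat.prime_two⟩
  have hN := not_normal_of_card hc V (by omega) (by omega)
  have hd : 4 ∣ Nat.card (normalizer (V : Set K)) := hV ▸ Subgroup.card_dvd_of_le le_normalizer
  have hdiv : Nat.card (normalizer (V : Set K)) ∣ 12 := by
    rcases card_cases hc _ hN with h | h | h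
    · exact absurd (hd.trans h) (by norm_num)
    · exact absurd (hd.trans h) (by norm_num)
    · exact h
  have hcases : Nat.card (normalizer (V : Set K)) = 4 ∨ Nat.card (normalizer (V : Set K)) = 12 := by
    have hle := Nat.le_of_dvd (by norm_num) hdiv
    generalize Nat.card (normalizer (V : Set K)) = n at *
    interval_cases n <;> omega
  rcases hcases with h | h
  swap
  · exact h
  exfalso
  have hp : IsPGroup 2 V := IsPGroup.iff_card.mpr ⟨2, by rw [hV]; norm_num⟩
  have hi : V.index = 273 := by
    have h1 := V.card_mul_index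
    rw [hV, hc] at h1
    omega
  let S : Sylow 2 K := hp.toSylow (by rw [hi]; norm_num)
  have hSV : (S : Subgroup K) = V := rfl
  have hNV : normalizer (V : Set K) = V :=
    (Subgroup.eq_of_le_of_card_ge le_normalizer (by rw [h, hV])).symm
  have hVc : IsMulCommutative V := IsPGroup.isMulCommutative_of_card_eq_prime_sq (p := 2) (by rw [hV]; norm_num)
  have hcent : normalizer ((S : Subgroup K) : Set K) ≤ centralizer ((S : Subgroup K) : Set K) := by
    rw [hSV, hNV]
    intro a ha
    rw [mem_centralizer_iff]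
    intro b hb
    have := hVc.is_comm.comm (⟨b, hb⟩ : V) ⟨a, ha⟩
    have h2 := congrArg Subtype.val this
    simpa using h2
  have hcompl := MonoidHom.ker_transferSylow_isComplement' S hcent
  have hcard := hcompl.card_mul_card
  have hSc : Nat.card (S : Subgroup K) = 4 := hV
  rw [hSc, hc] at hcard
  have hker : Nat.card (MonoidHom.transferSylow S hcent).ker = 273 := by omega
  rcases hs.eq_bot_or_eq_top_of_normal _ (inferInstance : (MonoidHom.transferSylow S hcent).ker.Normal)
    with h0 | h0
  · rw [h0, Subgroup.card_bot] at hker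
    omega
  · rw [h0, Subgroup.card_top, hc] at hker
    omega

/-- Centralizers of generators of subgroups normalize. -/
theorem centralizer_le_normalizer_zpowers (x : K) :
    centralizer ({x} : Set K) ≤ normalizer ((zpowers x : Subgroup K) : Set K) := by
  intro g hg
  apply mem_normalizer_of_conj
  intro y hy
  obtain ⟨k, rfl⟩ := mem_zpowers_iff.mp hy
  have h1 : g * x * g⁻¹ = x := by
    rw [mul_inv_eq_iff_eq_mul]
    exact mem_centralizer_singleton_iff.mp hg
  rw [← conj_zpow, h1]
  exact zpow_mem (mem_zpowers x) k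

include hx hCx hw ht hCt in
/-- All involutions have centralizers of order `12`. -/
theorem card_centralizer_invol (u : K) (hu : orderOf u = 2) :
    Nat.card (centralizer ({u} : Set K)) = 12 := by
  classical
  haveI : Fact (Nat.Prime 2) := ⟨Nat.prime_two⟩
  haveI : Fact (Nat.Prime 3) := ⟨Nat.prime_three⟩
  have hpu : IsPGroup 2 (zpowers u) :=
    IsPGroup.iff_card.mpr ⟨1, by rw [Nat.card_zpowers, hu, pow_one]⟩
  obtain ⟨V, hV⟩ := hpu.exists_le_sylow
  have hVcard := card_sylow_two hc V
  have huV : u ∈ (V : Subgroup K) := hV (mem_zpowers u)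
  have hu1 : u ≠ 1 := by
    rintro rfl
    rw [orderOf_one] at hu
    omega
  have hN4 := card_normalizer_4 hc (V : Subgroup K) hVcard
  obtain ⟨y', hy'⟩ := exists_prime_orderOf_dvd_card' (G := normalizer ((V : Subgroup K) : Set K)) 3
    (by rw [hN4]; norm_num)
  set y : K := y'.1 with hydef
  have hy : orderOf y = 3 := by
    rw [hydef, Subgroup.orderOf_coe]
    exact hy'
  have hyN : y ∈ normalizer ((V : Subgroup K) : Set K) := y'.2
  have hy3 : y ^ 3 = 1 := by rw [← hy, pow_orderOf_eq_one]
  have hVc : IsMulCommutative (V : Subgroup K) :=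
    IsPGroup.isMulCommutative_of_card_eq_prime_sq (p := 2) (by rw [hVcard]; norm_num)
  have hVC : (V : Subgroup K) ≤ centralizer ({u} : Set K) := by
    intro v hv
    rw [mem_centralizer_singleton_iff]
    have := hVc.is_comm.comm (⟨v, hv⟩ : (V : Subgroup K)) ⟨u, huV⟩
    have h2 := congrArg Subtype.val this
    simpa using h2
  have hd4 : 4 ∣ Nat.card (centralizer ({u} : Set K)) := hVcard ▸ Subgroup.card_dvd_of_le hVC
  have hCne : centralizer ({u} : Set K) ≠ ⊤ := by
    intro h
    have h1 : normalizer ((zpowers u : Subgroup K) : Set K) = ⊤ :=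
      eq_top_iff.mpr (h ▸ centralizer_le_normalizer_zpowers hc u)
    exact not_normal_of_card hc (zpowers u) (by rw [Nat.card_zpowers, hu]; omega)
      (by rw [Nat.card_zpowers, hu]; omega) h1
  have hdiv : Nat.card (centralizer ({u} : Set K)) ∣ 12 := by
    rcases card_cases hc _ hCne with h | h | h
    · exact absurd (hd4.trans h) (by norm_num)
    · exact absurd (hd4.trans h) (by norm_num)
    · exact h
  by_cases hyu : y * u * y⁻¹ = u
  · have hyC : y ∈ centralizer ({u} : Set K) := by
      rw [mem_centralizer_singleton_iff]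
      rwa [mul_inv_eq_iff_eq_mul] at hyu
    have hd3 : 3 ∣ Nat.card (centralizer ({u} : Set K)) := by
      rw [← hy]
      exact Subgroup.orderOf_dvd_natCard _ hyC
    have h12 : 3 * 4 ∣ Nat.card (centralizer ({u} : Set K)) :=
      Nat.Coprime.mul_dvd_of_dvd_of_dvd (by norm_num) hd3 hd4
    exact Nat.dvd_antisymm hdiv (by simpa using h12)
  · -- `y` moves `u`
    set u₁ := y * u * y⁻¹ with hu₁
    set u₂ := y * u₁ * y⁻¹ with hu₂
    have hconj : ∀ v ∈ (V : Subgroup K), y * v * y⁻¹ ∈ (V : Subgroup K) := fun v hv =>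
      (mem_normalizer_iff.mp hyN v).mp hv
    have hu₁V : u₁ ∈ (V : Subgroup K) := hconj u huV
    have hu₂V : u₂ ∈ (V : Subgroup K) := hconj u₁ hu₁V
    have hinj : ∀ a b : K, y * a * y⁻¹ = y * b * y⁻¹ → a = b := by
      intro a b h
      simpa using h
    have hu₁1 : u₁ ≠ 1 := by
      intro h
      apply hu1
      apply hinj
      rw [← hu₁, h]
      group
    have hu₂1 : u₂ ≠ 1 := by
      intro h
      apply hu₁1
      apply hinj
      rw [← hu₂, h]
      group
    have h12 : u₁ ≠ u₂ := by
      intro h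
      apply hyu
      apply hinj
      rw [← hu₁, ← hu₂]
      exact h.symm
    have h02 : u ≠ u₂ := by
      intro h
      -- then `y u y⁻¹ = y⁻¹ u y` would give ...
      apply hyu
      have h3 : y * u₂ * y⁻¹ = u := by
        have e : y * u₂ * y⁻¹ = y ^ 3 * u * (y ^ 3)⁻¹ := by
          rw [hu₂, hu₁, show y ^ 3 = y * y * y by rw [pow_succ, pow_two]]
          group
        rw [e, hy3]
        group
      rw [← h] at h3
      exact h3
    have h01 : u ≠ u₁ := fun h => hyu h.symm
    have hS : ({1, u, u₁, u₂} : Finset K).card = 4 := by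
      rw [Finset.card_insert_of_notMem, Finset.card_insert_of_notMem, Finset.card_insert_of_notMem,
        Finset.card_singleton]
      · simp [h12]
      · simp [h01, h02]
      · simp [hu1.symm, hu₁1.symm, hu₂1.symm]
    have hsub : (({1, u, u₁, u₂} : Finset K) : Set K) ⊆ ((V : Subgroup K) : Set K) := by
      intro v hv
      simp only [Finset.coe_insert, Finset.coe_singleton, Set.mem_insert_iff,
        Set.mem_singleton_iff] at hv
      rcases hv with rfl | rfl | rfl | rfl
      · exact one_mem _
      · exact huV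
      · exact hu₁V
      · exact hu₂V
    have hEq : (({1, u, u₁, u₂} : Finset K) : Set K) = ((V : Subgroup K) : Set K) := by
      apply Set.eq_of_subset_of_ncard_le hsub
      rw [Set.ncard_coe_finset, hS, ← Nat.card_coe_set_eq]
      exact hVcard.le
    -- conjugate `t` into `V`
    have hpt : IsPGroup 2 (zpowers t) :=
      IsPGroup.iff_card.mpr ⟨1, by rw [Nat.card_zpowers, ht, pow_one]⟩
    obtain ⟨V', hV'⟩ := hpt.exists_le_sylow
    obtain ⟨g, hg⟩ := MulAction.exists_smul_eq K V' V
    have htV : g * t * g⁻¹ ∈ (V : Subgroup K) := by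
      rw [← hg, Sylow.smul_def]
      have h1 : t ∈ (V' : Subgroup K) := hV' (mem_zpowers t)
      exact Subgroup.smul_mem_pointwise_smul t (MulAut.conj g) _ h1
    have ht1 : g * t * g⁻¹ ≠ 1 := by
      intro h
      have : t = 1 := by
        have h2 : t = g⁻¹ * (g * t * g⁻¹) * g := by group
        rw [h2, h]
        group
      rw [this, orderOf_one] at ht
      omega
    have hconjt : IsConj t (g * t * g⁻¹) := isConj_iff.mpr ⟨g, rfl⟩
    rw [← SetLike.mem_coe, ← hEq] at htV
    simp only [Finset.coe_insert, Finset.coe_singleton, Set.mem_insert_iff,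
      Set.mem_singleton_iff] at htV
    have hconju : IsConj t u := by
      rcases htV with h | h | h | h
      · exact absurd h ht1
      · exact h ▸ hconjt
      · rw [h] at hconjt
        exact hconjt.trans (isConj_iff.mpr ⟨y⁻¹, by rw [hu₁]; group⟩)
      · rw [h] at hconjt
        exact hconjt.trans (isConj_iff.mpr ⟨y⁻¹ * y⁻¹, by rw [hu₂, hu₁]; group⟩)
    rw [← Cfsg.Agent.Lib.SLn.PSL2Class.card_centralizer_of_isConj hconju, hCt]

include hx hCx hw ht hCt in
theorem hab13 (R : Subgroup K) (hR : Nat.card R = 13) :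
    ∀ a ∈ normalizer (R : Set K), ∀ b ∈ normalizer (R : Set K), ⁅a, b⁆ ∈ R := by
  classical
  haveI : Fact (Nat.Prime 2) := ⟨Nat.prime_two⟩
  haveI : Fact (Nat.Prime 3) := ⟨Nat.prime_three⟩
  haveI : Fact (Nat.Prime 13) := ⟨by norm_num⟩
  have hRc : IsCyclic R := isCyclic_of_prime_card hR
  have hN := card_normalizer_13 hc R hR
  have hNne := not_normal_of_card hc R (by omega) (by omega)
  -- `C(R) = R`
  have hRC : R ≤ centralizer (R : Set K) := by
    intro r hr
    rw [mem_centralizer_iff]
    intro s hs
    let _ := IsCyclic.commGroup (α := R)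
    have := mul_comm (⟨s, hs⟩ : R) ⟨r, hr⟩
    have h2 := congrArg Subtype.val this
    simpa using h2
  have hCN : centralizer (R : Set K) ≤ normalizer (R : Set K) := centralizer_le_normalizer _
  have hCeq : centralizer (R : Set K) = R := by
    symm
    apply Subgroup.eq_of_le_of_card_ge hRC
    rw [hR]
    have hd : Nat.card (centralizer (R : Set K)) ∣ 78 := hN ▸ Subgroup.card_dvd_of_le hCN
    have hd13 : 13 ∣ Nat.card (centralizer (R : Set K)) := hR ▸ Subgroup.card_dvd_of_le hRC
    by_contra hlt
    push Not at hlt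
    have hno : ∀ y ∈ centralizer (R : Set K), ∀ r : ℕ, (r = 2 ∨ r = 3) → orderOf y = r → False := by
      intro y hy r hr hyo
      have hRy : R ≤ centralizer ({y} : Set K) := by
        intro s hs
        rw [mem_centralizer_singleton_iff]
        exact (mem_centralizer_iff.mp hy s hs)
      have h13 : 13 ∣ Nat.card (centralizer ({y} : Set K)) := hR ▸ Subgroup.card_dvd_of_le hRy
      rcases hr with rfl | rfl
      · rw [card_centralizer_invol hc hx hCx hw ht hCt y hyo] at h13
        norm_num at h13
      · have h1 := card_normalizer_3 hc hx hCx hw (zpowers y) (by rw [Nat.card_zpowers, hyo])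
        have h2 : Nat.card (centralizer ({y} : Set K)) ∣ 12 :=
          h1 ▸ Subgroup.card_dvd_of_le (centralizer_le_normalizer_zpowers hc y)
        have := h13.trans h2
        norm_num at this
    have hcases : 2 ∣ Nat.card (centralizer (R : Set K)) ∨ 3 ∣ Nat.card (centralizer (R : Set K)) := by
      have hle := Nat.le_of_dvd (by norm_num) hd
      generalize Nat.card (centralizer (R : Set K)) = n at *
      interval_cases n <;> omega
    rcases hcases with h | h
    · obtain ⟨y, hy⟩ := exists_prime_orderOf_dvd_card' 2 h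
      exact hno y y.2 2 (Or.inl rfl) (by rw [Subgroup.orderOf_coe]; exact hy)
    · obtain ⟨y, hy⟩ := exists_prime_orderOf_dvd_card' 3 h
      exact hno y y.2 3 (Or.inr rfl) (by rw [Subgroup.orderOf_coe]; exact hy)
  -- the action on `R` is commutative
  intro a ha b hb
  let φ := R.normalizerMonoidHom
  have hAc : ∀ f g : MulAut R, f * g = g * f := by
    let _ := (IsCyclic.mulAutMulEquiv R).toMonoidHom.commGroupOfInjective
      (IsCyclic.mulAutMulEquiv R).injective
    exact fun f g => mul_comm f g
  have h1 : ⁅(⟨a, ha⟩ : normalizer (R : Set K)), (⟨b, hb⟩ : normalizer (R : Set K))⁆ ∈ φ.ker := by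
    rw [MonoidHom.mem_ker, map_commutatorElement, commutatorElement_eq_one_iff_mul_comm]
    exact hAc _ _
  rw [normalizerMonoidHom_ker, mem_subgroupOf] at h1
  rw [hCeq] at h1
  exact h1

include hx hCx hw ht hCt in
/-- **Main theorem** -/
theorem isCoatom_normalizer (H : Subgroup K) (hH : ¬ H.Normal) :
    IsCoatom (normalizer (H : Set K)) := by
  classical
  haveI : Fact (Nat.Prime 2) := ⟨Nat.prime_two⟩
  haveI : Fact (Nat.Prime 3) := ⟨Nat.prime_three⟩
  haveI : Fact (Nat.Prime 7) := ⟨by norm_num⟩
  haveI : Fact (Nat.Prime 13) := ⟨by norm_num⟩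
  have hHtop : H ≠ ⊤ := by
    rintro rfl
    exact hH inferInstance
  have hHbot : H ≠ ⊥ := by
    rintro rfl
    exact hH inferInstance
  have hNtop : normalizer (H : Set K) ≠ ⊤ := fun h => hH (normalizer_eq_top_iff.mp h)
  have hcard1 : Nat.card H ≠ 1 := fun h => hHbot (Subgroup.card_eq_one.mp h)
  suffices hW : ∃ W : Subgroup K, W ≤ normalizer (H : Set K) ∧
      (Nat.card W = 78 ∨ Nat.card W = 14 ∨ Nat.card W = 12) by
    obtain ⟨W, hWle, hWc⟩ := hW
    have hco := isCoatom_of_card hc W hWc
    have : W = normalizer (H : Set K) := by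
      rcases hWle.eq_or_lt with h | h
      · exact h
      · exact absurd (hco.2 _ h) hNtop
    rwa [← this]
  by_cases h13 : 13 ∣ Nat.card H
  · obtain ⟨R, hR, hRH, hHN⟩ := exists_normal_sylow hc H hHtop 13 (Or.inr rfl) h13
    exact ⟨normalizer (R : Set K), normalizer_le_normalizer hRH hHN (hab13 hc hx hCx hw ht hCt R hR),
      Or.inl (card_normalizer_13 hc R hR)⟩
  by_cases h7 : 7 ∣ Nat.card H
  · obtain ⟨R, hR, hRH, hHN⟩ := exists_normal_sylow hc H hHtop 7 (Or.inl rfl) h7
    have hN7 := card_normalizer_7 hc R hR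
    exact ⟨normalizer (R : Set K), normalizer_le_normalizer hRH hHN
      (comm_of_card_quot (c := 2) (by rw [hN7, hR]) (Or.inl rfl)), Or.inr (Or.inl hN7)⟩
  have hd12 : Nat.card H ∣ 12 := by
    rcases card_cases hc H hHtop with h | h | h
    · -- divisors of `78` not divisible by `13` divide `6`
      have h2 : Nat.Coprime (Nat.card H) 13 :=
        ((Nat.Prime.coprime_iff_not_dvd (by norm_num)).mpr h13).symm
      have h3 : Nat.card H ∣ 6 := h2.dvd_of_dvd_mul_right (by simpa using h)
      exact h3.trans (by norm_num)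
    · have h2 : Nat.Coprime (Nat.card H) 7 :=
        ((Nat.Prime.coprime_iff_not_dvd (by norm_num)).mpr h7).symm
      have h3 : Nat.card H ∣ 2 := h2.dvd_of_dvd_mul_right (by simpa using h)
      exact h3.trans (by norm_num)
    · exact h
  have hcases : Nat.card H = 2 ∨ Nat.card H = 3 ∨ Nat.card H = 4 ∨ Nat.card H = 6 ∨ Nat.card H = 12 := by
    have hle := Nat.le_of_dvd (by norm_num) hd12
    have hpos : 0 < Nat.card H := Nat.card_pos
    generalize Nat.card H = n at *
    interval_cases n <;> omega
  rcases hcases with h2 | h3 | h4 | h6 | h12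
  · -- `|H| = 2`
    obtain ⟨u, hu⟩ := exists_prime_orderOf_dvd_card' (G := H) 2 (by rw [h2])
    obtain ⟨v, hvo, hHv⟩ : ∃ v : K, orderOf v = 2 ∧ H = zpowers v := by
      refine ⟨u, by rw [Subgroup.orderOf_coe]; exact hu, ?_⟩
      symm
      apply Subgroup.eq_of_le_of_card_ge (zpowers_le.mpr u.2)
      rw [h2, Nat.card_zpowers, Subgroup.orderOf_coe, hu]
    refine ⟨centralizer ({v} : Set K), ?_, Or.inr (Or.inr (card_centralizer_invol hc hx hCx hw ht hCt _ hvo))⟩
    rw [hHv]
    exact centralizer_le_normalizer_zpowers hc _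
  · exact ⟨_, le_rfl, Or.inr (Or.inr (card_normalizer_3 hc hx hCx hw H h3))⟩
  · exact ⟨_, le_rfl, Or.inr (Or.inr (card_normalizer_4 hc H h4))⟩
  · -- `|H| = 6`
    obtain ⟨y, hy⟩ := exists_prime_orderOf_dvd_card' (G := H) 3 (by rw [h6]; norm_num)
    have hyo : orderOf (y : K) = 3 := by rw [Subgroup.orderOf_coe]; exact hy
    let Q : Subgroup K := zpowers (y : K)
    have hQ : Nat.card Q = 3 := by rw [Nat.card_zpowers, hyo]
    have hQH : Q ≤ H := zpowers_le.mpr y.2
    have hidx : Q.relIndex H = 2 := by
      have h1 := relIndex_mul_relIndex (⊥ : Subgroup K) Q H bot_le hQH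
      rw [relIndex_bot_left, relIndex_bot_left, hQ, h6] at h1
      omega
    have hHN : H ≤ normalizer (Q : Set K) := by
      have hn : (Q.subgroupOf H).Normal := normal_of_index_eq_two hidx
      exact (normal_subgroupOf_iff_le_normalizer hQH).mp hn
    have hN3 := card_normalizer_3 hc hx hCx hw Q hQ
    exact ⟨normalizer (Q : Set K), normalizer_le_normalizer hQH hHN
      (comm_of_card_quot (c := 4) (by rw [hN3, hQ]) (Or.inr rfl)), Or.inr (Or.inr hN3)⟩
  · exact ⟨H, le_normalizer, Or.inr (Or.inr h12)⟩

end data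

end simple

end Cfsg.Agent.Lib.FG7.NormCoatom
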