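import Cfsg.Agent.Lib.FG7.NormCoatom
import Cfsg.Agent.Lib.Classical.AltIso

/-!
# `PSL₂(13)` and `SL₂(13)`: normalizers of non-normal subgroups are maximal
-/

set_option autoImplicit false

namespace Cfsg.Agent.Lib.FG7.NormCoatomB

open Subgroup Matrix
open Cfsg.Agent.Lib.GL2.SL2 Cfsg.Agent.Lib.GL2.SL2Classes Cfsg.Agent.Lib.SLn.Basic
open Cfsg.Agent.Lib.SLn.OreSL2 Cfsg.Agent.Lib.SLn.PSL2Class Cfsg.Agent.Lib.Classical.SL2Tori
open Cfsg.Agent.Lib.FG7.NormCoatom

instance fact13 : Fact (Nat.Prime 13) := ⟨by norm_num⟩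

abbrev PSL13 := ProjectiveSpecialLinearGroup (Fin 2) (ZMod 13)

theorem card13 : Fintype.card (ZMod 13) = 13 := ZMod.card 13

theorem card_PSL : Nat.card PSL13 = 1092 := by
  have h := Cfsg.Agent.Lib.Classical.AltIso.card_psl_two_mul (F := ZMod 13)
  rw [card13] at h
  have h2 : Nat.gcd (13 - 1) 2 = 2 := by decide
  rw [h2] at h
  have h3 : Nat.card PSL13 * 2 = 13 * ((13 - 1) * (13 + 1)) := h
  omega

instance finite_PSL : Finite PSL13 := by
  apply Nat.finite_of_card_ne_zero
  rw [card_PSL]
  norm_num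

instance simple_PSL : IsSimpleGroup PSL13 :=
  Matrix.ProjectiveSpecialLinearGroup.rank_two_simple (by
    rw [Nat.card_eq_fintype_card, card13]
    norm_num)

def u3 : (ZMod 13)ˣ := Units.mk0 3 (by decide)
def u5 : (ZMod 13)ˣ := Units.mk0 5 (by decide)

theorem u3_cube : u3 ^ 3 = 1 := Units.ext (by decide)
theorem u3_inv : ((u3⁻¹ : (ZMod 13)ˣ) : ZMod 13) = 9 := by
  have : u3⁻¹ = u3 ^ 2 := by
    rw [inv_eq_iff_mul_eq_one, ← pow_succ', u3_cube]
  rw [this]
  decide
theorem u5_inv : ((u5⁻¹ : (ZMod 13)ˣ) : ZMod 13) = 8 := by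
  have : u5⁻¹ = u5 ^ 3 := by
    rw [inv_eq_iff_mul_eq_one, ← pow_succ']
    exact Units.ext (by decide)
  rw [this]
  decide

/-- The element of order `3`. -/
noncomputable def x₀ : PSL13 := toPSL (diagHom u3)
/-- The involution. -/
noncomputable def t₀ : PSL13 := toPSL (diagHom u5)
/-- The inverting element. -/
noncomputable def w₀ : PSL13 := toPSL weylS

theorem diag_ne_one {F : Type*} [Field F] (u : Fˣ) (h : (u : F) ≠ ((u⁻¹ : Fˣ) : F)) :
    toPSL (diagHom u) ≠ (1 : ProjectiveSpecialLinearGroup (Fin 2) F) := by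
  intro h1
  rw [toPSL_eq_one_iff] at h1
  obtain ⟨c, hc⟩ := h1
  have e : ((diagHom u : SL2 F) : Matrix (Fin 2) (Fin 2) F) =
      !![(u : F), 0; 0, ((u⁻¹ : Fˣ) : F)] := rfl
  rw [e] at hc
  have h0 := congrFun (congrFun hc 0) 0
  have h1 := congrFun (congrFun hc 1) 1
  simp [Matrix.scalar_apply] at h0 h1
  exact h (by rw [Units.val_inv_eq_inv_val]; exact h0.trans h1.symm)

theorem diag_pow_eq_minusOne {F : Type*} [Field F] (u : Fˣ) (h : u ^ 2 = -1) :
    (diagHom u : SL2 F) ^ 2 = minusOne := by
  apply Subtype.ext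
  rw [← map_pow, h]
  have e1 : ((diagHom (-1 : Fˣ) : SL2 F) : Matrix (Fin 2) (Fin 2) F) =
    !![(((-1 : Fˣ)) : F), 0; 0, (((-1 : Fˣ)⁻¹ : Fˣ) : F)] := rfl
  rw [e1]
  simp [minusOne]

theorem tr_diag {F : Type*} [Field F] (u : Fˣ) :
    tr (diagHom u : SL2 F) = (u : F) + ((u⁻¹ : Fˣ) : F) := rfl

theorem x₀_order : orderOf x₀ = 3 := by
  haveI : Fact (Nat.Prime 3) := ⟨Nat.prime_three⟩
  apply orderOf_eq_prime
  · rw [x₀, ← map_pow, ← map_pow, u3_cube, map_one, map_one]
  · apply diag_ne_one
    rw [u3_inv]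
    decide

theorem t₀_order : orderOf t₀ = 2 := by
  haveI : Fact (Nat.Prime 2) := ⟨Nat.prime_two⟩
  apply orderOf_eq_prime
  · have h : (diagHom u5 : SL2 (ZMod 13)) ^ 2 = minusOne :=
      diag_pow_eq_minusOne u5 (Units.ext (by decide))
    rw [t₀, ← map_pow, h, toPSL_minusOne]
  · apply diag_ne_one
    rw [u5_inv]
    decide

theorem card_C_x₀ : Nat.card (centralizer ({x₀} : Set PSL13)) = 6 := by
  have h1 := index_mul_card (F := ZMod 13) (diagHom u3) (Or.inl (by
    rw [tr_diag, u3_inv]
    decide))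
  have h2 := card_C_diag (F := ZMod 13) u3 (by decide)
  rw [h2, card13] at h1
  have h3 := (centralizer ({x₀} : Set PSL13)).card_mul_index
  rw [card_PSL] at h3
  have h4 : (centralizer ({x₀} : Set PSL13)).index = 182 := by
    change (centralizer ({toPSL (diagHom u3)} : Set PSL13)).index = 182
    norm_num at h1
    omega
  rw [h4] at h3
  omega

theorem card_C_t₀ : Nat.card (centralizer ({t₀} : Set PSL13)) = 12 := by
  have h1 := two_index_mul_card (F := ZMod 13) (diagHom u5) (by
    rw [tr_diag, u5_inv]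
    decide) (by decide)
  have h2 := card_C_diag (F := ZMod 13) u5 (by decide)
  rw [h2, card13] at h1
  have h3 := (centralizer ({t₀} : Set PSL13)).card_mul_index
  rw [card_PSL] at h3
  have h4 : (centralizer ({t₀} : Set PSL13)).index = 91 := by
    change (centralizer ({toPSL (diagHom u5)} : Set PSL13)).index = 91
    norm_num at h1
    omega
  rw [h4] at h3
  omega

theorem w₀_conj : w₀ * x₀ * w₀⁻¹ = x₀⁻¹ := by
  have h := congrArg toPSL (weylS_conj (F := ZMod 13) u3)
  simp only [map_mul, map_inv] at h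
  exact h

theorem psl_coatom (H : Subgroup PSL13) (hH : ¬ H.Normal) :
    IsCoatom (normalizer (H : Set PSL13)) :=
  isCoatom_normalizer card_PSL x₀_order card_C_x₀ w₀_conj t₀_order card_C_t₀ H hH

/-- The property. -/
def NP (X : Type*) [Group X] : Prop :=
  ∀ H : Subgroup X, ¬ H.Normal → IsCoatom (normalizer (H : Set X))

theorem np_psl : NP PSL13 := psl_coatom

/-- Transport along surjections with controlled subgroups. -/
theorem np_of_equiv {A B : Type*} [Group A] [Group B] (e : A ≃* B) (h : NP B) : NP A := by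
  intro H hH
  have h1 : H = (H.map e.toMonoidHom).comap e.toMonoidHom :=
    (comap_map_eq_self_of_injective e.injective H).symm
  have h2 : ¬ (H.map e.toMonoidHom).Normal := by
    intro hn
    apply hH
    rw [h1]
    exact hn.comap _
  have h3 := h _ h2
  have h4 : normalizer (H : Set A) = (normalizer ((H.map e.toMonoidHom : Subgroup B) : Set B)).comap e.toMonoidHom := by
    conv_lhs => rw [h1]
    exact (comap_normalizer_eq_of_surjective _ (f := e.toMonoidHom) e.surjective).symm
  rw [h4]
  exact isCoatom_comap_of_surjective e.surjective h3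

theorem hpow1 {X : Type*} [Group X] [Finite X] (x : X) (k : ℕ) (hk : k ≡ 1 [MOD Nat.card X]) :
    x ^ k = x := by
  have := (pow_eq_pow_iff_modEq (x := x)).mpr (hk.of_dvd (orderOf_dvd_natCard x))
  simpa using this

theorem hpow0 {X : Type*} [Group X] [Finite X] (x : X) (k : ℕ) (hk : k ≡ 0 [MOD Nat.card X]) :
    x ^ k = 1 := by
  have := (pow_eq_pow_iff_modEq (x := x)).mpr (hk.of_dvd (orderOf_dvd_natCard x))
  simpa using this

/-- Coprime direct products with an abelian group. -/
theorem np_prod {A B : Type*} [Group A] [CommGroup B] [Finite A] [Finite B]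
    (hcop : (Nat.card A).Coprime (Nat.card B)) (h : NP A) : NP (A × B) := by
  intro H hH
  classical
  -- separation of the coordinates
  obtain ⟨m, hm1, hm2⟩ : ∃ m : ℕ, m ≡ 1 [MOD Nat.card A] ∧ m ≡ 0 [MOD Nat.card B] := by
    obtain ⟨k, hk⟩ := Nat.chineseRemainder hcop 1 0
    exact ⟨k, hk⟩
  obtain ⟨n, hn1, hn2⟩ : ∃ m : ℕ, m ≡ 0 [MOD Nat.card A] ∧ m ≡ 1 [MOD Nat.card B] := by
    obtain ⟨k, hk⟩ := Nat.chineseRemainder hcop 0 1
    exact ⟨k, hk⟩
  have hsep : ∀ a b, (a, b) ∈ H → (a, (1 : B)) ∈ H := by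
    intro a b hab
    have h1 := pow_mem hab m
    rw [Prod.pow_mk, hpow1 a m hm1, hpow0 b m hm2] at h1
    exact h1
  have hsep' : ∀ a b, (a, b) ∈ H → ((1 : A), b) ∈ H := by
    intro a b hab
    have h1 := pow_mem hab n
    rw [Prod.pow_mk, hpow0 a n hn1, hpow1 b n hn2] at h1
    exact h1
  let H₁ : Subgroup A := H.map (MonoidHom.fst A B)
  have hN : normalizer (H : Set (A × B)) = (normalizer (H₁ : Set A)).comap (MonoidHom.fst A B) := by
    apply le_antisymm
    · intro g hg
      rw [mem_comap]
      apply mem_normalizer_of_conj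
      rintro _ ⟨⟨a, b⟩, hab, rfl⟩
      have h1 := (mem_normalizer_iff.mp hg _).mp hab
      exact ⟨_, h1, by simp⟩
    · intro g hg
      apply mem_normalizer_of_conj
      rintro ⟨a, b⟩ hab
      rw [mem_comap] at hg
      have h1 : (g.1 * a * g.1⁻¹) ∈ H₁ :=
        (mem_normalizer_iff.mp hg a).mp ⟨(a, b), hab, rfl⟩
      obtain ⟨⟨a', b'⟩, hab', he⟩ := h1
      have he' : a' = g.1 * a * g.1⁻¹ := he
      have h2 := hsep a' b' hab'
      have h3 := hsep' a b hab
      have h4 := H.mul_mem h2 h3
      have e : g * (a, b) * g⁻¹ = (a', (1 : B)) * ((1 : A), b) := by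
        ext
        · simp [he']
        · simp
      rw [e]
      exact h4
  have hH₁ : ¬ H₁.Normal := by
    intro hn
    apply hH
    have h1 : normalizer (H₁ : Set A) = ⊤ := normalizer_eq_top_iff.mpr hn
    rw [h1, comap_top] at hN
    exact normalizer_eq_top_iff.mp hN
  rw [hN]
  exact isCoatom_comap_of_surjective Prod.fst_surjective (h H₁ hH₁)

section SL

variable {F : Type*} [Field F] [Fintype F]

lemma minusOne_comm (g : SL2 F) : minusOne * g = g * minusOne := by
  apply Subtype.ext
  change (!![-1, 0; 0, -1] : Matrix (Fin 2) (Fin 2) F) * (g : Matrix (Fin 2) (Fin 2) F) =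
    (g : Matrix (Fin 2) (Fin 2) F) * !![-1, 0; 0, -1]
  ext i j
  fin_cases i <;> fin_cases j <;> simp [Matrix.mul_apply, Fin.sum_univ_two]

lemma minusOne_sq : (minusOne : SL2 F) * minusOne = 1 := by
  apply Subtype.ext
  change (!![-1, 0; 0, -1] : Matrix (Fin 2) (Fin 2) F) * !![-1, 0; 0, -1] = 1
  ext i j
  fin_cases i <;> fin_cases j <;> simp [Matrix.mul_apply, Fin.sum_univ_two]

lemma minusOne_ne (h2 : (2 : F) ≠ 0) : (minusOne : SL2 F) ≠ 1 := by
  intro h
  have h1 := congrFun (congrFun (congrArg Subtype.val h) 0) 0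
  have h3 : (-1 : F) = 1 := by simpa [minusOne] using h1
  apply h2
  linear_combination -h3

lemma ker_toPSL (X : SL2 F) (h : toPSL X = 1) : X = 1 ∨ X = minusOne := by
  rw [toPSL_eq_one_iff] at h
  obtain ⟨c, hc⟩ := h
  have hdet := X.2
  rw [hc, Matrix.det_fin_two] at hdet
  simp [Matrix.scalar_apply] at hdet
  have hc2 : (c - 1) * (c + 1) = 0 := by linear_combination hdet
  rcases mul_eq_zero.mp hc2 with h1 | h1
  · left
    have hc1 : c = 1 := sub_eq_zero.mp h1
    apply Subtype.ext
    rw [hc, hc1]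
    ext i j
    simp [Matrix.scalar_apply, Matrix.one_apply, Matrix.diagonal_apply]
  · right
    have hc1 : c = -1 := eq_neg_of_add_eq_zero_left h1
    apply Subtype.ext
    rw [hc, hc1]
    change _ = (!![-1, 0; 0, -1] : Matrix (Fin 2) (Fin 2) F)
    ext i j
    fin_cases i <;> fin_cases j <;> simp [Matrix.scalar_apply]

lemma invol_eq (h2 : (2 : F) ≠ 0) (X : SL2 F) (hX : X * X = 1) : X = 1 ∨ X = minusOne := by
  apply ker_toPSL
  rw [toPSL_eq_one_iff]
  have h1 := sq_eq_tr X
  have h3 : (X : Matrix (Fin 2) (Fin 2) F) * X = 1 := congrArg Subtype.val hX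
  rw [h3] at h1
  have h4 : tr X • (X : Matrix (Fin 2) (Fin 2) F) = (2 : F) • 1 := by
    rw [two_smul]
    rw [eq_sub_iff_add_eq] at h1
    exact h1.symm
  by_cases h0 : tr X = 0
  · exfalso
    rw [h0, zero_smul] at h4
    have h5 := congrFun (congrFun h4 0) 0
    simp at h5
    exact h2 h5.symm
  · refine ⟨(tr X)⁻¹ * 2, ?_⟩
    have h5 : (X : Matrix (Fin 2) (Fin 2) F) = ((tr X)⁻¹ * 2) • 1 := by
      rw [mul_smul, ← h4, smul_smul, inv_mul_cancel₀ h0, one_smul]
    rw [h5]
    ext i j
    simp [Matrix.scalar_apply, Matrix.one_apply, Matrix.diagonal_apply]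

theorem np_sl (h2 : (2 : F) ≠ 0) (hs : IsSimpleGroup (ProjectiveSpecialLinearGroup (Fin 2) F))
    (h : NP (ProjectiveSpecialLinearGroup (Fin 2) F)) : NP (SL2 F) := by
  intro H hH
  classical
  let H₁ : Subgroup (ProjectiveSpecialLinearGroup (Fin 2) F) := H.map toPSL
  have hnn : ¬ H₁.Normal := by
    intro hn
    apply hH
    rcases hs.eq_bot_or_eq_top_of_normal H₁ hn with h0 | h0
    · constructor
      intro n hn' g
      have h1 : toPSL n = 1 := by
        have : toPSL n ∈ H₁ := ⟨n, hn', rfl⟩
        rwa [h0, mem_bot] at this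
      rcases ker_toPSL n h1 with rfl | rfl
      · simpa using hn'
      · rw [← minusOne_comm g]
        simpa using hn'
    · constructor
      intro n hn' g
      have h1 : toPSL g ∈ H₁ := h0 ▸ mem_top _
      obtain ⟨a, ha, hag⟩ := h1
      have h3 : toPSL (a⁻¹ * g) = 1 := by
        rw [map_mul, map_inv, hag, inv_mul_cancel]
      have hgg : g = a ∨ g = a * minusOne := by
        rcases ker_toPSL _ h3 with h4 | h4
        · left
          exact (inv_mul_eq_one.mp h4).symm
        · right
          rw [inv_mul_eq_iff_eq_mul] at h4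
          exact h4
      rcases hgg with rfl | rfl
      · exact H.mul_mem (H.mul_mem ha hn') (H.inv_mem ha)
      · have e : a * minusOne * n * (a * minusOne)⁻¹ = a * n * a⁻¹ := by
          have e1 : minusOne * n = n * minusOne := minusOne_comm n
          have e2 : (minusOne : SL2 F)⁻¹ = minusOne := inv_eq_of_mul_eq_one_left minusOne_sq
          rw [_root_.mul_inv_rev, e2, mul_assoc a, e1, mul_assoc, mul_assoc, mul_assoc]
          rw [← mul_assoc minusOne minusOne, minusOne_sq, one_mul]
        rw [e]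
        exact H.mul_mem (H.mul_mem ha hn') (H.inv_mem ha)
  have hN : normalizer (H : Set (SL2 F)) = (normalizer (H₁ : Set (ProjectiveSpecialLinearGroup (Fin 2) F))).comap toPSL := by
    apply le_antisymm
    · exact Subgroup.le_normalizer_map toPSL |> fun h' => by
        intro g hg
        exact h' ⟨g, hg, rfl⟩
    · intro g hg
      rw [mem_comap] at hg
      apply mem_normalizer_of_conj
      intro t ht
      have h1 : toPSL g * toPSL t * (toPSL g)⁻¹ ∈ H₁ :=
        (mem_normalizer_iff.mp hg _).mp ⟨t, ht, rfl⟩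
      obtain ⟨a, ha, hae⟩ := h1
      have h3 : toPSL (a⁻¹ * (g * t * g⁻¹)) = 1 := by
        simp only [map_mul, map_inv]
        rw [hae]
        simp [mul_assoc]
      rcases ker_toPSL _ h3 with h4 | h4
      · rw [← inv_mul_eq_one.mp h4]
        exact ha
      · by_cases hm : (minusOne : SL2 F) ∈ H
        · rw [inv_mul_eq_iff_eq_mul] at h4
          rw [h4]
          exact H.mul_mem ha hm
        · exfalso
          -- `H` has odd order
          have hodd : Odd (Nat.card H) := by
            rw [← Nat.not_even_iff_odd, even_iff_two_dvd]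
            intro hd
            haveI : Fact (Nat.Prime 2) := ⟨Nat.prime_two⟩
            obtain ⟨X, hX⟩ := exists_prime_orderOf_dvd_card' 2 hd
            have hX1 : (X : SL2 F) * X = 1 := by
              have := pow_orderOf_eq_one X
              rw [hX, pow_two] at this
              exact congrArg Subtype.val this
            have hXne : (X : SL2 F) ≠ 1 := by
              intro he
              have : X = 1 := Subtype.ext he
              rw [this, orderOf_one] at hX
              omega
            rcases invol_eq h2 _ hX1 with h5 | h5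
            · exact hXne h5
            · exact hm (h5 ▸ X.2)
          rw [inv_mul_eq_iff_eq_mul] at h4
          have h5 : (g * t * g⁻¹) ^ Nat.card H = 1 := by
            rw [conj_pow]
            have : t ^ Nat.card H = 1 := by
              have h6 := pow_card_eq_one' (x := (⟨t, ht⟩ : H))
              exact congrArg Subtype.val h6
            rw [this]
            group
          rw [h4] at h5
          have hcomm : Commute a minusOne := (minusOne_comm a).symm
          rw [hcomm.mul_pow] at h5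
          have h6 : a ^ Nat.card H = 1 := by
            have h7 := pow_card_eq_one' (x := (⟨a, ha⟩ : H))
            exact congrArg Subtype.val h7
          obtain ⟨k, hk⟩ := hodd
          rw [h6, one_mul, hk, pow_succ, pow_mul, pow_two, minusOne_sq, one_pow, one_mul] at h5
          exact minusOne_ne h2 h5
  rw [hN]
  exact isCoatom_comap_of_surjective toPSL_surjective (h H₁ hnn)

end SL

theorem np_sl13 : NP (SL2 (ZMod 13)) := np_sl (by decide) simple_PSL np_psl

end Cfsg.Agent.Lib.FG7.NormCoatomB
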