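import Mathlib
import Cfsg.Agent.Lib.Solvable.HallRel
import Cfsg.Agent.Lib.Core.PSolvable

/-!
# Orbits of representations: averaging over a subgroup that is transitive on the orbit
-/

set_option autoImplicit false

namespace Cfsg.Agent.Lib.FG7.Orbit

open Cfsg.Agent.Lib.Solvable.HallRel

variable {k V H : Type*} [Field k] [AddCommGroup V] [Module k V] [Group H]

/-- The stabilizer of a vector in a representation. -/
def stab (ρ : Representation k H V) (a : V) : Subgroup H where
  carrier := {h | ρ h a = a}
  mul_mem' := by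
    intro x y hx hy
    simp only [Set.mem_ofPred_eq] at *
    rw [map_mul, Module.End.mul_apply, hy, hx]
  one_mem' := by simp
  inv_mem' := by
    intro x hx
    simp only [Set.mem_ofPred_eq] at *
    have := congrArg (ρ x⁻¹) hx
    rw [← Module.End.mul_apply, ← map_mul] at this
    simpa using this.symm

@[simp] theorem mem_stab (ρ : Representation k H V) (a : V) (h : H) :
    h ∈ stab ρ a ↔ ρ h a = a := Iff.rfl

theorem card_orbit_eq_index [Finite H] (ρ : Representation k H V) (a : V) :
    Nat.card {u : V | ∃ h : H, ρ h a = u} = (stab ρ a).index := by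
  letI : MulAction H V :=
    { smul := fun h v => ρ h v
      one_smul := by intro v; show ρ 1 v = v; simp
      mul_smul := by intro x y v; show ρ (x * y) v = ρ x (ρ y v); simp }
  have h1 : stab ρ a = MulAction.stabilizer H a := by
    ext h; rfl
  rw [h1, MulAction.index_stabilizer]
  rfl

/-- The sum over the orbit of `a`. -/
noncomputable def orbitSum [Finite H] (ρ : Representation k H V) (a : V) : V := by
  classical
  letI := Fintype.ofFinite H
  exact ∑ u ∈ Finset.univ.image (fun h : H => ρ h a), u

theorem orbitSum_fixed [Finite H] (ρ : Representation k H V) (a : V) (h : H) :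
    ρ h (orbitSum ρ a) = orbitSum ρ a := by
  classical
  letI := Fintype.ofFinite H
  unfold orbitSum
  simp only [map_sum]
  refine Finset.sum_bij (fun u _ => ρ h u) ?_ ?_ ?_ ?_
  · intro u hu
    simp only [Finset.mem_image, Finset.mem_univ, true_and] at hu ⊢
    obtain ⟨x, rfl⟩ := hu
    exact ⟨h * x, by simp⟩
  · intro u _ v _ huv
    have := congrArg (ρ h⁻¹) huv
    simpa [← Module.End.mul_apply, ← map_mul] using this
  · intro u hu
    simp only [Finset.mem_image, Finset.mem_univ, true_and] at hu ⊢
    obtain ⟨x, rfl⟩ := hu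
    refine ⟨ρ (h⁻¹ * x) a, ⟨_, rfl⟩, ?_⟩
    simp [← Module.End.mul_apply, ← map_mul]
  · intro u _
    rfl

/-- Main averaging lemma: if `C` is transitive on the orbit of `a`, that orbit spans `V`,
and `|C|` is invertible, then every `C`-fixed vector is a multiple of the orbit sum. -/
theorem fixed_mem_span [Finite H] (ρ : Representation k H V) (a : V)
    (hspan : Submodule.span k {u : V | ∃ h : H, ρ h a = u} = ⊤)
    (C : Subgroup H) (hC : (Nat.card C : k) ≠ 0)
    (htrans : ∀ h : H, ∃ c ∈ C, ρ h a = ρ c a) (v : V) (hv : ∀ c ∈ C, ρ c v = v) :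
    v ∈ Submodule.span k {orbitSum ρ a} := by
  classical
  letI := Fintype.ofFinite H
  letI : Fintype C := Fintype.ofFinite C
  -- the averaging map
  let T : V →ₗ[k] V := ∑ c : C, ρ (c : H)
  have hT : ∀ x, T x = ∑ c : C, ρ (c : H) x := by
    intro x; simp [T, LinearMap.sum_apply]
  have hT1 : ∀ c ∈ C, T (ρ c a) = T a := by
    intro c hc
    rw [hT, hT]
    have h2 : ∀ d : C, ρ (d : H) (ρ c a) = ρ ((d * ⟨c, hc⟩ : C) : H) a := by
      intro d
      simp [← Module.End.mul_apply, ← map_mul]
    simp_rw [h2]
    exact Equiv.sum_comp (Equiv.mulRight (⟨c, hc⟩ : C)) (fun d : C => ρ (d : H) a)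
  -- `T a` is a multiple of the orbit sum
  have hTa : T a ∈ Submodule.span k {orbitSum ρ a} := by
    rw [hT]
    have h3 : ∑ c : C, ρ (c : H) a =
        ∑ u ∈ Finset.univ.image (fun c : C => ρ (c : H) a),
          (Finset.univ.filter (fun c : C => ρ (c : H) a = u)).card • u := by
      rw [← Finset.sum_comp (fun u : V => u) (fun c : C => ρ (c : H) a)]
    have h4 : Finset.univ.image (fun c : C => ρ (c : H) a) = Finset.univ.image (fun h : H => ρ h a) := by
      ext u
      simp only [Finset.mem_image, Finset.mem_univ, true_and]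
      constructor
      · rintro ⟨c, rfl⟩; exact ⟨c, rfl⟩
      · rintro ⟨h, rfl⟩
        obtain ⟨c, hc, h5⟩ := htrans h
        exact ⟨⟨c, hc⟩, h5.symm⟩
    have h6 : ∀ u ∈ Finset.univ.image (fun c : C => ρ (c : H) a),
        (Finset.univ.filter (fun c : C => ρ (c : H) a = u)).card =
          (Finset.univ.filter (fun c : C => ρ (c : H) a = a)).card := by
      intro u hu
      simp only [Finset.mem_image, Finset.mem_univ, true_and] at hu
      obtain ⟨c₀, rfl⟩ := hu
      refine Finset.card_nbij' (fun c => c₀⁻¹ * c) (fun c => c₀ * c) ?_ ?_ ?_ ?_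
      · intro c hc
        simp only [Finset.coe_filter, Finset.mem_univ, true_and, Set.mem_ofPred_eq] at hc ⊢
        have := congrArg (ρ (c₀⁻¹ : H)) hc
        simpa [← Module.End.mul_apply, ← map_mul] using this
      · intro c hc
        simp only [Finset.coe_filter, Finset.mem_univ, true_and, Set.mem_ofPred_eq] at hc ⊢
        have : ρ ((c₀ * c : C) : H) a = ρ c₀ (ρ c a) := by simp
        rw [this, hc]
      · intro c _
        simp
      · intro c _
        simp
    rw [h3, Finset.sum_congr rfl (fun u hu => by rw [h6 u hu]), ← Finset.smul_sum, h4]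
    refine Submodule.smul_of_tower_mem _ _ ?_
    refine Submodule.subset_span ?_
    simp only [Set.mem_singleton_iff]
    rfl
  -- the whole image of `T` lies in the span
  have hTv : ∀ x : V, T x ∈ Submodule.span k {orbitSum ρ a} := by
    intro x
    have hx : x ∈ Submodule.span k {u : V | ∃ h : H, ρ h a = u} := by rw [hspan]; trivial
    induction hx using Submodule.span_induction with
    | mem u hu =>
      obtain ⟨h, rfl⟩ := hu
      obtain ⟨c, hc, h5⟩ := htrans h
      rw [h5, hT1 c hc]
      exact hTa
    | zero => simp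
    | add x y _ _ hx hy => rw [map_add]; exact Submodule.add_mem _ hx hy
    | smul r x _ hx => rw [map_smul]; exact Submodule.smul_mem _ _ hx
  have hTfix : T v = (Nat.card C : k) • v := by
    rw [hT]
    have : ∀ c : C, ρ (c : H) v = v := fun c => hv c c.2
    simp only [this, Finset.sum_const, Finset.card_univ, Nat.card_eq_fintype_card]
    rw [Nat.cast_smul_eq_nsmul]
  have h7 : v = (Nat.card C : k)⁻¹ • T v := by
    rw [hTfix, smul_smul, inv_mul_cancel₀ hC, one_smul]
  rw [h7]
  exact Submodule.smul_mem _ _ (hTv v)

/-- The invariants lie in a line. -/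
theorem finrank_invariants_le_one [Finite H] (ρ : Representation k H V) (a : V)
    (hspan : Submodule.span k {u : V | ∃ h : H, ρ h a = u} = ⊤)
    (C : Subgroup H) (hC : (Nat.card C : k) ≠ 0)
    (htrans : ∀ h : H, ∃ c ∈ C, ρ h a = ρ c a) :
    Module.finrank k ρ.invariants ≤ 1 := by
  have hle : ρ.invariants ≤ Submodule.span k {orbitSum ρ a} := by
    intro v hv
    exact fixed_mem_span ρ a hspan C hC htrans v (fun c _ => hv c)
  haveI : Module.Finite k (Submodule.span k {orbitSum ρ a} : Submodule k V) :=
    Module.Finite.span_singleton k _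
  calc Module.finrank k ρ.invariants ≤ Module.finrank k (Submodule.span k {orbitSum ρ a} : Submodule k V) :=
        Submodule.finrank_mono hle
    _ ≤ 1 := by
        classical
        have := finrank_span_finset_le_card (R := k) ({orbitSum ρ a} : Finset V)
        simp only [Finset.coe_singleton, Finset.card_singleton] at this
        exact this

/-- A `C`-fixed vector is `H`-fixed. -/
theorem fixed_of_fixed [Finite H] (ρ : Representation k H V) (a : V)
    (hspan : Submodule.span k {u : V | ∃ h : H, ρ h a = u} = ⊤)
    (C : Subgroup H) (hC : (Nat.card C : k) ≠ 0)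
    (htrans : ∀ h : H, ∃ c ∈ C, ρ h a = ρ c a) (v : V) (hv : ∀ c ∈ C, ρ c v = v) (h : H) :
    ρ h v = v := by
  obtain ⟨r, rfl⟩ := Submodule.mem_span_singleton.mp (fixed_mem_span ρ a hspan C hC htrans v hv)
  rw [map_smul, orbitSum_fixed]

/-- Coprime orbit lengths give a factorization. -/
theorem exists_mul_of_coprime_orbits [Finite H] (ρ : Representation k H V) (a b : V)
    (h : (Nat.card {u : V | ∃ h : H, ρ h a = u}).Coprime (Nat.card {u : V | ∃ h : H, ρ h b = u}))
    (g : H) : ∃ x ∈ stab ρ b, ∃ y ∈ stab ρ a, g = x * y := by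
  rw [card_orbit_eq_index, card_orbit_eq_index] at h
  exact exists_mul_of_coprime_index _ _ h.symm g

theorem cast_card_subgroup_ne_zero [Finite H] (C : Subgroup H) (hchar : ¬ ringChar k ∣ Nat.card H) :
    (Nat.card C : k) ≠ 0 := by
  intro h0
  rw [CharP.cast_eq_zero_iff k (ringChar k)] at h0
  exact hchar (h0.trans (Subgroup.card_subgroup_dvd_card C))

end Cfsg.Agent.Lib.FG7.Orbit
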