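import Mathlib
import Cfsg.Agent.Lib.Core.PSolvable

/-!
# Existence of `p`-complements in `p`-solvable groups
-/

set_option autoImplicit false

namespace Cfsg.Agent.Lib.FG7.PComplement

open Cfsg Cfsg.Agent.Lib.Core.PSolvable

universe u

theorem exists_pComplement_aux {p : ℕ} [Fact p.Prime] (n : ℕ) :
    ∀ (G : Type u) [Group G] [Finite G], Nat.card G = n → IsPSolvable p G →
      ∃ C : Subgroup G, (Nat.card C).Coprime p ∧ ∃ m : ℕ, Nat.card G = Nat.card C * p ^ m := by
  induction n using Nat.strong_induction_on with
  | _ n ih =>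
  intro G _ _ hn hG
  by_cases hnt : Nontrivial G
  · obtain ⟨N, hNn, hN1, hN⟩ := isPSolvable_exists_normal hG
    have hq : IsPSolvable p (G ⧸ N) :=
      isPSolvable_of_surjective (QuotientGroup.mk' N) QuotientGroup.mk_surjective hG
    have hcard : Nat.card G = Nat.card (G ⧸ N) * Nat.card N := by
      rw [Nat.mul_comm]; exact (Subgroup.card_mul_index N).symm
    have hN1' : 1 < Nat.card N := by
      have : Nontrivial N := (Subgroup.nontrivial_iff_ne_bot N).mpr hN1
      exact Finite.one_lt_card
    have hGpos : 0 < Nat.card G := Nat.card_pos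
    have hqpos : 0 < Nat.card (G ⧸ N) := Nat.card_pos
    have hlt : Nat.card (G ⧸ N) < n := by
      rw [← hn, hcard]
      nlinarith
    obtain ⟨Cb, hCb, m, hm⟩ := ih _ hlt (G ⧸ N) rfl hq
    -- the preimage
    let K : Subgroup G := Cb.comap (QuotientGroup.mk' N)
    have hK : Nat.card K = Nat.card Cb * Nat.card N := by
      have hle : N ≤ K := by
        intro x hx
        show (QuotientGroup.mk x : G ⧸ N) ∈ Cb
        rw [(QuotientGroup.eq_one_iff x).mpr hx]
        exact Cb.one_mem
      have h1 : Nat.card K = Nat.card (K ⧸ N.subgroupOf K) * Nat.card (N.subgroupOf K) := by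
        rw [Nat.mul_comm]; exact (Subgroup.card_mul_index (N.subgroupOf K)).symm
      have h2 : Nat.card (N.subgroupOf K) = Nat.card N :=
        Nat.card_congr (Subgroup.subgroupOfEquivOfLe hle).toEquiv
      have h3 : Nat.card (K ⧸ N.subgroupOf K) = Nat.card Cb := by
        have hs : ((QuotientGroup.mk' N).comp K.subtype).range = Cb := by
          ext y
          constructor
          · rintro ⟨⟨x, hx⟩, rfl⟩
            exact hx
          · intro hy
            obtain ⟨x, rfl⟩ := QuotientGroup.mk_surjective y
            exact ⟨⟨x, hy⟩, rfl⟩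
        have hk : ((QuotientGroup.mk' N).comp K.subtype).ker = N.subgroupOf K := by
          ext x
          simp [Subgroup.mem_subgroupOf, MonoidHom.mem_ker]
        show (N.subgroupOf K).index = _
        rw [← hk, Subgroup.index_ker, hs]
      rw [h1, h2, h3]
    have hGK : Nat.card G = Nat.card K * p ^ m := by
      rw [hcard, hm, hK]; ring
    rcases hN with ⟨a, ha⟩ | hN
    · -- `N` is a `p`-group: Schur-Zassenhaus in `K`
      have hle : N ≤ K := by
        intro x hx
        show (QuotientGroup.mk x : G ⧸ N) ∈ Cb
        rw [(QuotientGroup.eq_one_iff x).mpr hx]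
        exact Cb.one_mem
      have hnormal : (N.subgroupOf K).Normal := Subgroup.Normal.subgroupOf hNn K
      have hcardN' : Nat.card (N.subgroupOf K) = Nat.card N :=
        Nat.card_congr (Subgroup.subgroupOfEquivOfLe hle).toEquiv
      have hidx : (N.subgroupOf K).index = Nat.card Cb := by
        have h := Subgroup.card_mul_index (N.subgroupOf K)
        rw [hcardN', hK, Nat.mul_comm] at h
        exact Nat.eq_of_mul_eq_mul_right (Nat.pos_of_ne_zero (by omega)) h
      have hcop : Nat.Coprime (Nat.card (N.subgroupOf K)) (N.subgroupOf K).index := by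
        rw [hcardN', hidx, ha]
        exact Nat.Coprime.pow_left a hCb.symm
      obtain ⟨H, hH⟩ := Subgroup.exists_right_complement'_of_coprime hcop
      have hHc : Nat.card (N.subgroupOf K) * Nat.card H = Nat.card K := hH.card_mul_card
      rw [hcardN', hK] at hHc
      have hHcard : Nat.card H = Nat.card Cb := by
        have : Nat.card N * Nat.card H = Nat.card N * Nat.card Cb := by rw [hHc]; ring
        exact Nat.eq_of_mul_eq_mul_left (by omega) this
      refine ⟨H.map K.subtype, ?_, m + a, ?_⟩
      · rw [Nat.card_congr (Subgroup.equivMapOfInjective H K.subtype K.subtype_injective).symm.toEquiv,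
          hHcard]
        exact hCb
      · rw [Nat.card_congr (Subgroup.equivMapOfInjective H K.subtype K.subtype_injective).symm.toEquiv,
          hHcard, hGK, hK, ha, pow_add]
        ring
    · -- `N` is a `p'`-group
      refine ⟨K, ?_, m, hGK⟩
      rw [hK]
      exact Nat.Coprime.mul_left hCb hN
  · rw [not_nontrivial_iff_subsingleton] at hnt
    refine ⟨⊥, by simp, 0, ?_⟩
    simp

/-- A `p`-solvable finite group has a `p`-complement. -/
theorem exists_pComplement {p : ℕ} [Fact p.Prime] {G : Type u} [Group G] [Finite G]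
    (hG : IsPSolvable p G) :
    ∃ C : Subgroup G, (Nat.card C).Coprime p ∧ ∃ m : ℕ, C.index = p ^ m := by
  obtain ⟨C, hC, m, hm⟩ := exists_pComplement_aux (p := p) _ G rfl hG
  refine ⟨C, hC, m, ?_⟩
  have h := Subgroup.card_mul_index C
  rw [hm] at h
  exact Nat.eq_of_mul_eq_mul_left Nat.card_pos h

end Cfsg.Agent.Lib.FG7.PComplement
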