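import Mathlib
import Cfsg.Agent.Lib.Solvable.Hall
import Cfsg.Agent.Lib.PGroups.MaxAbelian

/-!
# Subgroups generated by small classes (after Isaacs); Ishikawa's theorem
-/

set_option autoImplicit false

namespace Cfsg.Agent.Lib.FG7.SmallClasses

open Subgroup Cfsg.Agent.Lib.Solvable.Hall

variable {G : Type*} [Group G]

/-- Bound for an index in terms of the number of conjugates within a subgroup. -/
theorem relIndex_lt_of_conj_mem [Finite G] {L D : Subgroup G} {d : G} (hd : d ≠ 1)
    (hT : ∀ l ∈ L, l * d * l⁻¹ ∈ D) :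
    (centralizer ({d} : Set G)).relIndex L < Nat.card D := by
  classical
  have hcomm : ∀ a b : G, a⁻¹ * b ∈ centralizer ({d} : Set G) ↔ a * d * a⁻¹ = b * d * b⁻¹ := by
    intro a b
    rw [mem_centralizer_singleton_iff]
    constructor
    · intro h
      have h1 : b * d = a * (d * (a⁻¹ * b)) := by
        rw [← h]
        group
      rw [h1]
      group
    · intro h
      calc a⁻¹ * b * d = a⁻¹ * (b * d * b⁻¹) * b := by group
        _ = a⁻¹ * (a * d * a⁻¹) * b := by rw [h]
        _ = d * (a⁻¹ * b) := by group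
  let f : L ⧸ (centralizer ({d} : Set G)).subgroupOf L → D :=
    Quotient.lift (fun l : L => (⟨(l : G) * d * (l : G)⁻¹, hT l l.2⟩ : D)) (by
      intro a b hab
      apply Subtype.ext
      have h1 : a⁻¹ * b ∈ (centralizer ({d} : Set G)).subgroupOf L :=
        QuotientGroup.leftRel_apply.mp hab
      rw [mem_subgroupOf] at h1
      exact (hcomm _ _).mp h1)
  have hf : Function.Injective f := by
    intro x y
    induction x using Quotient.inductionOn with | _ a => ?_
    induction y using Quotient.inductionOn with | _ b => ?_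
    intro h
    apply Quotient.sound
    apply QuotientGroup.leftRel_apply.mpr
    rw [mem_subgroupOf]
    exact (hcomm _ _).mpr (congrArg Subtype.val h)
  have hnot : (1 : D) ∉ Set.range f := by
    rintro ⟨y, hy⟩
    induction y using Quotient.inductionOn with | _ a => ?_
    have h1 : (a : G) * d * (a : G)⁻¹ = 1 := congrArg Subtype.val hy
    apply hd
    have h2 : d = (a : G)⁻¹ * ((a : G) * d * (a : G)⁻¹) * (a : G) := by group
    rw [h2, h1]
    group
  letI := Fintype.ofFinite (L ⧸ (centralizer ({d} : Set G)).subgroupOf L)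
  letI := Fintype.ofFinite D
  have h3 := Fintype.card_lt_of_injective_of_notMem f hf hnot
  rw [← Nat.card_eq_fintype_card, ← Nat.card_eq_fintype_card] at h3
  exact h3

/-- **Key lemma**: commutators with an element of the smallest class size are central. -/
theorem comm_mem_center [Finite G] {A : Subgroup G} [hAn : A.Normal]
    (hc : ∀ a ∈ A, ∀ b ∈ A, a * b = b * a) {m : ℕ}
    (hmin : ∀ x : G, 1 < (centralizer ({x} : Set G)).index → m ≤ (centralizer ({x} : Set G)).index)
    {x : G} (hx : (centralizer ({x} : Set G)).index = m) {a : G} (ha : a ∈ A) :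
    a * x * a⁻¹ * x⁻¹ ∈ center G := by
  classical
  set C := centralizer ({x} : Set G) with hC
  have hmemC : ∀ g, g ∈ C ↔ g * x = x * g := fun g => mem_centralizer_singleton_iff
  -- the hom `a ↦ [a, x]`
  have hmem : ∀ a ∈ A, a * (x * a⁻¹ * x⁻¹) ∈ A := fun a ha =>
    mul_mem ha (hAn.conj_mem _ (inv_mem ha) x)
  let φ : A →* A :=
    { toFun := fun a => ⟨a * (x * (a : G)⁻¹ * x⁻¹), hmem a a.2⟩
      map_one' := by
        apply Subtype.ext
        simp
      map_mul' := by
        intro u v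
        apply Subtype.ext
        have hp : x * (v : G)⁻¹ * x⁻¹ ∈ A := hAn.conj_mem _ (inv_mem v.2) x
        have hr : x * (u : G)⁻¹ * x⁻¹ ∈ A := hAn.conj_mem _ (inv_mem u.2) x
        have h2 : (v : G) * (x * (u : G)⁻¹ * x⁻¹) = (x * (u : G)⁻¹ * x⁻¹) * (v : G) :=
          hc _ v.2 _ hr
        have h3 : (x * (v : G)⁻¹ * x⁻¹) * (x * (u : G)⁻¹ * x⁻¹) =
            (x * (u : G)⁻¹ * x⁻¹) * (x * (v : G)⁻¹ * x⁻¹) := hc _ hp _ hr
        simp only [Subgroup.coe_mul, mul_inv_rev]
        calc (u : G) * (v : G) * (x * ((v : G)⁻¹ * (u : G)⁻¹) * x⁻¹)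
            = (u : G) * (v : G) * ((x * (v : G)⁻¹ * x⁻¹) * (x * (u : G)⁻¹ * x⁻¹)) := by group
          _ = (u : G) * (v : G) * ((x * (u : G)⁻¹ * x⁻¹) * (x * (v : G)⁻¹ * x⁻¹)) := by rw [h3]
          _ = (u : G) * ((v : G) * (x * (u : G)⁻¹ * x⁻¹)) * (x * (v : G)⁻¹ * x⁻¹) := by group
          _ = (u : G) * ((x * (u : G)⁻¹ * x⁻¹) * (v : G)) * (x * (v : G)⁻¹ * x⁻¹) := by rw [h2]
          _ = _ := by group }
  have hφ : ∀ u : A, ((φ u : A) : G) = u * (x * (u : G)⁻¹ * x⁻¹) := fun _ => rfl
  set D : Subgroup G := φ.range.map A.subtype with hD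
  have hcardD : Nat.card D = Nat.card φ.range := Subgroup.card_map_of_injective A.subtype_injective
  have hmemD : ∀ u ∈ A, u * x * u⁻¹ * x⁻¹ ∈ D := by
    intro u hu
    refine ⟨φ ⟨u, hu⟩, ⟨⟨u, hu⟩, rfl⟩, ?_⟩
    simp only [Subgroup.subtype_apply, hφ]
    group
  have hmemD' : ∀ y ∈ D, ∃ u ∈ A, y = u * x * u⁻¹ * x⁻¹ := by
    rintro _ ⟨_, ⟨u, rfl⟩, rfl⟩
    refine ⟨u, u.2, ?_⟩
    simp only [Subgroup.subtype_apply, hφ]
    group
  have hDA : D ≤ A := by
    rintro _ ⟨u, -, rfl⟩
    exact u.2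
  -- the cardinalities
  have hker : Nat.card φ.ker = Nat.card (C ⊓ A : Subgroup G) := by
    have h1 : φ.ker.map A.subtype = C ⊓ A := by
      ext y
      constructor
      · rintro ⟨u, hu, rfl⟩
        refine Subgroup.mem_inf.mpr ⟨?_, u.2⟩
        rw [hmemC]
        have h2 : ((φ u : A) : G) = 1 := congrArg Subtype.val hu
        rw [hφ] at h2
        have h3 : (u : G) * (x * (u : G)⁻¹ * x⁻¹) * x * (u : G) = x * (u : G) := by
          rw [h2, one_mul]
        simpa [mul_assoc] using h3
      · intro hy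
        obtain ⟨hy1, hy2⟩ := Subgroup.mem_inf.mp hy
        refine ⟨⟨y, hy2⟩, ?_, rfl⟩
        apply Subtype.ext
        change y * (x * y⁻¹ * x⁻¹) = 1
        rw [hmemC] at hy1
        calc y * (x * y⁻¹ * x⁻¹) = (y * x) * y⁻¹ * x⁻¹ := by group
          _ = (x * y) * y⁻¹ * x⁻¹ := by rw [hy1]
          _ = 1 := by group
    rw [← h1]
    exact (Subgroup.card_map_of_injective A.subtype_injective).symm
  have hA1 : Nat.card A = Nat.card D * Nat.card (C ⊓ A : Subgroup G) := by
    have h1 := Subgroup.card_mul_index φ.ker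
    rw [Subgroup.index_ker, hker] at h1
    rw [hcardD, ← h1, mul_comm]
  set L := C ⊔ A with hL
  have hL1 : Nat.card L = Nat.card C * Nat.card D := by
    have h1 := card_sup_mul_card_inf C A
    rw [hA1, ← mul_assoc] at h1
    exact Nat.eq_of_mul_eq_mul_right Nat.card_pos h1
  have hm : m = Nat.card D * L.index := by
    have h1 := Subgroup.card_mul_index C
    have h2 := Subgroup.card_mul_index L
    rw [hx] at h1
    rw [hL1, mul_assoc, ← h1] at h2
    exact (Nat.eq_of_mul_eq_mul_left Nat.card_pos h2).symm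
  -- `L` normalizes `D`
  have hnormal_of : ∀ X : Subgroup G, (∀ g ∈ X, ∀ y ∈ D, g * y * g⁻¹ ∈ D) →
      X ≤ normalizer (D : Set G) := by
    intro X hX g hg
    rw [mem_normalizer_iff]
    intro y
    constructor
    · exact hX g hg y
    · intro hy
      have := hX g⁻¹ (inv_mem hg) _ hy
      simpa [mul_assoc] using this
  have hLD : ∀ l ∈ L, ∀ y ∈ D, l * y * l⁻¹ ∈ D := by
    have hLn : L ≤ normalizer (D : Set G) := by
      apply sup_le
      · apply hnormal_of
        intro g hg y hy
        obtain ⟨u, hu, rfl⟩ := hmemD' y hy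
        have hg' : g * x = x * g := (hmemC g).mp hg
        have hgx : g * x * g⁻¹ = x := by rw [hg']; group
        have hu' : g * u * g⁻¹ ∈ A := hAn.conj_mem _ hu g
        have h3 := hmemD _ hu'
        have h4 : g * (u * x * u⁻¹ * x⁻¹) * g⁻¹ =
            g * u * g⁻¹ * x * (g * u * g⁻¹)⁻¹ * x⁻¹ := by
          calc g * (u * x * u⁻¹ * x⁻¹) * g⁻¹
              = (g * u * g⁻¹) * (g * x * g⁻¹) * (g * u * g⁻¹)⁻¹ * (g * x * g⁻¹)⁻¹ := by group
            _ = _ := by rw [hgx]
        rw [h4]
        exact h3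
      · apply hnormal_of
        intro g hg y hy
        have h1 : g * y * g⁻¹ = y := by
          rw [hc g hg y (hDA hy)]
          group
        rw [h1]
        exact hy
    intro l hl y hy
    exact (mem_normalizer_iff.mp (hLn hl) y).mp hy
  by_contra hnot
  set d := a * x * a⁻¹ * x⁻¹ with hd
  have hdD : d ∈ D := hmemD a ha
  have hd1 : d ≠ 1 := by
    intro h
    apply hnot
    rw [h]
    exact one_mem _
  set Cd := centralizer ({d} : Set G) with hCd
  have hidx : 1 < Cd.index := by
    have h0 : Cd.index ≠ 0 := Subgroup.index_ne_zero_of_finite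
    have h1 : Cd.index ≠ 1 := by
      intro h
      apply hnot
      rw [Subgroup.index_eq_one] at h
      rw [Subgroup.mem_center_iff]
      intro g
      have : g ∈ Cd := by rw [h]; trivial
      exact (mem_centralizer_singleton_iff.mp this)
    omega
  have hm' := hmin d hidx
  have he : Cd.relIndex L < Nat.card D := relIndex_lt_of_conj_mem hd1 (fun l hl => hLD l hl d hdD)
  have hE : Nat.card (Cd ⊓ L : Subgroup G) * Cd.relIndex L = Nat.card L := by
    have := Subgroup.relIndex_mul_relIndex (⊥ : Subgroup G) (Cd ⊓ L) L bot_le inf_le_right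
    rwa [Subgroup.relIndex_bot_left, Subgroup.relIndex_bot_left, Subgroup.inf_relIndex_right] at this
  have hEle : Nat.card (Cd ⊓ L : Subgroup G) ≤ Nat.card Cd := Subgroup.card_le_of_le inf_le_left
  have h1 := Subgroup.card_mul_index Cd
  have h2 := Subgroup.card_mul_index L
  have hLpos : 0 < L.index := Nat.pos_of_ne_zero Subgroup.index_ne_zero_of_finite
  have h3 : Cd.index ≤ L.index * Cd.relIndex L := by
    have h4 : Nat.card Cd * Cd.index ≤ Nat.card Cd * (L.index * Cd.relIndex L) := by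
      rw [h1, ← h2, ← hE]
      calc Nat.card (Cd ⊓ L : Subgroup G) * Cd.relIndex L * L.index
          ≤ Nat.card Cd * Cd.relIndex L * L.index := by
            apply Nat.mul_le_mul_right
            exact Nat.mul_le_mul_right _ hEle
        _ = _ := by ring
    exact Nat.le_of_mul_le_mul_left h4 Nat.card_pos
  have h5 : L.index * Cd.relIndex L < L.index * Nat.card D :=
    Nat.mul_lt_mul_of_pos_left he hLpos
  have hm2 : m = L.index * Nat.card D := by rw [hm, mul_comm]
  have hm3 : m ≤ Cd.index := hm'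
  omega

/-- The relevant subgroup form: commutators with the subgroup generated by small classes. -/
theorem comm_mem_center_closure [Finite G] {A : Subgroup G} [hAn : A.Normal]
    (hc : ∀ a ∈ A, ∀ b ∈ A, a * b = b * a) {m : ℕ}
    (hmin : ∀ x : G, 1 < (centralizer ({x} : Set G)).index → m ≤ (centralizer ({x} : Set G)).index)
    {x : G} (hx : x ∈ closure {x : G | (centralizer ({x} : Set G)).index = 1 ∨
      (centralizer ({x} : Set G)).index = m}) :
    ∀ a ∈ A, a * x * a⁻¹ * x⁻¹ ∈ center G := by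
  induction hx using closure_induction with
  | mem x hx =>
    intro a ha
    rcases hx with h1 | h1
    · rw [Subgroup.index_eq_one] at h1
      have : x ∈ center G := by
        rw [Subgroup.mem_center_iff]
        intro g
        have : g ∈ centralizer ({x} : Set G) := by rw [h1]; trivial
        exact mem_centralizer_singleton_iff.mp this
      have h2 : a * x = x * a := ((Subgroup.mem_center_iff.mp this) a)
      rw [h2]
      simp
    · exact comm_mem_center hc hmin h1 ha
  | one =>
    intro a ha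
    simp
  | mul x y _ _ hx hy =>
    intro a ha
    have h1 := hx a ha
    have h2 := hy a ha
    have h3 : a * (x * y) * a⁻¹ * (x * y)⁻¹ = (a * x * a⁻¹ * x⁻¹) * (x * (a * y * a⁻¹ * y⁻¹) * x⁻¹) := by
      group
    rw [h3]
    refine mul_mem h1 ?_
    rw [(Subgroup.mem_center_iff.mp h2) x]
    simpa using h2
  | inv x _ hx =>
    intro a ha
    have h1 := hx a ha
    have h3 : a * x⁻¹ * a⁻¹ * x⁻¹⁻¹ = x⁻¹ * (a * x * a⁻¹ * x⁻¹)⁻¹ * x := by group
    rw [h3]
    have h2 := inv_mem h1
    rw [(Subgroup.mem_center_iff.mp h2) x⁻¹]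
    simpa using h2

/-- The commutator of two elements acting centrally on `A`. -/
theorem comm_mem_of_central [Finite G] {A : Subgroup G} [hAn : A.Normal]
    (hCA : centralizer (A : Set G) = A) {x y : G}
    (hx : ∀ a ∈ A, a * x * a⁻¹ * x⁻¹ ∈ center G) (hy : ∀ a ∈ A, a * y * a⁻¹ * y⁻¹ ∈ center G) :
    x * y * x⁻¹ * y⁻¹ ∈ A := by
  have hsym : ∀ a ∈ A, (x * y) * a * (x * y)⁻¹ = (y * x) * a * (y * x)⁻¹ := by
    intro a ha
    set zx := (a * x * a⁻¹ * x⁻¹)⁻¹ with hzx
    set zy := (a * y * a⁻¹ * y⁻¹)⁻¹ with hzy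
    have hzxc : zx ∈ center G := inv_mem (hx a ha)
    have hzyc : zy ∈ center G := inv_mem (hy a ha)
    have h1 : x * a * x⁻¹ = zx * a := by rw [hzx]; group
    have h2 : y * a * y⁻¹ = zy * a := by rw [hzy]; group
    calc (x * y) * a * (x * y)⁻¹ = x * (y * a * y⁻¹) * x⁻¹ := by group
      _ = x * (zy * a) * x⁻¹ := by rw [h2]
      _ = (x * zy * x⁻¹) * (x * a * x⁻¹) := by group
      _ = zy * (zx * a) := by
        rw [h1, (Subgroup.mem_center_iff.mp hzyc) x]
        simp
      _ = zx * (zy * a) := by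
        rw [← mul_assoc, ← mul_assoc, (Subgroup.mem_center_iff.mp hzyc) zx]
      _ = (y * zx * y⁻¹) * (y * a * y⁻¹) := by
        rw [h2, (Subgroup.mem_center_iff.mp hzxc) y]
        simp
      _ = y * (zx * a) * y⁻¹ := by group
      _ = y * (x * a * x⁻¹) * y⁻¹ := by rw [h1]
      _ = (y * x) * a * (y * x)⁻¹ := by group
  rw [← hCA, mem_centralizer_iff]
  intro a ha
  have h1 : a ∈ A := ha
  have h2 := hsym ((y * x)⁻¹ * a * (y * x)) (by
    have := hAn.conj_mem a h1 (y * x)⁻¹
    simpa using this)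
  have h3 : (y * x) * ((y * x)⁻¹ * a * (y * x)) * (y * x)⁻¹ = a := by group
  rw [h3] at h2
  have h4 : (x * y * x⁻¹ * y⁻¹) * a * (x * y * x⁻¹ * y⁻¹)⁻¹ = a := by
    calc (x * y * x⁻¹ * y⁻¹) * a * (x * y * x⁻¹ * y⁻¹)⁻¹
        = x * y * ((y * x)⁻¹ * a * (y * x)) * (x * y)⁻¹ := by group
      _ = a := h2
  have h5 : (x * y * x⁻¹ * y⁻¹) * a = a * (x * y * x⁻¹ * y⁻¹) := by
    rwa [mul_inv_eq_iff_eq_mul] at h4
  exact h5.symm

/-- The upper central series reaches the top at step three. -/
theorem upper_three {H : Type*} [Group H] (Z₁ A₁ : Subgroup H) (h1 : ∀ z ∈ Z₁, ∀ y : H, z * y * z⁻¹ * y⁻¹ = 1)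
    (h2 : ∀ a ∈ A₁, ∀ y : H, a * y * a⁻¹ * y⁻¹ ∈ Z₁) (h3 : ∀ x y : H, x * y * x⁻¹ * y⁻¹ ∈ A₁) :
    Subgroup.upperCentralSeries H 3 = ⊤ := by
  have hZ : ∀ z ∈ Z₁, z ∈ Subgroup.upperCentralSeries H 1 := by
    intro z hz
    rw [Subgroup.mem_upperCentralSeries_succ_iff]
    intro y
    rw [commutatorElement_def, h1 z hz y]
    exact one_mem _
  have hA : ∀ a ∈ A₁, a ∈ Subgroup.upperCentralSeries H 2 := by
    intro a ha
    rw [Subgroup.mem_upperCentralSeries_succ_iff]
    intro y
    rw [commutatorElement_def]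
    exact hZ _ (h2 a ha y)
  rw [eq_top_iff]
  intro x _
  rw [Subgroup.mem_upperCentralSeries_succ_iff]
  intro y
  rw [commutatorElement_def]
  exact hA _ (h3 x y)

/-- **Isaacs**: the subgroup generated by the elements of the smallest class size. -/
theorem main [Finite G] (A : Subgroup G) [hAn : A.Normal] (hA : IsMulCommutative A)
    (hCA : centralizer (A : Set G) = A) (m : ℕ)
    (hmin : ∀ x : G, 1 < (centralizer ({x} : Set G)).index → m ≤ (centralizer ({x} : Set G)).index) :
    Subgroup.upperCentralSeries ↥(closure {x : G | (centralizer ({x} : Set G)).index = 1 ∨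
      (centralizer ({x} : Set G)).index = m}) 3 = ⊤ := by
  set M := closure {x : G | (centralizer ({x} : Set G)).index = 1 ∨
      (centralizer ({x} : Set G)).index = m} with hM
  have hc : ∀ a ∈ A, ∀ b ∈ A, a * b = b * a := fun a ha b hb =>
    congrArg Subtype.val (hA.is_comm.comm ⟨a, ha⟩ ⟨b, hb⟩)
  have h1 : ∀ x ∈ M, ∀ a ∈ A, a * x * a⁻¹ * x⁻¹ ∈ center G := fun x hx =>
    comm_mem_center_closure hc hmin hx
  apply upper_three ((center G).comap M.subtype) (A.comap M.subtype)
  · intro z hz y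
    have h2 : (y : G) * z = z * y := (Subgroup.mem_center_iff.mp hz) y
    have h3 : y * z = z * y := Subtype.ext h2
    rw [← h3]
    group
  · intro a ha y
    exact h1 y y.2 a ha
  · intro x y
    exact comm_mem_of_central hCA (h1 x x.2) (h1 y y.2)

/-- **Ishikawa**: a `p`-group with two class sizes has class at most three. -/
theorem ishikawa [Finite G] {p : ℕ} [Fact p.Prime] (hG : IsPGroup p G) (m : ℕ)
    (h : ∀ x : G, (centralizer ({x} : Set G)).index = 1 ∨ (centralizer ({x} : Set G)).index = m) :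
    Subgroup.upperCentralSeries G 3 = ⊤ := by
  classical
  obtain ⟨A, hAmax⟩ := (Set.toFinite {A : Subgroup G | A.Normal ∧ IsMulCommutative A}).exists_maximal
    ⟨⊥, inferInstance, inferInstance⟩
  obtain ⟨hAn, hAc⟩ := hAmax.1
  haveI := hAn
  have hCA : centralizer (A : Set G) = A :=
    Cfsg.Agent.Lib.PGroups.MaxAbelian.centralizer_eq_of_maximal hG A hAc
      (fun B hBn hBc hAB => le_antisymm (hAmax.2 ⟨hBn, hBc⟩ hAB) hAB)
  have hc : ∀ a ∈ A, ∀ b ∈ A, a * b = b * a := fun a ha b hb =>
    congrArg Subtype.val (hAc.is_comm.comm ⟨a, ha⟩ ⟨b, hb⟩)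
  have hmin : ∀ x : G, 1 < (centralizer ({x} : Set G)).index → m ≤ (centralizer ({x} : Set G)).index := by
    intro x hx
    rcases h x with h1 | h1
    · omega
    · omega
  have hmem : ∀ x : G, x ∈ closure {x : G | (centralizer ({x} : Set G)).index = 1 ∨
      (centralizer ({x} : Set G)).index = m} := fun x => subset_closure (h x)
  have h1 : ∀ x : G, ∀ a ∈ A, a * x * a⁻¹ * x⁻¹ ∈ center G := fun x =>
    comm_mem_center_closure hc hmin (hmem x)
  apply upper_three (center G) A
  · intro z hz y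
    have h2 : y * z = z * y := (Subgroup.mem_center_iff.mp hz) y
    rw [← h2]
    group
  · intro a ha y
    exact h1 y a ha
  · intro x y
    exact comm_mem_of_central hCA (h1 x) (h1 y)

end Cfsg.Agent.Lib.FG7.SmallClasses
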